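import Mathlib

/-!
An element generating a cyclic Sylow subgroup of a simple group is inverted.
-/

set_option autoImplicit false

namespace Cfsg.Agent.H85.BT

theorem exists_inverting {G : Type*} [Group G] [Finite G] [IsSimpleGroup G] (hG : ¬ IsCyclic G)
    {l a : ℕ} (hl : l.Prime) (hl2 : l ≠ 2) (ha : a ≠ 0) {w : G} (hw : orderOf w = l ^ a)
    (hcop : ¬ l ∣ (Subgroup.zpowers w).index)
    (hr : ∀ d, d ∣ Nat.totient (l ^ a) → d ∣ (Subgroup.centralizer ({w} : Set G)).index →
      ∃ s, d = 2 ^ s) :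
    ∃ g : G, g * w * g⁻¹ = w⁻¹ := by
  classical
  have : Fact l.Prime := ⟨hl⟩
  set W := Subgroup.zpowers w with hWdef
  have hWp : IsPGroup l W := IsPGroup.of_card (n := a) (by rw [hWdef, Nat.card_zpowers, hw])
  set C := Subgroup.centralizer ({w} : Set G) with hCdef
  have hC : Subgroup.centralizer (W : Set G) = C := by
    rw [hWdef, Subgroup.zpowers_eq_closure, Subgroup.centralizer_closure]
  set N := Subgroup.normalizer (W : Set G) with hNdef
  have hCN : C ≤ N := by
    intro g hg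
    rw [← hC, Subgroup.mem_centralizer_iff] at hg
    rw [hNdef, Subgroup.mem_normalizer_iff]
    intro h
    constructor
    · intro hh
      rw [← hg h hh, mul_inv_cancel_right]
      exact hh
    · intro hh
      have h1 := hg _ hh
      have : g * h * g⁻¹ = h := by
        refine mul_left_cancel (a := g) ?_
        rw [← h1, inv_mul_cancel_right]
      rwa [this] at hh
  have hnot : ¬ N ≤ C := by
    intro hle
    let P : Sylow l G := hWp.toSylow hcop
    have hP : Subgroup.normalizer ((P : Subgroup G) : Set G) ≤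
        Subgroup.centralizer ((P : Subgroup G) : Set G) :=
      show N ≤ Subgroup.centralizer (W : Set G) by rw [hC]; exact hle
    have hc := MonoidHom.ker_transferSylow_isComplement' P hP
    rcases (MonoidHom.normal_ker (MonoidHom.transferSylow P hP)).eq_bot_or_eq_top with h | h
    · rw [h, Subgroup.isComplement'_bot_left] at hc
      exact hG ⟨⟨w, fun g => by
        show g ∈ W
        rw [show W = ⊤ from hc]; exact Subgroup.mem_top g⟩⟩
    · rw [h] at hc
      have h1 := hc.disjoint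
      rw [top_disjoint] at h1
      have h2 : w ∈ (⊥ : Subgroup G) := h1 ▸ (show w ∈ (P : Subgroup G) from Subgroup.mem_zpowers w)
      rw [Subgroup.mem_bot] at h2
      rw [h2, orderOf_one] at hw
      exact (Nat.one_lt_pow ha hl.one_lt).ne hw
  set f := W.normalizerMonoidHom with hfdef
  have hker : f.ker = C.subgroupOf N := by rw [hfdef, Subgroup.normalizerMonoidHom_ker, hC]
  have hd : Nat.card f.range = C.relIndex N := by
    rw [← Subgroup.index_ker, hker]; rfl
  obtain ⟨s, hs⟩ := hr (Nat.card f.range) (by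
    have h := Subgroup.card_subgroup_dvd_card f.range
    rwa [IsCyclic.card_mulAut, show Nat.card W = l ^ a by rw [hWdef, Nat.card_zpowers, hw]] at h)
    (hd ▸ Dvd.intro _ (Subgroup.relIndex_mul_index hCN))
  have hs0 : s ≠ 0 := by
    rintro rfl
    rw [pow_zero, hd, Subgroup.relIndex_eq_one] at hs
    exact hnot hs
  have : Fact (Nat.Prime 2) := ⟨Nat.prime_two⟩
  obtain ⟨⟨σ, hσmem⟩, hσ⟩ := exists_prime_orderOf_dvd_card' (G := f.range) 2
    (hs ▸ dvd_pow_self 2 hs0)
  replace hσ : orderOf σ = 2 := hσ ▸ Subgroup.orderOf_coe (⟨σ, hσmem⟩ : f.range)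
  obtain ⟨g, hg⟩ := hσmem
  subst hg
  have hval : ∀ x : W, ((f g x : W) : G) = (g : G) * (x : G) * (g : G)⁻¹ := fun x => rfl
  have hw' : w ∈ W := Subgroup.mem_zpowers w
  obtain ⟨k, hk⟩ : ∃ k : ℤ, w ^ k = (g : G) * w * (g : G)⁻¹ :=
    Subgroup.mem_zpowers_iff.1 ((f g ⟨w, hw'⟩).2)
  have hinv : f g (f g ⟨w, hw'⟩) = ⟨w, hw'⟩ := by
    have h : f g * f g = 1 := by rw [← sq, ← hσ, pow_orderOf_eq_one]
    exact DFunLike.congr_fun h ⟨w, hw'⟩
  have hkk : w ^ (k * k) = w := by
    have h1 := congrArg Subtype.val hinv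
    rw [hval, hval] at h1
    simp only [← hk] at h1
    rw [← conj_zpow, ← hk, ← zpow_mul] at h1
    exact h1
  have hdiv : ((l : ℤ) ^ a) ∣ (k - 1) * (k + 1) := by
    have h1 : ((orderOf w : ℕ) : ℤ) ∣ k * k - 1 := by
      rw [orderOf_dvd_iff_zpow_eq_one, zpow_sub, hkk, zpow_one, mul_inv_cancel]
    rw [hw] at h1
    push_cast at h1
    rwa [show (k - 1) * (k + 1) = k * k - 1 by ring]
  have hfix : ¬ ((l : ℤ) ^ a) ∣ (k - 1) := by
    intro h
    have h1 : w ^ (k - 1) = 1 := by
      rw [← orderOf_dvd_iff_zpow_eq_one, hw]; push_cast; exact h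
    rw [zpow_sub, zpow_one, mul_inv_eq_one, hk] at h1
    have hmem : (g : G) ∈ C := Subgroup.mem_centralizer_singleton_iff.2 (mul_inv_eq_iff_eq_mul.1 h1)
    have hgk : g ∈ f.ker := by rw [hker]; exact hmem
    rw [MonoidHom.mem_ker.1 hgk, orderOf_one] at hσ
    norm_num at hσ
  have hlp : Prime (l : ℤ) := Nat.prime_iff_prime_int.1 hl
  have hnd : ¬ (l : ℤ) ∣ k - 1 := by
    intro h
    refine hfix ((hlp.coprime_iff_not_dvd.2 fun h' => ?_).pow_left.dvd_of_dvd_mul_right hdiv)
    have h3 : (l : ℤ) ∣ ((2 : ℕ) : ℤ) := by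
      have h4 := dvd_sub h' h
      rwa [show k + 1 - (k - 1) = ((2 : ℕ) : ℤ) by push_cast; ring] at h4
    exact hl2 ((Nat.prime_dvd_prime_iff_eq hl Nat.prime_two).1 (Int.natCast_dvd_natCast.1 h3))
  have h5 := (hlp.coprime_iff_not_dvd.2 hnd).pow_left.dvd_of_dvd_mul_left hdiv
  refine ⟨g, ?_⟩
  rw [← hk, eq_inv_iff_mul_eq_one, ← zpow_add_one, ← orderOf_dvd_iff_zpow_eq_one, hw]
  push_cast
  exact h5

end Cfsg.Agent.H85.BT
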