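import Mathlib
import Cfsg.Agent.H69.PRQ.Minus
import Cfsg.Agent.H25.TITools
import Cfsg.Agent.H25.CharCoprime
import Cfsg.Agent.H30.InvolutionEquation
import Cfsg.Agent.H38.ClassCoeff

/-!
Groups of order `p q ^ b g` with small cofactor: tools.
-/

set_option autoImplicit false
set_option linter.unusedSectionVars false

namespace Cfsg.Agent.H85.BT

open Cfsg.Agent.H31.Defect Cfsg.Agent.H31.FewSylow Cfsg.Agent.H69.PRQ
open scoped ComplexConjugate

section General

variable {G : Type*} [Group G] [Fintype G]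

theorem deg_oneIrr : Cfsg.charDegree (H26.oneIrr G).1 = 1 :=
  H26.charDegree_eq (by simp [H26.oneIrr_val])

theorem deg_pos (χ : Cfsg.IrrCharacter G) : 0 < Cfsg.charDegree χ.1 := (irr_degree χ).2

theorem two_le_deg (hperf : commutator G = ⊤) {χ : Cfsg.IrrCharacter G}
    (h : χ ≠ H26.oneIrr G) : 2 ≤ Cfsg.charDegree χ.1 := by
  by_contra hlt
  have := deg_pos χ
  exact h (eq_one_of_linear hperf (by omega))

theorem not_comm {G : Type*} [Group G] [IsSimpleGroup G] (hG : ¬ IsCyclic G) :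
    ¬ IsMulCommutative G := fun h => hG (by
  let _ : CommGroup G := { (inferInstance : Group G) with mul_comm := h.is_comm.comm }
  exact IsSimpleGroup.isCyclic)

/-- The number of factorisations, times both centraliser orders. -/
theorem class_count_eq (a b c : G) :
    (Nat.card {q : G × G // IsConj a q.1 ∧ IsConj b q.2 ∧ q.1 * q.2 = c} : ℂ) *
        (Nat.card (Subgroup.centralizer ({a} : Set G)) : ℂ) *
        (Nat.card (Subgroup.centralizer ({b} : Set G)) : ℂ) =
      (Nat.card G : ℂ) *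
        ∑ χ : Cfsg.IrrCharacter G, χ.1 a * χ.1 b * conj (χ.1 c) / χ.1 1 := by
  classical
  have hcl : ∀ x : G, (Nat.card {y : G // IsConj x y} : ℂ) *
      (Nat.card (Subgroup.centralizer ({x} : Set G)) : ℂ) = (Nat.card G : ℂ) := fun x => by
    have := (Subgroup.centralizer ({x} : Set G)).index_mul_card
    rw [H25.index_centralizer_eq_card_class] at this
    exact_mod_cast this
  have hG : (Nat.card G : ℂ) ≠ 0 := Nat.cast_ne_zero.2 Nat.card_pos.ne'
  rw [H38.class_coeff]
  have h1 := hcl a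
  have h2 := hcl b
  field_simp
  linear_combination (Nat.card {y : G // IsConj b y} : ℂ) *
    (Nat.card (Subgroup.centralizer ({b} : Set G)) : ℂ) *
    (∑ χ : Cfsg.IrrCharacter G, χ.1 a * χ.1 b * conj (χ.1 c) / χ.1 1) * h1 +
    (Nat.card G : ℂ) *
    (∑ χ : Cfsg.IrrCharacter G, χ.1 a * χ.1 b * conj (χ.1 c) / χ.1 1) * h2

theorem class_count (a b c : G) : ∃ n : ℕ,
    (n : ℂ) * (Nat.card (Subgroup.centralizer ({a} : Set G)) : ℂ) *
        (Nat.card (Subgroup.centralizer ({b} : Set G)) : ℂ) =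
      (Nat.card G : ℂ) *
        ∑ χ : Cfsg.IrrCharacter G, χ.1 a * χ.1 b * conj (χ.1 c) / χ.1 1 :=
  ⟨_, class_count_eq a b c⟩

/-- No factorisation, no sum. -/
theorem class_sum_eq_zero (a b c : G) (h : ∀ x y : G, IsConj a x → IsConj b y → x * y ≠ c) :
    ∑ χ : Cfsg.IrrCharacter G, χ.1 a * χ.1 b * conj (χ.1 c) / χ.1 1 = 0 := by
  have h1 := class_count_eq a b c
  have : IsEmpty {q : G × G // IsConj a q.1 ∧ IsConj b q.2 ∧ q.1 * q.2 = c} :=
    ⟨fun q => h _ _ q.2.1 q.2.2.1 q.2.2.2⟩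
  rw [Nat.card_of_isEmpty, Nat.cast_zero, zero_mul, zero_mul] at h1
  exact (mul_eq_zero.1 h1.symm).resolve_left (Nat.cast_ne_zero.2 Nat.card_pos.ne')

theorem centralizer_dvd_card (x : G) :
    Nat.card (Subgroup.centralizer ({x} : Set G)) ∣ Nat.card G :=
  Subgroup.card_subgroup_dvd_card _

/-- A sum of roots of unity all whose conjugates are small vanishes. -/
theorem eq_zero_of_conjugates_small {N : ℕ} [NeZero N] (m : ZMod N → ℕ)
    (h1 : ‖∑ k, (m k : ℂ) * ZMod.stdAddChar k‖ < 1)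
    (hall : ∀ l : ZMod N, l.val.Coprime N →
      ‖∑ k, (m k : ℂ) * ZMod.stdAddChar (k * l)‖ ≤ 1) :
    ∑ k, (m k : ℂ) * (ZMod.stdAddChar k : ℂ) = 0 := by
  classical
  set ζ : ℂ := ZMod.stdAddChar (1 : ZMod N) with hζdef
  have hstd : ∀ k : ZMod N, (ZMod.stdAddChar k : ℂ) = ζ ^ k.val := fun k => by
    rw [hζdef, ← AddChar.map_nsmul_eq_pow, nsmul_one, ZMod.natCast_zmod_val]
  have hζ : IsPrimitiveRoot ζ N := by
    refine ⟨?_, fun n hn => ?_⟩
    · rw [hζdef, ← AddChar.map_nsmul_eq_pow, nsmul_one, ZMod.natCast_self, AddChar.map_zero_eq_one]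
    · rw [← ZMod.natCast_eq_zero_iff]
      refine ZMod.injective_stdAddChar ?_
      rw [AddChar.map_zero_eq_one, ← nsmul_one, AddChar.map_nsmul_eq_pow]
      exact hn
  set a : ℂ := ∑ k, (m k : ℂ) * (ZMod.stdAddChar k : ℂ) with ha
  by_contra ha0
  have hζint : IsIntegral ℤ ζ := hζ.isIntegral (Nat.pos_of_ne_zero (NeZero.ne N))
  have hint : IsIntegral ℤ a := by
    rw [ha]
    refine IsIntegral.sum _ fun k _ => ?_
    rw [hstd]
    exact (by exact_mod_cast isIntegral_algebraMap (R := ℤ) (A := ℂ) (x := (m k : ℤ)) :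
      IsIntegral ℤ (m k : ℂ)).mul (hζint.pow _)
  have haQ : IsIntegral ℚ a := hint.tower_top
  have hroots : ∀ b ∈ ((minpoly ℚ a).map (algebraMap ℚ ℂ)).roots, ‖b‖ ≤ 1 := by
    intro b hb
    have hb' : Polynomial.aeval b (minpoly ℚ a) = 0 := by
      rw [Polynomial.mem_roots (Polynomial.map_ne_zero (minpoly.ne_zero haQ))] at hb
      simpa [Polynomial.IsRoot, Polynomial.eval_map, ← Polynomial.aeval_def] using hb
    set L := IntermediateField.adjoin ℚ ({ζ} : Set ℂ) with hL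
    haveI : Algebra.IsAlgebraic ℚ L :=
      IntermediateField.isAlgebraic_adjoin fun x hx => by
        rw [Set.mem_singleton_iff.1 hx]; exact hζint.tower_top
    have hζL : ζ ∈ L := IntermediateField.subset_adjoin ℚ _ rfl
    have haL : a ∈ L := by
      rw [ha]
      refine sum_mem fun k _ => ?_
      rw [hstd]
      exact mul_mem (natCast_mem L _) (pow_mem hζL _)
    have hmp : minpoly ℚ (⟨a, haL⟩ : L) = minpoly ℚ a :=
      (minpoly.algebraMap_eq (algebraMap L ℂ).injective (⟨a, haL⟩ : L)).symm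
    obtain ⟨σ, hσ⟩ : ∃ σ : L →ₐ[ℚ] ℂ, σ ⟨a, haL⟩ = b := by
      have := Algebra.IsAlgebraic.range_eval_eq_rootSet_minpoly (F := ℚ) ℂ (⟨a, haL⟩ : L)
      have hbm : b ∈ (minpoly ℚ (⟨a, haL⟩ : L)).rootSet ℂ := by
        rw [hmp, Polynomial.mem_rootSet]
        exact ⟨minpoly.ne_zero haQ, hb'⟩
      rw [← this] at hbm
      exact hbm
    have hσζ : IsPrimitiveRoot (σ ⟨ζ, hζL⟩) N :=
      IsPrimitiveRoot.map_of_injective (IsPrimitiveRoot.of_map_of_injective
        (f := algebraMap L ℂ) hζ (algebraMap L ℂ).injective) σ.toRingHom.injective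
    obtain ⟨i, hiN, hi, hiζ⟩ := hζ.isPrimitiveRoot_iff.1 hσζ
    have hval : (⟨a, haL⟩ : L) = ∑ k, (m k : L) * (⟨ζ, hζL⟩ : L) ^ k.val := by
      apply Subtype.ext
      push_cast
      rw [ha]
      exact Finset.sum_congr rfl fun k _ => by rw [hstd]
    have hiv : ((i : ZMod N)).val = i := ZMod.val_natCast_of_lt hiN
    refine le_of_eq_of_le ?_ (hall (i : ZMod N) (by rwa [hiv]))
    rw [← hσ, hval, map_sum]
    congr 1
    refine Finset.sum_congr rfl fun k _ => ?_
    rw [map_mul, map_natCast, map_pow, ← hiζ, hζdef, ← AddChar.map_nsmul_eq_pow,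
      ← AddChar.map_nsmul_eq_pow, nsmul_one, nsmul_eq_mul, ZMod.natCast_zmod_val]
  set P := (minpoly ℚ a).map (algebraMap ℚ ℂ) with hP
  have hsplit : P.Splits := IsAlgClosed.splits P
  have hmonic : P.Monic := (minpoly.monic haQ).map _
  have haroot : a ∈ P.roots := by
    rw [Polynomial.mem_roots hmonic.ne_zero, hP]
    simp [Polynomial.IsRoot, Polynomial.eval_map, ← Polynomial.aeval_def, minpoly.aeval]
  have hprod : ‖P.roots.prod‖ < 1 := by
    obtain ⟨s, hs⟩ := Multiset.exists_cons_of_mem haroot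
    rw [hs, Multiset.prod_cons, norm_mul]
    have hsle : ‖s.prod‖ ≤ 1 := by
      have hall' : ∀ b ∈ s, ‖b‖ ≤ 1 := fun b hb => hroots b (hs ▸ Multiset.mem_cons_of_mem hb)
      clear hs
      induction s using Multiset.induction with
      | empty => simp
      | cons c s ih =>
        rw [Multiset.prod_cons, norm_mul]
        exact mul_le_one₀ (hall' c (Multiset.mem_cons_self _ _)) (norm_nonneg _)
          (ih fun b hb => hall' b (Multiset.mem_cons_of_mem hb))
    exact mul_lt_one_of_nonneg_of_lt_one_left (norm_nonneg _) h1 hsle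
  have hc : P.coeff 0 = ((minpoly ℚ a).coeff 0 : ℂ) := by simp [hP]
  have hlt : ‖((minpoly ℚ a).coeff 0 : ℂ)‖ < 1 := by
    rw [← hc, hsplit.coeff_zero_eq_prod_roots_of_monic hmonic]
    simpa using hprod
  refine minpoly.coeff_zero_ne_zero haQ ha0 ?_
  rw [minpoly.isIntegrallyClosed_eq_field_fractions' ℚ hint, Polynomial.coeff_map] at hlt ⊢
  simp only [algebraMap_int_eq, eq_intCast, Rat.cast_intCast, Complex.norm_intCast] at hlt ⊢
  have : |(minpoly ℤ a).coeff 0| < 1 := by exact_mod_cast hlt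
  rw [Int.abs_lt_one_iff] at this
  rw [this, Int.cast_zero]

end General

section Frame

variable {G : Type*} [Group G] [Fintype G] {p : ℕ} [hp : Fact p.Prime] {z : G}
  {e : ℕ} [NeZero e] {u : G}

/-- Multiplicities of the constituents of a character. -/
theorem coeff_mult (F : Frame p e z u) {ψ : G → ℂ} {c : Cfsg.IrrCharacter G → ℕ}
    (hc : ∀ g, ψ g = ∑ χ, (c χ : ℂ) * χ.1 g) (k : ZMod e) :
    ((∑ χ, c χ * F.mult χ k : ℕ) : ℂ) * e = (p : ℂ)⁻¹ * ∑ i : ZMod p, ψ (z ^ i.val) +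
      ∑ l ∈ Finset.univ.erase (0 : ZMod e), ψ (u ^ l.val) * conj (ZMod.stdAddChar (k * l)) := by
  classical
  have hψ : ∀ l : ZMod e, ∑ χ, (c χ : ℂ) * ((p : ℂ)⁻¹ * ∑ i : ZMod p,
      χ.1 (Frame.elt z u (i, l))) = (p : ℂ)⁻¹ * ∑ i : ZMod p, ψ (Frame.elt z u (i, l)) := by
    intro l
    simp only [hc, Finset.mul_sum]
    rw [Finset.sum_comm]
    exact Finset.sum_congr rfl fun _ _ => Finset.sum_congr rfl fun _ _ => by ring
  push_cast
  rw [Finset.sum_mul, Finset.sum_congr rfl fun χ _ => by rw [mul_assoc, F.mult_eq, Finset.mul_sum],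
    Finset.sum_comm, ← Finset.add_sum_erase _ _ (Finset.mem_univ (0 : ZMod e))]
  congr 1
  · simp only [mul_zero, AddChar.map_zero_eq_one, map_one, mul_one]
    rw [hψ]
    congr 1
    exact Finset.sum_congr rfl fun i _ => by simp [Frame.elt]
  · refine Finset.sum_congr rfl fun l hl => ?_
    simp only [← mul_assoc, ← Finset.sum_mul]
    congr 1
    rw [hc]
    refine Finset.sum_congr rfl fun χ _ => ?_
    rw [mul_assoc, F.coset_value χ (Finset.ne_of_mem_erase hl)]

theorem sum_mult (F : Frame p e z u) (B : BlockData p z (⊥ : Subgroup G))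
    (χ : Cfsg.IrrCharacter G) : ((∑ k : ZMod e, F.mult χ k : ℕ) : ℂ) = B.m χ 0 := by
  have h0 := F.sum_mult_mul χ 0
  simp only [mul_zero, AddChar.map_zero_eq_one, mul_one] at h0
  push_cast
  rw [h0, inv_mul_eq_iff_eq_mul₀ (Nat.cast_ne_zero.2 hp.out.ne_zero), mul_comm, mspec_zero]
  simp [Frame.elt]

theorem sum_mult_nat (F : Frame p e z u) (B : BlockData p z (⊥ : Subgroup G))
    (χ : Cfsg.IrrCharacter G) : ∑ k : ZMod e, F.mult χ k = B.m χ 0 := by
  exact_mod_cast sum_mult F B χ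

theorem m_zero_mul (B : BlockData p z (⊥ : Subgroup G)) {χ : Cfsg.IrrCharacter G} (hK : χ ∉ B.K) :
    (B.m χ 0 : ℤ) * p = (Cfsg.charDegree χ.1 : ℤ) - ((p : ℤ) - 1) * cc B χ := by
  refine Int.cast_injective (α := ℂ) ?_
  push_cast
  rw [mspec_zero, ← Finset.add_sum_erase _ _ (Finset.mem_univ (0 : ZMod p)),
    Finset.sum_congr rfl fun i hi => value_const B hK (Finset.ne_of_mem_erase hi),
    Finset.sum_const, Finset.card_erase_of_mem (Finset.mem_univ _), Finset.card_univ, ZMod.card,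
    nsmul_eq_mul, ZMod.val_zero, pow_zero, (irr_degree χ).1, Nat.cast_sub hp.out.one_le]
  push_cast
  ring

/-- Average of a non-exceptional character. -/
theorem sum_erase_value (B : BlockData p z (⊥ : Subgroup G)) {χ : Cfsg.IrrCharacter G}
    (hK : χ ∉ B.K) : ∑ i ∈ Finset.univ.erase (0 : ZMod p), χ.1 (z ^ i.val) =
      -(((p : ℂ) - 1) * cc B χ) := by
  rw [Finset.sum_congr rfl fun i hi => value_const B hK (Finset.ne_of_mem_erase hi),
    Finset.sum_const, Finset.card_erase_of_mem (Finset.mem_univ _), Finset.card_univ, ZMod.card,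
    nsmul_eq_mul, Nat.cast_sub hp.out.one_le]
  push_cast
  ring

/-- Average of an exceptional character. -/
theorem sum_erase_K (B : BlockData p z (⊥ : Subgroup G)) {θ : Cfsg.IrrCharacter G}
    (hθ : θ ∈ B.K) : ∑ i ∈ Finset.univ.erase (0 : ZMod p), θ.1 (z ^ i.val) =
      -(B.ε * ((H30.conjExps p z).card : ℂ)) := by
  rw [Finset.sum_congr rfl fun i hi => value_K B hθ (Finset.ne_of_mem_erase hi), ← Finset.mul_sum,
    period_sum_erase fun h => (mem_fib.1 h).1 rfl, B.fiber θ hθ]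
  ring

/-- Degrees of non-exceptional characters in the block are `±1` modulo `p`. -/
theorem cong_cc (B : BlockData p z (⊥ : Subgroup G)) {χ : Cfsg.IrrCharacter G}
    (h : cc B χ ≠ 0) : (p : ℤ) ∣ (Cfsg.charDegree χ.1 : ℤ) + cc B χ :=
  B.cong χ h

theorem cc_abs (B : BlockData p z (⊥ : Subgroup G)) (χ : Cfsg.IrrCharacter G) :
    cc B χ = 0 ∨ cc B χ = 1 ∨ cc B χ = -1 := by
  have := abs_le.1 (B.abs_le χ)
  simp only [cc]
  omega

/-- The regular relation at a `p`-regular element. -/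
theorem regular_cc (B : BlockData p z (⊥ : Subgroup G)) {g : G} (hg : ¬ p ∣ orderOf g)
    {θ : Cfsg.IrrCharacter G} (hθ : θ ∈ B.K) :
    ∑ χ : Cfsg.IrrCharacter G, χ.1 g * (cc B χ : ℂ) + B.ε * θ.1 g = 0 :=
  B.regular g hg θ hθ

end Frame

end Cfsg.Agent.H85.BT
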