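import Mathlib
import Cfsg.Agent.H85.BT.Tools
import Cfsg.Agent.H85.BT.Invert

/-!
The case of positive sign.
-/

set_option autoImplicit false
set_option linter.unusedSectionVars false

namespace Cfsg.Agent.H85.BT

open Cfsg.Agent.H31.Defect Cfsg.Agent.H31.FewSylow Cfsg.Agent.H69.PRQ
open scoped ComplexConjugate

variable {G : Type*} [Group G] [Fintype G] {p : ℕ} [hp : Fact p.Prime] {z : G}
  {e : ℕ} [NeZero e] {u : G}

set_option maxHeartbeats 1000000 in
/-- The constituents of the square of the exceptional norm. -/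
theorem plus_structure (hperf : commutator G = ⊤) (B : BlockData p z (⊥ : Subgroup G))
    (he : (H30.conjExps p z).card = e) (he2 : 2 ≤ e) (hε : B.ε = 1) (hD : B.D = e)
    (hpe : p = 2 * e + 1) :
    ∃ c : Cfsg.IrrCharacter G → ℕ,
      (∀ g, (B.κ 1).1 g * conj ((B.κ 1).1 g) = ∑ χ, (c χ : ℂ) * χ.1 g) ∧
      c (H26.oneIrr G) = 1 ∧ Odd e ∧
      (∀ χ, χ ≠ H26.oneIrr G → c χ ≠ 0 →
        χ ∉ B.K ∧ cc B χ = -1 ∧ Cfsg.charDegree χ.1 = p + 1) ∧
      ∃ χ, χ ≠ H26.oneIrr G ∧ c χ ≠ 0 := by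
  classical
  set θ := B.κ 1 with hθd
  have hθ : θ ∈ B.K := B.κ_mem 1 one_ne_zero
  obtain ⟨c, hc0, hc⟩ := exists_coeff (H25.isCharacter_mul_conj θ θ)
  have hone : c (H26.oneIrr G) = 1 := by
    refine Nat.cast_injective (R := ℂ) ?_
    rw [hc0, Nat.cast_one, ← (H26.classInner_irr θ θ).trans (if_pos rfl)]
    simp [Cfsg.classInner, H26.oneIrr_val]
  have hdeg : ∑ χ, c χ * Cfsg.charDegree χ.1 = e * e := by
    refine Nat.cast_injective (R := ℂ) ?_
    push_cast
    have h := hc 1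
    simp only [(irr_degree _).1, Complex.conj_natCast, B.degK θ hθ, hD] at h
    rw [h]
  have hK : ∀ θ' ∈ B.K, ∑ i ∈ Finset.univ.erase (0 : ZMod p), θ'.1 (z ^ i.val) = -(e : ℂ) := by
    intro θ' h'
    rw [sum_erase_K B h', he, hε, Int.cast_one, one_mul]
  have hn : ∀ χ ∉ B.K, ∑ i ∈ Finset.univ.erase (0 : ZMod p), χ.1 (z ^ i.val) =
      -(2 * (e : ℂ) * cc B χ) := by
    intro χ hχ
    rw [sum_erase_value B hχ, show (p : ℂ) = 2 * e + 1 by exact_mod_cast hpe]
    ring
  set T : Cfsg.IrrCharacter G → ℤ := fun χ => if χ ∈ B.K then -1 else -2 * cc B χ with hTdef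
  have hT : ∑ χ, (c χ : ℤ) * T χ = (e : ℤ) + 1 := by
    refine Int.cast_injective (α := ℂ) (mul_left_cancel₀
      (Nat.cast_ne_zero.2 (NeZero.ne e) : (e : ℂ) ≠ 0) ?_)
    push_cast
    have h1 : ∑ i ∈ Finset.univ.erase (0 : ZMod p), θ.1 (z ^ i.val) * conj (θ.1 (z ^ i.val)) =
        (e : ℂ) * ((e : ℂ) + 1) := by
      have h := period_normSq_sum (fib B.κ θ)
      rw [B.fiber θ hθ, he, ← Finset.add_sum_erase _ _ (Finset.mem_univ (0 : ZMod p))] at h
      simp only [mul_zero, AddChar.map_zero_eq_one, Finset.sum_const, B.fiber θ hθ, he,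
        nsmul_eq_mul, mul_one, Complex.conj_natCast] at h
      have h2 : ∀ i ∈ Finset.univ.erase (0 : ZMod p), θ.1 (z ^ i.val) * conj (θ.1 (z ^ i.val)) =
          (∑ x ∈ fib B.κ θ, (ZMod.stdAddChar (x * i) : ℂ)) *
            conj (∑ y ∈ fib B.κ θ, (ZMod.stdAddChar (y * i) : ℂ)) := fun i hi => by
        rw [value_K B hθ (Finset.ne_of_mem_erase hi), hε, Int.cast_one, one_mul]
      rw [Finset.sum_congr rfl h2]
      have hpC : (p : ℂ) = 2 * e + 1 := by exact_mod_cast hpe
      linear_combination h + (e : ℂ) * hpC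
    have h3 : ∑ i ∈ Finset.univ.erase (0 : ZMod p), θ.1 (z ^ i.val) * conj (θ.1 (z ^ i.val)) =
        ∑ χ, (c χ : ℂ) * ∑ i ∈ Finset.univ.erase (0 : ZMod p), χ.1 (z ^ i.val) := by
      simp only [Finset.mul_sum]
      rw [Finset.sum_comm]
      exact Finset.sum_congr rfl fun i _ => hc (z ^ i.val)
    rw [← h1, h3, Finset.mul_sum]
    refine Finset.sum_congr rfl fun χ _ => ?_
    simp only [T]
    split_ifs with hχ
    · rw [hK χ hχ]; push_cast; ring
    · rw [hn χ hχ]; push_cast; ring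
  rw [← Finset.add_sum_erase _ _ (Finset.mem_univ (H26.oneIrr G)), hone] at hT hdeg
  have hT1 : T (H26.oneIrr G) = 2 := by
    simp only [T, if_neg B.one_not, cc_one]; norm_num
  rw [hT1] at hT
  rw [deg_oneIrr] at hdeg
  set X := Finset.univ.erase (H26.oneIrr G) with hX
  -- the pointwise bound
  have hle : ∀ χ ∈ X, ((p : ℤ) + 1) * ((c χ : ℤ) * T χ) ≤
      2 * ((c χ : ℤ) * Cfsg.charDegree χ.1) := by
    intro χ hχ
    have hd2 := two_le_deg hperf (Finset.ne_of_mem_erase hχ)
    suffices h : ((p : ℤ) + 1) * T χ ≤ 2 * (Cfsg.charDegree χ.1 : ℤ) by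
      nlinarith [mul_le_mul_of_nonneg_left h (Nat.cast_nonneg (c χ) : (0 : ℤ) ≤ c χ)]
    simp only [T]
    split_ifs with hK'
    · omega
    · rcases cc_abs B χ with h | h | h
      · rw [h]; omega
      · rw [h]; omega
      · have h1 := cong_cc B (χ := χ) (by omega)
        rw [h] at h1 ⊢
        have := Int.le_of_dvd (by omega) h1
        omega
  have htot : ∑ χ ∈ X, ((p : ℤ) + 1) * ((c χ : ℤ) * T χ) =
      ∑ χ ∈ X, 2 * ((c χ : ℤ) * Cfsg.charDegree χ.1) := by
    rw [← Finset.mul_sum, ← Finset.mul_sum]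
    have h1 : ∑ χ ∈ X, (c χ : ℤ) * T χ = (e : ℤ) - 1 := by push_cast at hT; linarith
    have h2 : ∑ χ ∈ X, (c χ : ℤ) * Cfsg.charDegree χ.1 = (e : ℤ) * e - 1 := by
      have h : ((1 * 1 + ∑ χ ∈ X, c χ * Cfsg.charDegree χ.1 : ℕ) : ℤ) = ((e * e : ℕ) : ℤ) := by
        rw [hdeg]
      push_cast at h
      linarith
    rw [h1, h2, hpe]
    push_cast
    ring
  have heq := (Finset.sum_eq_sum_iff_of_le hle).1 htot
  have hA : ∀ χ, χ ≠ H26.oneIrr G → c χ ≠ 0 →
      χ ∉ B.K ∧ cc B χ = -1 ∧ Cfsg.charDegree χ.1 = p + 1 := by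
    intro χ hne hcne
    have h := heq χ (Finset.mem_erase.2 ⟨hne, Finset.mem_univ _⟩)
    have h' : ((p : ℤ) + 1) * T χ = 2 * (Cfsg.charDegree χ.1 : ℤ) :=
      mul_left_cancel₀ (Int.natCast_ne_zero.2 hcne) (by linarith)
    have hd := deg_pos χ
    simp only [T] at h'
    split_ifs at h' with hK'
    · omega
    · rcases cc_abs B χ with hcc | hcc | hcc
      · rw [hcc] at h'; omega
      · rw [hcc] at h'; omega
      · rw [hcc] at h'
        exact ⟨hK', hcc, by omega⟩
  have hsumA : (2 : ℤ) * ∑ χ ∈ X, (c χ : ℤ) = (e : ℤ) - 1 := by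
    have h1 : ∑ χ ∈ X, (c χ : ℤ) * T χ = (e : ℤ) - 1 := by push_cast at hT; linarith
    rw [← h1, Finset.mul_sum]
    refine Finset.sum_congr rfl fun χ hχ => ?_
    by_cases hcne : c χ = 0
    · simp [hcne]
    · obtain ⟨hK', hcc, -⟩ := hA χ (Finset.ne_of_mem_erase hχ) hcne
      simp only [T, if_neg hK', hcc]
      ring
  refine ⟨c, hc, hone, ?_, hA, ?_⟩
  · rw [Nat.odd_iff]; omega
  · by_contra h
    simp only [not_exists, not_and, not_not] at h
    rw [Finset.sum_eq_zero fun χ hχ => by rw [h χ (Finset.ne_of_mem_erase hχ), Nat.cast_zero]]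
      at hsumA
    omega

/-- Splitting a sum along the constituents. -/
theorem sum_split {M : Type*} [AddCommMonoid M] [DecidableEq (Cfsg.IrrCharacter G)]
    (c : Cfsg.IrrCharacter G → ℕ) (hone : c (H26.oneIrr G) ≠ 0)
    (f : Cfsg.IrrCharacter G → M) :
    ∑ χ, f χ = f (H26.oneIrr G) +
      (∑ χ ∈ (Finset.univ.erase (H26.oneIrr G)).filter (fun χ => c χ ≠ 0), f χ +
        ∑ χ ∈ Finset.univ.filter (fun χ => c χ = 0), f χ) := by
  rw [← Finset.add_sum_erase _ _ (Finset.mem_univ (H26.oneIrr G)),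
    ← Finset.sum_filter_add_sum_filter_not (Finset.univ.erase (H26.oneIrr G)) (fun χ => c χ ≠ 0)]
  congr 2
  refine Finset.sum_congr ?_ fun _ _ => rfl
  ext χ
  simp only [Finset.mem_filter, Finset.mem_erase, Finset.mem_univ, and_true, true_and, not_not]
  exact ⟨fun h => h.2, fun h => ⟨fun h' => hone (h' ▸ h), h⟩⟩

/-- Elements of order `p` are conjugate to powers of `z`. -/
theorem exists_conj_mem_zpowers (hz : orderOf z = p) (hsq : ¬ p ^ 2 ∣ Nat.card G) {y : G}
    (hy : orderOf y = p) : ∃ g : G, g * y * g⁻¹ ∈ Subgroup.zpowers z := by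
  classical
  have hpow : ∀ x : G, orderOf x = p →
      ∃ P : Sylow p G, (P : Subgroup G) = Subgroup.zpowers x := by
    intro x hx
    obtain ⟨P, hP⟩ := (IsPGroup.of_card (G := Subgroup.zpowers x) (n := 1)
      (by rw [Nat.card_zpowers, hx, pow_one])).exists_le_sylow
    refine ⟨P, (Subgroup.eq_of_le_of_card_ge hP ?_).symm⟩
    obtain ⟨k, hk⟩ := P.isPGroup'.exists_card_eq
    rw [Nat.card_zpowers, hx, hk]
    have hk1 : k ≤ 1 := by
      by_contra hlt
      exact hsq ((pow_dvd_pow p (not_le.1 hlt)).trans (hk ▸ Subgroup.card_subgroup_dvd_card _))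
    calc p ^ k ≤ p ^ 1 := Nat.pow_le_pow_right hp.out.pos hk1
      _ = p := pow_one p
  obtain ⟨P, hP⟩ := hpow y hy
  obtain ⟨Q, hQ⟩ := hpow z hz
  obtain ⟨g, hg⟩ := MulAction.exists_smul_eq G P Q
  refine ⟨g, ?_⟩
  rw [← hQ, ← hg]
  exact ⟨y, by rw [hP]; exact Subgroup.mem_zpowers y, rfl⟩

/-- Nothing of order `p` centralises an element of the complement. -/
theorem not_dvd_centralizer (F : Frame p e z u) (hsq : ¬ p ^ 2 ∣ Nat.card G) {l : ZMod e}
    (hl : l ≠ 0) : ¬ p ∣ Nat.card (Subgroup.centralizer ({u ^ l.val} : Set G)) := by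
  intro hd
  obtain ⟨⟨y, hyC⟩, hy⟩ := exists_prime_orderOf_dvd_card' p hd
  rw [Subgroup.orderOf_mk] at hy
  obtain ⟨g, hg⟩ := exists_conj_mem_zpowers F.ordz hsq hy
  have hgy : orderOf (g * y * g⁻¹) = p :=
    (orderOf_injective (MulAut.conj g).toMonoidHom (MulAut.conj g).injective y).trans hy
  have hgen : Subgroup.zpowers (g * y * g⁻¹) = Subgroup.zpowers z :=
    Subgroup.eq_of_le_of_card_ge (Subgroup.zpowers_le.2 hg)
      (by rw [Nat.card_zpowers, Nat.card_zpowers, hgy, F.ordz])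
  have hw : g * u ^ l.val * g⁻¹ ∈ Subgroup.zpowers z := by
    rw [← F.cent, Subgroup.mem_centralizer_singleton_iff]
    obtain ⟨k, hk⟩ := (mem_powers_iff_mem_zpowers).2 (hgen ▸ Subgroup.mem_zpowers z)
    have hcomm : Commute (g * u ^ l.val * g⁻¹) (g * y * g⁻¹) := by
      have h := Subgroup.mem_centralizer_singleton_iff.1 hyC
      show _ * _ = _ * _
      rw [show g * u ^ l.val * g⁻¹ * (g * y * g⁻¹) = g * (u ^ l.val * y) * g⁻¹ by group, ← h]
      group
    rw [← show (g * y * g⁻¹) ^ k = z from hk]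
    exact hcomm.pow_right k
  have h1 : orderOf (g * u ^ l.val * g⁻¹) ∣ p := by
    have h' := orderOf_dvd_natCard (⟨_, hw⟩ : Subgroup.zpowers z)
    rwa [Nat.card_zpowers, F.ordz, Subgroup.orderOf_mk] at h'
  have h2 : orderOf (g * u ^ l.val * g⁻¹) ∣ e := by
    rw [show g * u ^ l.val * g⁻¹ = (MulAut.conj g).toMonoidHom (u ^ l.val) from rfl,
      orderOf_injective _ (MulAut.conj g).injective]
    exact (orderOf_pow_dvd _).trans (dvd_of_eq F.ordu)
  rcases (Nat.dvd_prime hp.out).1 h1 with h | h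
  · rw [orderOf_eq_one_iff] at h
    have h3 : u ^ l.val = 1 := by
      have := congrArg (fun x => g⁻¹ * x * g) h
      simpa [mul_assoc] using this
    exact hl (F.pow_mem_zpowers (by rw [h3]; exact Subgroup.one_mem _))
  · exact F.ndvd (h ▸ h2)

/-- The other generators of the complement have the same centraliser. -/
theorem centralizer_upow (hu : orderOf u = e) {l : ZMod e} (hl : l.val.Coprime e) :
    Subgroup.centralizer ({u ^ l.val} : Set G) = Subgroup.centralizer ({u} : Set G) := by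
  have hgen : Subgroup.zpowers (u ^ l.val) = Subgroup.zpowers u := by
    refine Subgroup.eq_of_le_of_card_ge
      (Subgroup.zpowers_le.2 (Subgroup.pow_mem _ (Subgroup.mem_zpowers u) _)) ?_
    rw [Nat.card_zpowers, Nat.card_zpowers, Nat.Coprime.orderOf_pow (by rw [hu]; exact hl.symm)]
  rw [← Subgroup.centralizer_closure, ← Subgroup.zpowers_eq_closure, hgen,
    Subgroup.zpowers_eq_closure, Subgroup.centralizer_closure]

/-- A central involution of a Sylow subgroup. -/
theorem exists_central_involution (q b : ℕ) (hq : q = 2) (hb : b ≠ 0) (hdvd : q ^ b ∣ Nat.card G) :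
    ∃ i : G, orderOf i = 2 ∧ q ^ b ∣ Nat.card (Subgroup.centralizer ({i} : Set G)) := by
  classical
  subst hq
  have : Fact (Nat.Prime 2) := ⟨Nat.prime_two⟩
  obtain ⟨P, hP⟩ := Sylow.exists_subgroup_card_pow_prime 2 hdvd
  have hPg : IsPGroup 2 P := IsPGroup.of_card hP
  have : Nontrivial P := Finite.one_lt_card_iff_nontrivial.1 (hP ▸ Nat.one_lt_pow hb one_lt_two)
  have hnt := hPg.center_nontrivial
  have hd : 2 ∣ Nat.card (Subgroup.center P) := by
    obtain ⟨k, hk⟩ := (hPg.to_subgroup (Subgroup.center P)).exists_card_eq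
    rw [hk]
    refine dvd_pow_self 2 fun h => ?_
    rw [h, pow_zero] at hk
    exact (Finite.one_lt_card_iff_nontrivial.2 hnt).ne' hk
  obtain ⟨x, hx⟩ := exists_prime_orderOf_dvd_card' 2 hd
  refine ⟨((x : P) : G), by rw [Subgroup.orderOf_coe, Subgroup.orderOf_coe, hx], ?_⟩
  rw [← hP]
  refine Subgroup.card_dvd_of_le fun g hg => Subgroup.mem_centralizer_singleton_iff.2 ?_
  exact congrArg Subtype.val (Subgroup.mem_center_iff.1 x.2 ⟨g, hg⟩)

/-- Exceptional characters vanish at the complement when the sign is positive. -/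
theorem plus_mult_theta (F : Frame p e z u) (B : BlockData p z (⊥ : Subgroup G))
    (he : (H30.conjExps p z).card = e) (hε : B.ε = 1) (hD : B.D = e)
    {θ : Cfsg.IrrCharacter G} (hθ : θ ∈ B.K) {l : ZMod e} (hl : l ≠ 0) :
    θ.1 (u ^ l.val) = 0 := by
  have h := sum_value_K B hθ
  rw [hD, he, hε, Int.cast_one, one_mul, sub_self] at h
  have h0 : B.m θ 0 = 0 := by
    have h' := (mul_eq_zero.1 h).resolve_right (Nat.cast_ne_zero.2 hp.out.ne_zero)
    exact_mod_cast h'
  have h1 := sum_mult_nat F B θ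
  rw [h0, Finset.sum_eq_zero_iff] at h1
  rw [F.value_eq θ hl]
  exact Finset.sum_eq_zero fun k hk => by rw [h1 k hk, Nat.cast_zero, zero_mul]

set_option maxHeartbeats 2000000 in
/-- Positive sign. -/
theorem plus_main [IsSimpleGroup G] (hG : ¬ IsCyclic G) (F : Frame p e z u)
    (B : BlockData p z (⊥ : Subgroup G)) (hsq : ¬ p ^ 2 ∣ Nat.card G)
    (he : (H30.conjExps p z).card = e) (hε : B.ε = 1) (hD : B.D = e)
    (hpe : p = 2 * e + 1) {q b : ℕ} (hq : q.Prime) (hcard : Nat.card G = p * e * q ^ b) :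
    ∃ m, p + 1 = 2 ^ m ∧ q ^ b = p + 1 := by
  classical
  have hperf := perfect_of_simple hG
  have he2 := F.two_le
  obtain ⟨c, hc, hone, hodd, hA, χ₁, hχ₁, hcχ₁⟩ := plus_structure hperf B he he2 hε hD hpe
  set θ := B.κ 1 with hθd
  have hθ : θ ∈ B.K := B.κ_mem 1 one_ne_zero
  have hθ1 : θ ≠ H26.oneIrr G := fun h => B.one_not (h ▸ hθ)
  have hodd' : e % 2 = 1 := Nat.odd_iff.1 hodd
  have hcop2 : Nat.Coprime 2 e := Nat.coprime_two_left.2 hodd
  -- the degree `p + 1` is a power of two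
  obtain ⟨m, hm, hq2, hmb⟩ : ∃ m, p + 1 = 2 ^ m ∧ q = 2 ∧ m ≤ b := by
    obtain ⟨-, hcc, hd⟩ := hA χ₁ hχ₁ hcχ₁
    have hdvd := B.dvd χ₁ (show cc B χ₁ ≠ 0 by omega)
    rw [Subgroup.card_bot, mul_one, hcard, hd, mul_comm (p + 1), mul_assoc] at hdvd
    have h1 : p + 1 ∣ e * q ^ b := Nat.dvd_of_mul_dvd_mul_left hp.out.pos hdvd
    have hcop : Nat.Coprime (p + 1) e := by
      rw [show p + 1 = 2 + e * 2 by omega, Nat.coprime_add_mul_left_left]
      exact hcop2
    obtain ⟨j, hjb, hj⟩ := (Nat.dvd_prime_pow hq).1 (hcop.dvd_of_dvd_mul_left h1)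
    have h2 : 2 ∣ q ^ j := by rw [← hj]; omega
    have hq2 := ((Nat.prime_dvd_prime_iff_eq Nat.prime_two hq).1
      (Nat.prime_two.dvd_of_dvd_pow h2)).symm
    exact ⟨j, hq2 ▸ hj, hq2, hjb⟩
  subst hq2
  refine ⟨m, hm, ?_⟩
  have hm0 : m ≠ 0 := by
    rintro rfl
    rw [pow_zero] at hm
    have := hp.out.one_lt
    omega
  set X := (Finset.univ.erase (H26.oneIrr G)).filter (fun χ => c χ ≠ 0) with hX
  set R := Finset.univ.filter (fun χ : Cfsg.IrrCharacter G => c χ = 0) with hR
  have hmem : ∀ χ ∈ X, χ ≠ H26.oneIrr G ∧ c χ ≠ 0 := fun χ hχ =>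
    ⟨Finset.ne_of_mem_erase (Finset.mem_filter.1 hχ).1, (Finset.mem_filter.1 hχ).2⟩
  have hsplit : ∀ f : Cfsg.IrrCharacter G → ℂ,
      ∑ χ, f χ = f (H26.oneIrr G) + (∑ χ ∈ X, f χ + ∑ χ ∈ R, f χ) :=
    fun f => sum_split c (by omega) f
  -- multiplicities
  have hpC : (p : ℂ) = 2 * e + 1 := by exact_mod_cast hpe
  have hM : ∀ k : ZMod e, ∑ χ, c χ * F.mult χ k = 1 := by
    intro k
    have h := coeff_mult F (ψ := fun g => θ.1 g * conj (θ.1 g)) hc k
    have h1 : ∑ i : ZMod p, θ.1 (z ^ i.val) * conj (θ.1 (z ^ i.val)) = (e : ℂ) * p := by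
      have hs := period_normSq_sum (fib B.κ θ)
      rw [B.fiber θ hθ, he, ← Finset.add_sum_erase _ _ (Finset.mem_univ (0 : ZMod p))] at hs
      simp only [mul_zero, AddChar.map_zero_eq_one, Finset.sum_const, B.fiber θ hθ, he,
        nsmul_eq_mul, mul_one, Complex.conj_natCast] at hs
      rw [← Finset.add_sum_erase _ _ (Finset.mem_univ (0 : ZMod p)), ZMod.val_zero, pow_zero,
        (irr_degree θ).1, B.degK θ hθ, hD, Complex.conj_natCast,
        Finset.sum_congr rfl fun i hi => by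
          rw [value_K B hθ (Finset.ne_of_mem_erase hi), hε, Int.cast_one, one_mul]]
      linear_combination hs
    rw [h1, Finset.sum_eq_zero (s := Finset.univ.erase (0 : ZMod e)) fun l hl => by
      rw [plus_mult_theta F B he hε hD hθ (Finset.ne_of_mem_erase hl), zero_mul, zero_mul],
      add_zero, mul_comm (e : ℂ) (p : ℂ),
      inv_mul_cancel_left₀ (Nat.cast_ne_zero.2 hp.out.ne_zero : (p : ℂ) ≠ 0)] at h
    have h2 : ((∑ χ, c χ * F.mult χ k : ℕ) : ℂ) = ((1 : ℕ) : ℂ) := by
      rw [Nat.cast_one]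
      exact mul_right_cancel₀ (Nat.cast_ne_zero.2 (NeZero.ne e) : (e : ℂ) ≠ 0)
        (h.trans (one_mul _).symm)
    exact_mod_cast h2
  have hsumX : ∀ χ ∈ X, ∑ k : ZMod e, F.mult χ k = 2 := by
    intro χ hχ
    obtain ⟨hne, hcne⟩ := hmem χ hχ
    obtain ⟨hK, hcc, hd⟩ := hA χ hne hcne
    rw [sum_mult_nat F B]
    have h := m_zero_mul B hK
    rw [hcc, hd] at h
    push_cast at h
    have h2 : (B.m χ 0 : ℤ) * p = 2 * p := by rw [h]; ring
    exact_mod_cast mul_right_cancel₀ (Int.natCast_ne_zero.2 hp.out.ne_zero) h2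
  have hM' : ∀ k : ZMod e, ∑ χ ∈ X, c χ * F.mult χ k + (if k = 0 then 1 else 0) = 1 := by
    intro k
    have h := hM k
    rw [← Finset.add_sum_erase _ _ (Finset.mem_univ (H26.oneIrr G)), hone, one_mul,
      F.mult_one, ← Finset.sum_filter_of_ne (p := fun χ => c χ ≠ 0)
        (fun χ _ hne h' => hne (by rw [h', zero_mul]))] at h
    rw [add_comm]
    exact h
  have hc1 : ∀ χ ∈ X, c χ = 1 := by
    intro χ hχ
    obtain ⟨k, hk⟩ : ∃ k, F.mult χ k ≠ 0 := by
      by_contra h
      simp only [not_exists, not_not] at h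
      have h2 := hsumX χ hχ
      rw [Finset.sum_eq_zero fun k _ => h k] at h2
      omega
    have h1 : c χ * F.mult χ k ≤ 1 := le_trans
      (Finset.single_le_sum (f := fun χ => c χ * F.mult χ k) (fun _ _ => Nat.zero_le _) hχ)
      ((Nat.le_add_right _ _).trans_eq (hM' k))
    have h2 : c χ ≤ c χ * F.mult χ k := Nat.le_mul_of_pos_right _ (by omega)
    have := (hmem χ hχ).2
    omega
  have hle1 : ∀ χ ∈ X, ∀ k, F.mult χ k ≤ 1 := by
    intro χ hχ k
    have h1 : c χ * F.mult χ k ≤ 1 := le_trans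
      (Finset.single_le_sum (f := fun χ => c χ * F.mult χ k) (fun _ _ => Nat.zero_le _) hχ)
      ((Nat.le_add_right _ _).trans_eq (hM' k))
    rwa [hc1 χ hχ, one_mul] at h1
  have hMX : ∀ k : ZMod e, (∑ χ ∈ X, (F.mult χ k : ℂ)) + (if k = 0 then 1 else 0) = 1 := by
    intro k
    have h := hM' k
    rw [Finset.sum_congr rfl fun χ hχ => by rw [hc1 χ hχ, one_mul]] at h
    split_ifs at h ⊢ <;> exact_mod_cast h
  -- the two multiplicities of a constituent are opposite
  have hpair : ∀ χ ∈ X, ∃ k : ZMod e, ∀ l : ZMod e, l ≠ 0 →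
      χ.1 (u ^ l.val) = ZMod.stdAddChar (k * l) + ZMod.stdAddChar (-k * l) ∧
      ∀ f : ZMod e → ℂ, ∑ j, (F.mult χ j : ℂ) * f j = f k + f (-k) := by
    intro χ hχ
    have hcard2 : (Finset.univ.filter fun k => F.mult χ k ≠ 0).card = 2 := by
      rw [← hsumX χ hχ, Finset.card_filter]
      refine Finset.sum_congr rfl fun k _ => ?_
      have := hle1 χ hχ k
      split_ifs <;> omega
    obtain ⟨k₁, k₂, hne, hk⟩ := Finset.card_eq_two.1 hcard2
    have hsum : ∀ f : ZMod e → ℂ, ∑ j, (F.mult χ j : ℂ) * f j = f k₁ + f k₂ := by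
      intro f
      rw [← Finset.sum_filter_of_ne (p := fun j => F.mult χ j ≠ 0)
        (fun j _ hj h => hj (by rw [h, Nat.cast_zero, zero_mul])), hk, Finset.sum_pair hne]
      have h1 : ∀ j ∈ Finset.univ.filter (fun k => F.mult χ k ≠ 0), F.mult χ j = 1 := fun j hj => by
        have := (Finset.mem_filter.1 hj).2
        have := hle1 χ hχ j
        omega
      rw [h1 k₁ (by rw [hk]; simp), h1 k₂ (by rw [hk]; simp)]
      push_cast
      ring
    have hval : ∀ l : ZMod e, l ≠ 0 →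
        χ.1 (u ^ l.val) = ZMod.stdAddChar (k₁ * l) + ZMod.stdAddChar (k₂ * l) := fun l hl => by
      rw [F.value_eq χ hl]
      exact hsum fun j => (ZMod.stdAddChar (j * l) : ℂ)
    have hopp : k₂ = -k₁ := by
      rw [eq_neg_iff_add_eq_zero, add_comm, ← ZMod.val_eq_zero]
      refine Nat.eq_zero_of_dvd_of_lt ?_ (ZMod.val_lt _)
      refine (Nat.dvd_iff_prime_pow_dvd_dvd _ _).2 fun l n hl hln => ?_
      rcases Nat.eq_zero_or_pos n with rfl | hn0
      · simp
      refine (pow_dvd_pow l ((hl.pow_dvd_iff_le_factorization (NeZero.ne e)).1 hln)).trans ?_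
      have hle : l ∣ e := (dvd_pow_self l hn0.ne').trans hln
      set a := e.factorization l with ha
      have ha0 : a ≠ 0 := (hl.factorization_pos_of_dvd (NeZero.ne e) hle).ne'
      have hLc : l ^ a * (e / l ^ a) = e := Nat.ordProj_mul_ordCompl_eq_self e l
      have hlc : ¬ l ∣ e / l ^ a := Nat.not_dvd_ordCompl hl (NeZero.ne e)
      set c₀ := e / l ^ a with hc₀
      have hc0pos : 0 < c₀ := Nat.pos_of_ne_zero fun h => hlc (by rw [h]; exact dvd_zero _)
      have hL1 : 1 < l ^ a := Nat.one_lt_pow ha0 hl.one_lt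
      have hc0lt : c₀ < e := by
        calc c₀ = 1 * c₀ := (one_mul _).symm
          _ < l ^ a * c₀ := Nat.mul_lt_mul_of_pos_right hL1 hc0pos
          _ = e := hLc
      have hl2 : l ≠ 2 := fun h => by
        have : 2 ∣ e := h ▸ hle
        omega
      have hlp : l ≠ p := fun h => F.ndvd (h ▸ hle)
      have hw : orderOf (u ^ c₀) = l ^ a := by
        rw [orderOf_pow, F.ordu, Nat.gcd_eq_right (Dvd.intro_left _ hLc)]
        exact Nat.div_eq_of_eq_mul_left hc0pos hLc.symm
      have hidx : (Subgroup.zpowers (u ^ c₀)).index = p * c₀ * 2 ^ b := by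
        refine Nat.eq_of_mul_eq_mul_left (pow_pos hl.pos a) ?_
        have h := Subgroup.card_mul_index (Subgroup.zpowers (u ^ c₀))
        rw [Nat.card_zpowers, hw, hcard] at h
        rw [h]
        conv_lhs => rw [← hLc]
        ring
      obtain ⟨g, hg⟩ := exists_inverting hG hl hl2 ha0 hw (by
        rw [hidx]
        intro hd
        rcases hl.dvd_mul.1 hd with h | h
        · rcases hl.dvd_mul.1 h with h' | h'
          · exact hlp ((Nat.prime_dvd_prime_iff_eq hl hp.out).1 h')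
          · exact hlc h'
        · exact hl2 ((Nat.prime_dvd_prime_iff_eq hl Nat.prime_two).1 (hl.dvd_of_dvd_pow h))) (by
        intro d hd1 hd2
        have hdp : ¬ p ∣ d := fun h => by
          have h1 := Nat.le_of_dvd (Nat.totient_pos.2 (pow_pos hl.pos a)) (h.trans hd1)
          have h2 := Nat.totient_le (l ^ a)
          have h3 : l ^ a ≤ e := Nat.le_of_dvd (NeZero.pos e) (Dvd.intro _ hLc)
          omega
        have h1 : (Subgroup.centralizer ({u ^ c₀} : Set G)).index ∣ p * 2 ^ b := by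
          obtain ⟨r, hr⟩ : e ∣ Nat.card (Subgroup.centralizer ({u ^ c₀} : Set G)) := by
            rw [← F.ordu, ← Nat.card_zpowers]
            exact Subgroup.card_dvd_of_le (Subgroup.zpowers_le.2
              (Subgroup.mem_centralizer_singleton_iff.2 (Commute.self_pow u c₀).eq))
          refine Dvd.intro r (Nat.eq_of_mul_eq_mul_left (NeZero.pos e) ?_)
          have h := Subgroup.index_mul_card (Subgroup.centralizer ({u ^ c₀} : Set G))
          rw [hr, hcard] at h
          linarith [h]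
        have h2 : d ∣ 2 ^ b := ((hp.out.coprime_iff_not_dvd.2 hdp).symm).dvd_of_dvd_mul_left
          (hd2.trans h1)
        obtain ⟨s, -, hs⟩ := (Nat.dvd_prime_pow Nat.prime_two).1 h2
        exact ⟨s, hs⟩)
      have hl0 : (c₀ : ZMod e) ≠ 0 := fun h => by
        have := Nat.le_of_dvd hc0pos ((ZMod.natCast_eq_zero_iff _ _).1 h)
        omega
      have hv := hval (c₀ : ZMod e) hl0
      rw [ZMod.val_natCast_of_lt hc0lt] at hv
      have hreal : conj (χ.1 (u ^ c₀)) = χ.1 (u ^ c₀) := by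
        rw [← H26.irr_inv χ, ← hg, H26.irr_conj]
      rw [hv, map_add] at hreal
      set x : ℂ := ZMod.stdAddChar (k₁ * (c₀ : ZMod e)) with hx
      set y : ℂ := ZMod.stdAddChar (k₂ * (c₀ : ZMod e)) with hy
      have hxx : x * conj x = 1 := by
        rw [hx, conj_std, ← AddChar.map_add_eq_mul, add_neg_cancel, AddChar.map_zero_eq_one]
      have hyy : y * conj y = 1 := by
        rw [hy, conj_std, ← AddChar.map_add_eq_mul, add_neg_cancel, AddChar.map_zero_eq_one]
      have h3 : (x + y) * (x * y - 1) = 0 := by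
        linear_combination -(x * y) * hreal + y * hxx + x * hyy
      have hpowe : ∀ j : ZMod e, (ZMod.stdAddChar j : ℂ) ^ e = 1 := fun j => by
        rw [← AddChar.map_nsmul_eq_pow, nsmul_eq_mul, ZMod.natCast_self, zero_mul,
          AddChar.map_zero_eq_one]
      have hne0 : x + y ≠ 0 := by
        intro h
        have hy' : y = -x := by linear_combination h
        have h4 := hpowe (k₂ * (c₀ : ZMod e))
        rw [← hy, hy', hodd.neg_pow, hx, hpowe] at h4
        norm_num at h4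
      have hxy : x * y = 1 := sub_eq_zero.1 ((mul_eq_zero.1 h3).resolve_left hne0)
      rw [hx, hy, ← AddChar.map_add_eq_mul, ← AddChar.map_zero_eq_one (ZMod.stdAddChar (N := e)),
        ZMod.injective_stdAddChar.eq_iff, ← add_mul, ← ZMod.natCast_zmod_val (k₁ + k₂),
        ← Nat.cast_mul, ZMod.natCast_eq_zero_iff] at hxy
      refine Nat.dvd_of_mul_dvd_mul_right hc0pos ?_
      rwa [hLc]
    subst hopp
    exact ⟨k₁, fun l hl => ⟨hval l hl, hsum⟩⟩
  -- the sums over the constituents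
  have hs1 : ∀ l : ZMod e, l ≠ 0 → ∑ χ ∈ X, χ.1 (u ^ l.val) = -1 := by
    intro l hl
    rw [Finset.sum_congr rfl fun χ _ => F.value_eq χ hl, Finset.sum_comm]
    simp only [← Finset.sum_mul]
    rw [Finset.sum_congr rfl (g := fun k => (ZMod.stdAddChar (k * l) : ℂ) -
      (if k = 0 then 1 else 0)) fun k _ => ?_]
    · rw [Finset.sum_sub_distrib, H31.FewSylow.sum_std, if_neg hl, Finset.sum_ite_eq',
        if_pos (Finset.mem_univ _), zero_sub]
    · have h := hMX k
      rw [eq_sub_iff_add_eq]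
      split_ifs at h ⊢ with hk
      · subst hk
        rw [zero_mul, AddChar.map_zero_eq_one]
        linear_combination h
      · linear_combination (ZMod.stdAddChar (k * l) : ℂ) * h
  have hs2 : ∀ l : ZMod e, l ≠ 0 →
      ∑ χ ∈ X, χ.1 (u ^ l.val) * conj (χ.1 (u ^ l.val)) = (e : ℂ) - 2 := by
    intro l hl
    have h2l : l + l ≠ 0 := by
      intro h
      apply hl
      have hd : e ∣ 2 * l.val := by
        rw [← ZMod.natCast_eq_zero_iff, Nat.cast_mul, ZMod.natCast_zmod_val]
        push_cast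
        rw [two_mul]
        exact h
      exact (ZMod.val_eq_zero l).1
        (Nat.eq_zero_of_dvd_of_lt (hcop2.symm.dvd_of_dvd_mul_left hd) (ZMod.val_lt l))
    have hterm : ∀ χ ∈ X, χ.1 (u ^ l.val) * conj (χ.1 (u ^ l.val)) =
        ∑ j, (F.mult χ j : ℂ) * ((ZMod.stdAddChar (j * (l + l)) : ℂ) + 1) := by
      intro χ hχ
      obtain ⟨k, hk⟩ := hpair χ hχ
      obtain ⟨hv, hsum⟩ := hk l hl
      rw [hsum, hv, map_add, conj_std, conj_std, neg_mul, neg_neg, neg_mul, mul_add, mul_add,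
        neg_add]
      simp only [AddChar.map_add_eq_mul]
      have h1 : (ZMod.stdAddChar (k * l) : ℂ) * ZMod.stdAddChar (-(k * l)) = 1 := by
        rw [← AddChar.map_add_eq_mul, add_neg_cancel, AddChar.map_zero_eq_one]
      linear_combination 2 * h1
    rw [Finset.sum_congr rfl hterm, Finset.sum_comm]
    simp only [← Finset.sum_mul]
    rw [Finset.sum_congr rfl (g := fun j => (ZMod.stdAddChar (j * (l + l)) : ℂ) + 1 -
      (if j = 0 then 2 else 0)) fun j _ => ?_]
    · rw [Finset.sum_sub_distrib, Finset.sum_add_distrib, H31.FewSylow.sum_std, if_neg h2l,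
        Finset.sum_ite_eq', if_pos (Finset.mem_univ _), Finset.sum_const, Finset.card_univ,
        ZMod.card, nsmul_eq_mul]
      ring
    · have h := hMX j
      rw [eq_sub_iff_add_eq]
      split_ifs at h ⊢ with hj
      · subst hj
        rw [zero_mul, AddChar.map_zero_eq_one]
        linear_combination 2 * h
      · linear_combination ((ZMod.stdAddChar (j * (l + l)) : ℂ) + 1) * h
  -- the centraliser of `u`
  have hu1 : (1 : ZMod e).val = 1 := by
    have : Fact (1 < e) := ⟨by omega⟩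
    exact ZMod.val_one e
  have h10 : (1 : ZMod e) ≠ 0 := fun h => by rw [h, ZMod.val_zero] at hu1; omega
  have hCu : Nat.card (Subgroup.centralizer ({u} : Set G)) = e := by
    have hnp := not_dvd_centralizer F hsq h10
    rw [hu1, pow_one] at hnp
    set n := Nat.card (Subgroup.centralizer ({u} : Set G)) with hn
    have hen : e ∣ n := by
      rw [← F.ordu, ← Nat.card_zpowers]
      exact Subgroup.card_dvd_of_le (Subgroup.zpowers_le.2
        (Subgroup.mem_centralizer_singleton_iff.2 rfl))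
    have hn2 : ¬ 2 ∣ n := by
      intro hd
      have : Fact (Nat.Prime 2) := ⟨Nat.prime_two⟩
      obtain ⟨⟨x, hxC⟩, hx⟩ := exists_prime_orderOf_dvd_card' 2 hd
      rw [Subgroup.orderOf_mk] at hx
      have hx2 : x * x = 1 := by rw [← sq, ← hx, pow_orderOf_eq_one]
      obtain ⟨a, ha, h4⟩ := four_dvd_deg_sub hperf θ hx2
      rw [B.degK θ hθ, hD] at h4
      have hnc : ¬ IsMulCommutative G := not_comm hG
      obtain ⟨a', ha', hlt⟩ := H30.exists_int_value_involution hnc hx θ e
        (by rw [(irr_degree θ).1, B.degK θ hθ, hD])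
      obtain rfl : a = a' := by exact_mod_cast ha.symm.trans ha'
      have hlt' := abs_lt.1 (hlt hθ1)
      obtain ⟨r, ρ, hirr, hρ⟩ := θ.2
      have hfr : Module.finrank ℂ (Fin r → ℂ) = e := by
        refine Nat.cast_injective (R := ℂ) ?_
        rw [← ρ.char_one, congrFun hρ 1, (irr_degree θ).1, B.degK θ hθ, hD]
      have hcopx : Nat.Coprime e (Subgroup.centralizer ({x} : Set G)).index := by
        have hex : e ∣ Nat.card (Subgroup.centralizer ({x} : Set G)) := by
          rw [← F.ordu, ← Nat.card_zpowers]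
          exact Subgroup.card_dvd_of_le (Subgroup.zpowers_le.2
            (Subgroup.mem_centralizer_singleton_iff.2
              (Subgroup.mem_centralizer_singleton_iff.1 hxC).symm))
        obtain ⟨r', hr'⟩ := hex
        have h := Subgroup.index_mul_card (Subgroup.centralizer ({x} : Set G))
        rw [hr', hcard] at h
        have h' : (Subgroup.centralizer ({x} : Set G)).index ∣ p * 2 ^ b :=
          Dvd.intro r' (Nat.eq_of_mul_eq_mul_left (NeZero.pos e) (by linarith [h]))
        exact Nat.Coprime.coprime_dvd_right h'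
          (Nat.Coprime.mul_right (hp.out.coprime_iff_not_dvd.2 F.ndvd).symm
            (Nat.Coprime.pow_right b hcop2.symm))
      have hz0 := @H25.char_eq_zero_or_norm_eq_of_coprime G _ _ (Fin r → ℂ) _ _ _ ρ hirr x
        (by rw [hfr]; exact hcopx)
      rw [congrFun hρ x, ha, hfr] at hz0
      rcases hz0 with h | h
      · have : a = 0 := by exact_mod_cast h
        omega
      · rw [Complex.norm_intCast] at h
        have : |a| = (e : ℤ) := by exact_mod_cast h
        rcases abs_choice a with h' | h' <;> omega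
    have hdvd : n ∣ p * e * 2 ^ b := hcard ▸ Subgroup.card_subgroup_dvd_card _
    refine Nat.dvd_antisymm ?_ hen
    rw [mul_assoc] at hdvd
    have h1 := ((hp.out.coprime_iff_not_dvd.2 hnp).symm).dvd_of_dvd_mul_left hdvd
    exact (Nat.Coprime.pow_right b (Nat.prime_two.coprime_iff_not_dvd.2 hn2).symm).dvd_of_dvd_mul_right h1
  -- only one more character
  have hRsum : ∀ l : ZMod e, l.val.Coprime e → l ≠ 0 →
      ∑ χ ∈ R, χ.1 (u ^ l.val) * conj (χ.1 (u ^ l.val)) = 1 := by
    intro l hlc hl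
    have h := H26.column_orthogonality (u ^ l.val) (u ^ l.val)
    rw [centralizer_upow F.ordu hlc, hCu, hsplit, hs2 l hl] at h
    simp only [H26.oneIrr_val, map_one, mul_one, H26.classIndicator, if_pos (IsConj.refl _)] at h
    linear_combination h
  have hRnorm : ∀ l : ZMod e, l.val.Coprime e → l ≠ 0 →
      ∑ χ ∈ R, ‖χ.1 (u ^ l.val)‖ ^ 2 = (1 : ℝ) := by
    intro l hlc hl
    refine Complex.ofReal_injective ?_
    push_cast
    rw [← hRsum l hlc hl]
    exact Finset.sum_congr rfl fun χ _ => (Complex.mul_conj' _).symm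
  have hu0 : u ≠ 1 := fun h => by
    have := F.ordu
    rw [h, orderOf_one] at this
    omega
  have hX1 : ∑ χ ∈ X, χ.1 u = -1 := by
    have := hs1 1 h10
    rwa [hu1, pow_one] at this
  have hdeg : ∑ χ ∈ R, χ.1 u * (Cfsg.charDegree χ.1 : ℂ) = p := by
    have h := H26.column_orthogonality u 1
    have hne : ¬ IsConj u (1 : G) := fun h' => hu0 (isConj_one_left.1 h')
    simp only [H26.classIndicator, if_neg hne, mul_zero, (irr_degree _).1,
      Complex.conj_natCast] at h
    rw [hsplit, deg_oneIrr, H26.oneIrr_val, Nat.cast_one, mul_one,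
      Finset.sum_congr rfl (s₁ := X) fun χ hχ => by rw [(hA χ (hmem χ hχ).1 (hmem χ hχ).2).2.2],
      ← Finset.sum_mul, hX1] at h
    push_cast at h
    linear_combination h
  obtain ⟨χ₀, hχ₀, hχ₀0⟩ : ∃ χ ∈ R, χ.1 u ≠ 0 := by
    by_contra h
    simp only [not_exists, not_and, not_not] at h
    rw [Finset.sum_eq_zero fun χ hχ => by rw [h χ hχ, zero_mul]] at hdeg
    exact hp.out.ne_zero (by exact_mod_cast hdeg.symm)
  have hcop1 : (1 : ZMod e).val.Coprime e := by rw [hu1]; exact Nat.coprime_one_left e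
  have hRone : ∀ χ ∈ R, χ ≠ χ₀ → χ.1 u = 0 := by
    intro χ hχ hne
    by_contra hne0
    have h1 := hRnorm 1 hcop1 h10
    rw [hu1, pow_one, ← Finset.add_sum_erase _ _ hχ₀] at h1
    have h2 : ‖χ.1 u‖ ^ 2 ≤ ∑ y ∈ R.erase χ₀, ‖y.1 u‖ ^ 2 :=
      Finset.single_le_sum (f := fun y : Cfsg.IrrCharacter G => ‖y.1 u‖ ^ 2)
        (fun y _ => sq_nonneg _) (Finset.mem_erase.2 ⟨hne, hχ⟩)
    have h3 : 0 < ‖χ.1 u‖ ^ 2 := by positivity
    have hsmall : ‖χ₀.1 u‖ < 1 :=
      abs_lt_of_sq_lt_sq' (by nlinarith) zero_le_one |>.2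
    refine hχ₀0 ?_
    have hv : χ₀.1 u = ∑ k, (F.mult χ₀ k : ℂ) * ZMod.stdAddChar k := by
      have := F.value_eq χ₀ h10
      rw [hu1, pow_one] at this
      simpa using this
    rw [hv] at hsmall ⊢
    refine eq_zero_of_conjugates_small _ hsmall fun l hlc => ?_
    have hl : l ≠ 0 := fun h => by
      rw [h, ZMod.val_zero, Nat.coprime_zero_left] at hlc
      omega
    rw [← F.value_eq χ₀ hl]
    have h4 := hRnorm l hlc hl
    have h5 : ‖χ₀.1 (u ^ l.val)‖ ^ 2 ≤ 1 := h4 ▸ Finset.single_le_sum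
      (f := fun y : Cfsg.IrrCharacter G => ‖y.1 (u ^ l.val)‖ ^ 2) (fun y _ => sq_nonneg _) hχ₀
    exact (abs_le_of_sq_le_sq' (by rwa [one_pow]) zero_le_one).2
  rw [Finset.sum_eq_single_of_mem χ₀ hχ₀ fun χ hχ hne => by rw [hRone χ hχ hne, zero_mul]] at hdeg
  have hd0 : Cfsg.charDegree χ₀.1 = p := by
    have h1 := hRnorm 1 hcop1 h10
    rw [hu1, pow_one, Finset.sum_eq_single_of_mem χ₀ hχ₀ fun χ hχ hne => by
      rw [hRone χ hχ hne, norm_zero, zero_pow two_ne_zero]] at h1
    have h2 : ‖χ₀.1 u‖ = 1 := (sq_eq_one_iff.1 h1).resolve_right (by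
      have := norm_nonneg (χ₀.1 u); linarith)
    have h3 := congrArg norm hdeg
    rw [norm_mul, h2, one_mul, Complex.norm_natCast, Complex.norm_natCast] at h3
    exact_mod_cast h3
  have hχ₀u : χ₀.1 u = 1 := by
    rw [hd0] at hdeg
    exact mul_right_cancel₀ (Nat.cast_ne_zero.2 hp.out.ne_zero) (hdeg.trans (one_mul _).symm)
  -- the central involution
  obtain ⟨i, hi, hib⟩ := exists_central_involution (G := G) 2 b rfl (by omega)
    (by rw [hcard]; exact dvd_mul_left _ _)
  obtain ⟨C', hC'⟩ := hib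
  have hnc : ¬ IsMulCommutative G := not_comm hG
  have hXi : ∀ χ ∈ X, χ.1 i = 0 := by
    intro χ hχ
    obtain ⟨hne, hcne⟩ := hmem χ hχ
    obtain ⟨-, -, hd⟩ := hA χ hne hcne
    obtain ⟨a, ha, hlt⟩ := H30.exists_int_value_involution hnc hi χ (2 ^ m)
      (by rw [(irr_degree χ).1, hd, hm])
    obtain ⟨r, ρ, hirr, hρ⟩ := χ.2
    have hfr : Module.finrank ℂ (Fin r → ℂ) = 2 ^ m := by
      refine Nat.cast_injective (R := ℂ) ?_
      rw [← ρ.char_one, congrFun hρ 1, (irr_degree χ).1, hd, hm]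
    have hcopi : Nat.Coprime (2 ^ m) (Subgroup.centralizer ({i} : Set G)).index := by
      have h := Subgroup.index_mul_card (Subgroup.centralizer ({i} : Set G))
      rw [hC', hcard] at h
      have h' : (Subgroup.centralizer ({i} : Set G)).index ∣ p * e :=
        Dvd.intro C' (Nat.eq_of_mul_eq_mul_left (pow_pos (show 0 < 2 by omega) b) (by linarith [h]))
      refine Nat.Coprime.coprime_dvd_right h' (Nat.Coprime.pow_left m (Nat.Coprime.mul_right ?_ hcop2))
      rw [Nat.prime_two.coprime_iff_not_dvd]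
      omega
    have hz0 := @H25.char_eq_zero_or_norm_eq_of_coprime G _ _ (Fin r → ℂ) _ _ _ ρ hirr i
      (by rw [hfr]; exact hcopi)
    rw [congrFun hρ i, hfr] at hz0
    refine hz0.resolve_right fun h => ?_
    rw [ha, Complex.norm_intCast] at h
    have h' : |a| = ((2 ^ m : ℕ) : ℤ) := by exact_mod_cast h
    exact (hlt hne).ne h'
  have hzeroR : ∀ f : Cfsg.IrrCharacter G → ℂ,
      ∑ χ ∈ R, conj (χ.1 u) * f χ = f χ₀ := fun f => by
    rw [Finset.sum_eq_single_of_mem χ₀ hχ₀ fun χ hχ hne => by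
      rw [hRone χ hχ hne, map_zero, zero_mul], hχ₀u, map_one, one_mul]
  have hχ₀i : χ₀.1 i = -1 := by
    have h := H26.column_orthogonality i u
    have hne : ¬ IsConj i u := by
      intro h'
      obtain ⟨g, hg⟩ := isConj_iff.1 h'
      have : orderOf u = 2 := by
        rw [← hg, ← hi]
        exact orderOf_injective (MulAut.conj g).toMonoidHom (MulAut.conj g).injective i
      rw [F.ordu] at this
      omega
    simp only [H26.classIndicator, if_neg hne, mul_zero] at h
    rw [hsplit, Finset.sum_eq_zero (s := X) fun χ hχ => by rw [hXi χ hχ, zero_mul],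
      Finset.sum_congr rfl (s₁ := R) fun χ _ => mul_comm _ _, hzeroR] at h
    simp only [H26.oneIrr_val, map_one, mul_one, zero_add] at h
    linear_combination h
  obtain ⟨n, hn⟩ := class_count i i u
  rw [hsplit, Finset.sum_eq_zero (s := X) fun χ hχ => by rw [hXi χ hχ]; simp,
    Finset.sum_congr rfl (s₁ := R) (g := fun χ => conj (χ.1 u) * (χ.1 i * χ.1 i / χ.1 1))
      (fun χ _ => by ring), hzeroR, hχ₀i, (irr_degree χ₀).1, hd0, hC', hcard] at hn
  simp only [H26.oneIrr_val, map_one, mul_one, div_one, zero_add, neg_mul_neg] at hn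
  push_cast at hn
  have hp0 : (p : ℂ) ≠ 0 := Nat.cast_ne_zero.2 hp.out.ne_zero
  have hnat : n * C' * C' * 2 ^ (b + b) = e * 2 ^ (b + m) := by
    refine Nat.cast_injective (R := ℂ) ?_
    push_cast
    rw [pow_add, pow_add, show (2 : ℂ) ^ m = (p : ℂ) + 1 by exact_mod_cast hm.symm]
    field_simp at hn
    linear_combination (2 : ℂ) ^ b * hn
  have hdv : 2 ^ (b + b) ∣ e * 2 ^ (b + m) := Dvd.intro_left _ hnat
  have hle := (Nat.pow_dvd_pow_iff_le_right (by norm_num : 1 < 2)).1
    ((Nat.Coprime.pow_left _ hcop2).dvd_of_dvd_mul_left hdv)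
  rw [show b = m by omega, hm]

end Cfsg.Agent.H85.BT
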