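import Mathlib
import Cfsg.Agent.H85.BT.Plus

/-!
The case of negative sign: common facts and the period two.
-/

set_option autoImplicit false
set_option linter.unusedSectionVars false

namespace Cfsg.Agent.H85.BT

open Cfsg.Agent.H31.Defect Cfsg.Agent.H31.FewSylow Cfsg.Agent.H69.PRQ
open scoped ComplexConjugate

variable {G : Type*} [Group G] [Fintype G] {p : ℕ} [hp : Fact p.Prime] {z : G}
  {e : ℕ} [NeZero e] {u : G}

theorem orderOf_half (F : Frame p e z u) (heven : Even e) :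
    orderOf (u ^ (half e).val) = 2 := by
  have : Fact (Nat.Prime 2) := ⟨Nat.prime_two⟩
  refine orderOf_eq_prime ?_ fun h => half_ne_zero F.two_le (F.pow_mem_zpowers (by
    rw [h]; exact Subgroup.one_mem _))
  rw [sq, ← F.upow_add, half_add_half heven, ZMod.val_zero, pow_zero]

/-- Every involution of the normaliser is conjugate to the one in the complement. -/
theorem isConj_half (F : Frame p e z u) (heven : Even e) (hp2 : p ≠ 2) {x : G}
    (hx : orderOf x = 2)
    (hxN : x ∈ Subgroup.normalizer ((Subgroup.zpowers z : Subgroup G) : Set G)) :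
    IsConj (u ^ (half e).val) x := by
  obtain ⟨⟨i, l⟩, rfl⟩ := F.exists_elt hxN
  have hl : l ≠ 0 := by
    rintro rfl
    have h : orderOf (Frame.elt z u ((i, 0) : ZMod p × ZMod e)) ∣ p := by
      simp only [Frame.elt, ZMod.val_zero, pow_zero, mul_one]
      exact (orderOf_pow_dvd _).trans (dvd_of_eq F.ordz)
    rw [hx] at h
    exact hp2 ((Nat.prime_dvd_prime_iff_eq Nat.prime_two hp.out).1 h).symm
  obtain ⟨k, hk⟩ := F.exists_conj_pow i hl
  have ho : orderOf (u ^ l.val) = 2 := by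
    rw [← hx, ← hk]
    exact (orderOf_injective (MulAut.conj (z ^ k)).toMonoidHom (MulAut.conj (z ^ k)).injective _).symm
  have hll : l + l = 0 := F.pow_mem_zpowers (by
    rw [F.upow_add, ← sq, ← ho, pow_orderOf_eq_one]; exact Subgroup.one_mem _)
  rw [← (eq_half_of_add_self hll hl).1]
  exact isConj_iff.2 ⟨z ^ k, hk⟩

/-- Factorisations of `z` only use one class of involutions. -/
theorem no_factor (F : Frame p e z u) (heven : Even e) (hp2 : p ≠ 2) {w : G} (hw : orderOf w = 2)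
    (hnc : ¬ IsConj w (u ^ (half e).val)) :
    ∀ x y : G, IsConj w x → IsConj (u ^ (half e).val) y → x * y ≠ z := by
  intro x y hx hy hxy
  have hord : ∀ a b : G, IsConj a b → orderOf a = 2 → orderOf b = 2 := fun a b h ha => by
    obtain ⟨g, rfl⟩ := isConj_iff.1 h
    exact (orderOf_injective (MulAut.conj g).toMonoidHom (MulAut.conj g).injective a).trans ha
  have hx2 : x * x = 1 := by rw [← sq, ← hord w x hx hw, pow_orderOf_eq_one]
  have hy2 : y * y = 1 := by
    rw [← sq, ← hord _ y hy (orderOf_half F heven), pow_orderOf_eq_one]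
  have hinv : x * z * x⁻¹ = z ^ (p - 1) := by
    have h1 : z ^ (p - 1) = z⁻¹ := by
      refine eq_inv_of_mul_eq_one_left ?_
      rw [← pow_succ, Nat.sub_add_cancel hp.out.one_le, ← F.ordz, pow_orderOf_eq_one]
    rw [h1, ← hxy, mul_inv_rev, inv_eq_of_mul_eq_one_right hx2, inv_eq_of_mul_eq_one_right hy2,
      ← mul_assoc, hx2, one_mul]
  exact hnc (hx.trans (isConj_half F heven hp2 (hord w x hx hw)
    (mem_normalizer_of_conj_eq F.ordz hinv)).symm)

theorem two_adic_bound {b m x : ℕ} (hx : 0 < x) (hlt : x < 2 ^ (m + 1))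
    (h : 2 ^ (b + m) ∣ x ^ 2) : b ≤ m := by
  have h1 := (Nat.prime_two.pow_dvd_iff_le_factorization (pow_ne_zero 2 hx.ne')).1 h
  rw [Nat.factorization_pow, Finsupp.smul_apply, smul_eq_mul] at h1
  have h2 : 2 ^ x.factorization 2 < 2 ^ (m + 1) :=
    lt_of_le_of_lt (Nat.le_of_dvd hx (Nat.ordProj_dvd x 2)) hlt
  have := (Nat.pow_lt_pow_iff_right (by norm_num : 1 < 2)).1 h2
  omega

/-- All exceptional characters agree on `p`-regular elements. -/
theorem K_regular (B : BlockData p z (⊥ : Subgroup G)) (hε : B.ε = -1) {g : G}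
    (hg : ¬ p ∣ orderOf g) {θ θ' : Cfsg.IrrCharacter G} (h : θ ∈ B.K) (h' : θ' ∈ B.K) :
    θ.1 g = θ'.1 g := by
  have h1 := regular_cc B hg h
  have h2 := regular_cc B hg h'
  rw [hε] at h1 h2
  push_cast at h1 h2
  linear_combination h2 - h1

/-- The exceptional characters at a non-trivial power of `z`. -/
theorem sum_K_value (B : BlockData p z (⊥ : Subgroup G)) (hε : B.ε = -1) {i : ZMod p}
    (hi : i ≠ 0) : ∑ θ ∈ B.K, θ.1 (z ^ i.val) = 1 := by
  classical
  rw [Finset.sum_congr rfl fun θ hθ => value_K B hθ hi, ← Finset.mul_sum, hε]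
  have h : ∑ θ ∈ B.K, ∑ k ∈ fib B.κ θ, (ZMod.stdAddChar (k * i) : ℂ) =
      ∑ k ∈ Finset.univ.erase (0 : ZMod p), (ZMod.stdAddChar (k * i) : ℂ) := by
    rw [← Finset.sum_fiberwise_of_maps_to (g := B.κ) (t := B.K)
      (fun k hk => B.κ_mem k (Finset.ne_of_mem_erase hk))]
    refine Finset.sum_congr rfl fun θ _ => Finset.sum_congr ?_ fun _ _ => rfl
    ext k
    simp [mem_fib]
  rw [h, H31.Defect.sum_std_ne_zero hi]
  norm_num

theorem not_dvd_two_pow (hp2 : p ≠ 2) (n : ℕ) : ¬ p ∣ 2 ^ n := fun h =>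
  hp2 ((Nat.prime_dvd_prime_iff_eq hp.out Nat.prime_two).1 (hp.out.dvd_of_dvd_pow h))

set_option maxHeartbeats 1000000 in
/-- Negative sign and period two. -/
theorem minus_two [IsSimpleGroup G] (hG : ¬ IsCyclic G) (F : Frame p e z u)
    (B : BlockData p z (⊥ : Subgroup G))
    (he : (H30.conjExps p z).card = e) (hε : B.ε = -1) (hD : B.D + e = p) (he2 : e = 2)
    (hp5 : 5 ≤ p) {b : ℕ} (hb : b ≠ 0) (hcard : Nat.card G = p * B.D * 2 ^ b) :
    ∃ m, p = 2 ^ m + 1 ∧ b ≤ m := by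
  classical
  have hperf := perfect_of_simple hG
  have hnc := not_comm hG
  have heven : Even e := by rw [he2]; exact even_two
  have hp2 : p ≠ 2 := by omega
  have hDodd : ¬ 2 ∣ B.D := by
    have := hp.out.eq_two_or_odd
    omega
  set θ := B.κ 1 with hθd
  have hθ : θ ∈ B.K := B.κ_mem 1 one_ne_zero
  have hθ1 : θ ≠ H26.oneIrr G := fun h => B.one_not (h ▸ hθ)
  have hsq : ∑ χ, cc B χ ^ 2 = (2 : ℤ) := by
    simp only [cc]
    rw [B.sq_sum, he, he2]
    norm_num
  have hds : ∑ χ, (Cfsg.charDegree χ.1 : ℤ) * cc B χ + B.ε * B.D = 0 := B.deg_sum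
  rw [← Finset.add_sum_erase _ _ (Finset.mem_univ (H26.oneIrr G)), cc_one] at hsq hds
  rw [deg_oneIrr, hε] at hds
  obtain ⟨χ, hχ, hχ0⟩ : ∃ χ ∈ Finset.univ.erase (H26.oneIrr G), cc B χ ≠ 0 := by
    by_contra hno
    simp only [not_exists, not_and, not_not] at hno
    rw [Finset.sum_eq_zero fun χ hχ => by rw [hno χ hχ]; norm_num] at hsq
    norm_num at hsq
  rw [← Finset.add_sum_erase _ _ hχ] at hsq hds
  have hu : cc B χ = 1 ∨ cc B χ = -1 := (cc_abs B χ).resolve_left hχ0
  have hu2 : cc B χ ^ 2 = 1 := by rcases hu with h | h <;> rw [h] <;> norm_num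
  rw [hu2] at hsq
  have hrest : ∀ x, x ≠ H26.oneIrr G → x ≠ χ → cc B x = 0 := fun x h1 h2 =>
    (pow_eq_zero_iff two_ne_zero).1 ((Finset.sum_eq_zero_iff_of_nonneg fun y _ => sq_nonneg _).1
      (by linarith : ∑ y ∈ (Finset.univ.erase (H26.oneIrr G)).erase χ, cc B y ^ 2 = 0) x
      (Finset.mem_erase.2 ⟨h2, Finset.mem_erase.2 ⟨h1, Finset.mem_univ _⟩⟩))
  rw [Finset.sum_eq_zero fun x hx => by
    rw [hrest x (Finset.ne_of_mem_erase (Finset.mem_of_mem_erase hx))
      (Finset.ne_of_mem_erase hx), mul_zero]] at hds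
  have hdpos := deg_pos χ
  obtain ⟨hcc, hd⟩ : cc B χ = 1 ∧ Cfsg.charDegree χ.1 = B.D + 1 := by
    rcases hu with h | h <;> rw [h] at hds <;> push_cast at hds
    · exact ⟨h, by omega⟩
    · omega
  have hdvd := B.dvd χ (show cc B χ ≠ 0 by omega)
  rw [Subgroup.card_bot, mul_one, hcard, hd, mul_comm (B.D + 1), mul_assoc] at hdvd
  obtain ⟨m, -, hm⟩ := (Nat.dvd_prime_pow Nat.prime_two).1
    ((Nat.coprime_self_add_left.2 (Nat.coprime_one_left _) :
      Nat.Coprime (B.D + 1) B.D).dvd_of_dvd_mul_left (Nat.dvd_of_mul_dvd_mul_left hp.out.pos hdvd))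
  refine ⟨m, by omega, ?_⟩
  have hχne : χ ≠ H26.oneIrr G := Finset.ne_of_mem_erase hχ
  have hχK : χ ∉ B.K := fun h => by
    have h1 := B.bK χ h
    simp only [cc] at hcc
    omega
  -- values of the characters
  have hrel : ∀ g : G, ¬ p ∣ orderOf g → χ.1 g = 1 + θ.1 g := by
    intro g hg
    have h := regular_cc B hg hθ
    rw [← Finset.add_sum_erase _ _ (Finset.mem_univ (H26.oneIrr G)),
      ← Finset.add_sum_erase _ _ hχ, Finset.sum_eq_zero (fun x hx => by
        rw [hrest x (Finset.ne_of_mem_erase (Finset.mem_of_mem_erase hx))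
          (Finset.ne_of_mem_erase hx), Int.cast_zero, mul_zero]), cc_one, hcc, hε] at h
    simp only [H26.oneIrr_val] at h
    push_cast at h
    linear_combination h
  have hz1 : z = z ^ (1 : ZMod p).val := by rw [ZMod.val_one, pow_one]
  have hreg2 : ∀ g : G, orderOf g = 2 → ¬ p ∣ orderOf g := fun g hg h => by
    rw [hg] at h
    exact hp2 ((Nat.prime_dvd_prime_iff_eq hp.out Nat.prime_two).1 h)
  have hD0 : (B.D : ℂ) ≠ 0 := Nat.cast_ne_zero.2 B.D_pos.ne'
  have hD1 : (B.D : ℂ) + 1 ≠ 0 := by exact_mod_cast Nat.succ_ne_zero B.D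
  -- the class sum
  have hS : ∀ w w' : G, orderOf w = 2 → orderOf w' = 2 →
      ∑ ψ : Cfsg.IrrCharacter G, ψ.1 w * ψ.1 w' * conj (ψ.1 z) / ψ.1 1 =
        ((B.D : ℂ) - θ.1 w) * ((B.D : ℂ) - θ.1 w') / ((B.D : ℂ) * (B.D + 1)) := by
    intro w w' hw hw'
    have hKsub : B.K ⊆ (Finset.univ.erase (H26.oneIrr G)).erase χ := fun x hx =>
      Finset.mem_erase.2 ⟨fun h => hχK (h ▸ hx),
        Finset.mem_erase.2 ⟨fun h => B.one_not (h ▸ hx), Finset.mem_univ _⟩⟩
    rw [← Finset.add_sum_erase _ _ (Finset.mem_univ (H26.oneIrr G)),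
      ← Finset.add_sum_erase _ _ hχ, ← Finset.sum_subset hKsub (fun x hx hxK => ?_),
      Finset.sum_congr rfl (s₁ := B.K) (g := fun x => θ.1 w * θ.1 w' / (B.D : ℂ) * conj (x.1 z))
        (fun x hx => by
          rw [K_regular B hε (hreg2 w hw) hx hθ, K_regular B hε (hreg2 w' hw') hx hθ,
            (irr_degree x).1, B.degK x hx]
          ring),
      ← Finset.mul_sum, ← map_sum,
      show ∑ x ∈ B.K, x.1 z = 1 by
        conv_lhs => enter [2, x]; rw [hz1]
        exact sum_K_value B hε one_ne_zero,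
      show χ.1 z = -1 by
        rw [hz1, value_const B hχK one_ne_zero, hcc]; norm_num,
      hrel w (hreg2 w hw), hrel w' (hreg2 w' hw'), (irr_degree χ).1, hd]
    · simp only [H26.oneIrr_val, map_one, map_neg, Nat.cast_add, Nat.cast_one]
      field_simp
      ring
    · rw [hz1, value_const B hxK one_ne_zero, hrest x
        (Finset.ne_of_mem_erase (Finset.mem_of_mem_erase hx)) (Finset.ne_of_mem_erase hx)]
      simp
  have hint : ∀ w : G, orderOf w = 2 → ∃ a : ℤ, θ.1 w = (a : ℂ) ∧ |a| < (B.D : ℤ) := fun w hw => by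
    obtain ⟨a, ha, hlt⟩ := H30.exists_int_value_involution hnc hw θ B.D
      (by rw [(irr_degree θ).1, B.degK θ hθ])
    exact ⟨a, ha, hlt hθ1⟩
  set j := u ^ (half e).val with hj
  have hjo : orderOf j = 2 := orderOf_half F heven
  obtain ⟨i, hi, hib⟩ := exists_central_involution (G := G) 2 b rfl hb
    (by rw [hcard]; exact dvd_mul_left _ _)
  have hij : IsConj i j := by
    by_contra hn
    have h0 := class_sum_eq_zero i j z (no_factor F heven hp2 hi hn)
    rw [hS i j hi hjo, div_eq_zero_iff] at h0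
    rcases mul_eq_zero.1 (h0.resolve_right (mul_ne_zero hD0 hD1)) with h | h
    · obtain ⟨a, ha, hlt⟩ := hint i hi
      rw [ha, sub_eq_zero] at h
      have : (B.D : ℤ) = a := by exact_mod_cast h
      rw [← this, Nat.abs_cast] at hlt
      exact lt_irrefl _ hlt
    · obtain ⟨a, ha, hlt⟩ := hint j hjo
      rw [ha, sub_eq_zero] at h
      have : (B.D : ℤ) = a := by exact_mod_cast h
      rw [← this, Nat.abs_cast] at hlt
      exact lt_irrefl _ hlt
  rw [H26.card_centralizer_eq_of_isConj hij] at hib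
  obtain ⟨C', hC'⟩ := hib
  obtain ⟨n, hn⟩ := class_count j j z
  obtain ⟨a, ha, hlt⟩ := hint j hjo
  rw [hS j j hjo hjo, ha, hC', hcard] at hn
  have hlt' := abs_lt.1 hlt
  obtain ⟨x, hx⟩ : ∃ x : ℕ, (x : ℤ) = (B.D : ℤ) - a := ⟨_, Int.toNat_of_nonneg (by omega)⟩
  rw [show ((B.D : ℂ) - (a : ℂ)) = (x : ℂ) by rw [← Int.cast_natCast x, hx]; push_cast; ring] at hn
  have hnat : n * C' * C' * 2 ^ (b + b) * (B.D + 1) = p * 2 ^ b * x ^ 2 := by
    refine Nat.cast_injective (R := ℂ) ?_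
    push_cast
    rw [pow_add]
    push_cast at hn
    field_simp at hn
    linear_combination (2 : ℂ) ^ b * hn
  rw [hm] at hnat
  have hd1 : 2 ^ (b + m) ∣ p * x ^ 2 := by
    refine Nat.dvd_of_mul_dvd_mul_left (pow_pos (show 0 < 2 by omega) b) ⟨n * C' * C', ?_⟩
    rw [pow_add] at hnat ⊢
    linarith [hnat]
  refine two_adic_bound (x := x) (by omega) ?_ (Nat.Coprime.dvd_of_dvd_mul_left
    ((Nat.prime_two.coprime_iff_not_dvd.2 fun h => ?_).pow_left _) hd1)
  · have : 2 * 2 ^ m = 2 ^ (m + 1) := by rw [pow_succ]; ring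
    omega
  · exact hp2 ((Nat.prime_dvd_prime_iff_eq Nat.prime_two hp.out).1 h).symm

end Cfsg.Agent.H85.BT
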