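import Mathlib
import Cfsg.Agent.H85.BT.Minus

/-!
Negative sign with two exceptional characters of degree half of `p + 1`.
-/

set_option autoImplicit false
set_option linter.unusedSectionVars false

namespace Cfsg.Agent.H85.BT

open Cfsg.Agent.H31.Defect Cfsg.Agent.H31.FewSylow Cfsg.Agent.H69.PRQ
open scoped ComplexConjugate

variable {G : Type*} [Group G] [Fintype G] {p : ℕ} [hp : Fact p.Prime] {z : G}
  {H : Subgroup G} {e : ℕ} [NeZero e] {u : G}

/-- The standing hypotheses. -/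
structure Neg (p e : ℕ) [Fact p.Prime] (z u : G) (B : BlockData p z (⊥ : Subgroup G)) : Prop where
  F : Frame p e z u
  he : (H30.conjExps p z).card = e
  eps : B.ε = -1
  hD : B.D = e + 1
  hpe : p = 2 * e + 1
  four : 4 ∣ e
  perf : commutator G = ⊤
  ev : ∀ χ : Cfsg.IrrCharacter G, χ ≠ H26.oneIrr G → cc B χ ≠ 0 → 2 ∣ Cfsg.charDegree χ.1

variable {B : BlockData p z (⊥ : Subgroup G)} (N : Neg p e z u B)
include N

theorem Neg.heven : Even e := even_iff_two_dvd.2 ((show 2 ∣ 4 by norm_num).trans N.four)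

theorem Neg.two_ne : p ≠ 2 := by
  have := N.hpe
  have := N.F.two_le
  omega

theorem Neg.regular_of_sq {g : G} (hg : g * g = 1) : ¬ p ∣ orderOf g := fun h =>
  N.two_ne ((Nat.prime_dvd_prime_iff_eq hp.out Nat.prime_two).1
    (h.trans (orderOf_dvd_of_pow_eq_one (by rw [sq, hg]))))

theorem Neg.half_sq : u ^ (half e).val * u ^ (half e).val = 1 := by
  rw [← N.F.upow_add, half_add_half N.heven, ZMod.val_zero, pow_zero]

theorem Neg.m0_K {θ : Cfsg.IrrCharacter G} (hθ : θ ∈ B.K) : B.m θ 0 = 1 := by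
  have h := sum_value_K B hθ
  rw [N.he, N.eps, N.hD] at h
  have h2 : (B.m θ 0 : ℂ) * p = 1 * p := by
    rw [h, one_mul, show (p : ℂ) = 2 * e + 1 by exact_mod_cast N.hpe]
    push_cast
    ring
  exact_mod_cast mul_right_cancel₀ (Nat.cast_ne_zero.2 hp.out.ne_zero : (p : ℂ) ≠ 0) h2

/-- The involution has value one. -/
theorem Neg.half_K {θ : Cfsg.IrrCharacter G} (hθ : θ ∈ B.K) : θ.1 (u ^ (half e).val) = 1 := by
  obtain ⟨a, ha, h4a⟩ := four_dvd_deg_sub N.perf θ N.half_sq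
  rw [B.degK θ hθ, N.hD] at h4a
  obtain ⟨⟨L, hL⟩, ⟨L', hL'⟩⟩ := half_bounds N.F B N.F.two_le N.heven θ
  rw [ha, N.m0_K hθ] at hL hL'
  have e1 : (L : ℤ) = 1 + a := by exact_mod_cast hL
  have e2 : (L' : ℤ) = 1 - a := by exact_mod_cast hL'
  have h4 : (4 : ℤ) ∣ (e : ℤ) := by exact_mod_cast N.four
  obtain rfl : a = 1 := by
    push_cast at h4a
    omega
  rw [ha, Int.cast_one]

omit N in
/-- The value at the involution of the complement. -/
theorem value_half (F : Frame p e z u) (heven : Even e) (χ : Cfsg.IrrCharacter G) :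
    χ.1 (u ^ (half e).val) = ∑ k : ZMod e, (F.mult χ k : ℂ) * (-1 : ℂ) ^ k.val := by
  rw [F.value_eq χ (half_ne_zero F.two_le)]
  exact Finset.sum_congr rfl fun k _ => by rw [mul_comm k, std_half_mul F.two_le heven]

/-- The exceptional characters have the same one constituent. -/
theorem Neg.exists_k0 : ∃ k₀ : ZMod e, Even k₀.val ∧
    ∀ θ ∈ B.K, ∀ k : ZMod e, N.F.mult θ k = if k = k₀ then 1 else 0 := by
  classical
  have hθ₁ : B.κ 1 ∈ B.K := B.κ_mem 1 one_ne_zero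
  have hsame : ∀ θ ∈ B.K, ∀ k, N.F.mult θ k = N.F.mult (B.κ 1) k := by
    intro θ hθ k
    refine Nat.cast_injective (R := ℂ) (mul_right_cancel₀
      (Nat.cast_ne_zero.2 (NeZero.ne e) : (e : ℂ) ≠ 0) ?_)
    rw [N.F.mult_eq, N.F.mult_eq]
    refine Finset.sum_congr rfl fun l _ => ?_
    congr 1
    rcases eq_or_ne l 0 with rfl | hl
    · have h : ∀ χ : Cfsg.IrrCharacter G, (p : ℂ)⁻¹ * ∑ i : ZMod p,
          χ.1 (Frame.elt z u ((i, 0) : ZMod p × ZMod e)) = B.m χ 0 := fun χ => by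
        rw [inv_mul_eq_iff_eq_mul₀ (Nat.cast_ne_zero.2 hp.out.ne_zero), mul_comm, mspec_zero]
        simp [Frame.elt]
      rw [h, h, N.m0_K hθ, N.m0_K hθ₁]
    · rw [N.F.coset_value θ hl, N.F.coset_value (B.κ 1) hl]
      exact K_regular B N.eps (fun h => N.F.ndvd (h.trans ((orderOf_pow_dvd _).trans
        (dvd_of_eq N.F.ordu)))) hθ hθ₁
  have hs := sum_mult_nat N.F B (B.κ 1)
  rw [N.m0_K hθ₁] at hs
  obtain ⟨k₀, hk₀⟩ : ∃ k, N.F.mult (B.κ 1) k ≠ 0 := by
    by_contra h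
    simp only [not_exists, not_not] at h
    rw [Finset.sum_eq_zero fun k _ => h k] at hs
    exact zero_ne_one hs
  have hmult : ∀ k, N.F.mult (B.κ 1) k = if k = k₀ then 1 else 0 := by
    intro k
    rw [← Finset.add_sum_erase _ _ (Finset.mem_univ k₀)] at hs
    split_ifs with hk
    · subst hk; omega
    · have := Finset.single_le_sum (f := fun k => N.F.mult (B.κ 1) k) (fun _ _ => Nat.zero_le _)
        (Finset.mem_erase.2 ⟨hk, Finset.mem_univ k⟩)
      omega
  refine ⟨k₀, ?_, fun θ hθ k => by rw [hsame θ hθ, hmult]⟩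
  have h := N.half_K hθ₁
  rw [value_half N.F N.heven, Finset.sum_eq_single k₀ (fun k _ hk => by
    rw [hmult, if_neg hk, Nat.cast_zero, zero_mul]) (fun h' => absurd (Finset.mem_univ _) h'),
    hmult, if_pos rfl, Nat.cast_one, one_mul] at h
  exact (neg_one_pow_eq_one_iff_even (by norm_num)).1 h

omit N in
theorem mspec_conj (B : BlockData p z (⊥ : Subgroup G)) (χ : Cfsg.IrrCharacter G) (k : ZMod p) :
    B.m (H26.conjIrr χ) k = B.m χ (-k) := by
  refine Nat.cast_injective (R := ℂ) (mul_right_cancel₀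
    (Nat.cast_ne_zero.2 hp.out.ne_zero : (p : ℂ) ≠ 0) ?_)
  have h := congrArg conj (mspec B χ (-k))
  simp only [map_mul, Complex.conj_natCast, map_sum] at h
  rw [h, mspec]
  refine Finset.sum_congr rfl fun i _ => ?_
  rw [H26.conjIrr_val, conj_std, conj_std, conj_std]
  congr 2
  ring

theorem Neg.card_K (S : Parts p z ⊥ H) : B.t = 2 := by
  have h := B.et
  rw [N.he] at h
  have h2 : e * B.t = e * 2 := by have := N.hpe; omega
  exact Nat.eq_of_mul_eq_mul_left (NeZero.pos e) h2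

theorem Neg.conj_eq (S : Parts p z ⊥ H) {θ : Cfsg.IrrCharacter G} (hθ : θ ∈ B.K) :
    H26.conjIrr θ = θ := by
  classical
  have hneg : (-1 : ZMod p) ∈ H30.conjExps p z :=
    mem_exps_of_pow S (by rw [N.he]; exact N.heven.neg_one_pow)
  have h1 : fib B.κ (B.κ 1) = H30.conjExps p z := fib_one S B
  have hcl1 : ∀ k ∈ fib B.κ (B.κ 1), -k ∈ fib B.κ (B.κ 1) := fun k hk => by
    rw [h1] at hk ⊢
    rw [← neg_one_mul]
    exact S.mul_mem hneg hk
  have hθ₁ : B.κ 1 ∈ B.K := B.κ_mem 1 one_ne_zero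
  have hcl : ∀ k ∈ fib B.κ θ, -k ∈ fib B.κ θ := by
    rcases eq_or_ne θ (B.κ 1) with rfl | hne
    · exact hcl1
    · intro k hk
      obtain ⟨hk0, hk1⟩ := mem_fib.1 hk
      refine mem_fib.2 ⟨neg_ne_zero.2 hk0, ?_⟩
      by_contra h
      have hK : B.K = {θ, B.κ 1} := by
        refine (Finset.eq_of_subset_of_card_le ?_ ?_).symm
        · intro x hx
          rcases Finset.mem_insert.1 hx with rfl | hx
          · exact hθ
          · rw [Finset.mem_singleton.1 hx]; exact hθ₁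
        · rw [B.cardK, N.card_K S, Finset.card_pair hne]
      have h2 := B.κ_mem _ (neg_ne_zero.2 hk0)
      rw [hK, Finset.mem_insert, Finset.mem_singleton] at h2
      have h3 := hcl1 (-k) (mem_fib.2 ⟨neg_ne_zero.2 hk0, h2.resolve_left h⟩)
      rw [neg_neg] at h3
      exact hne (hk1.symm.trans (mem_fib.1 h3).2)
  obtain ⟨k₁, hk₁⟩ := Finset.card_pos.1
    (show 0 < (fib B.κ θ).card by rw [B.fiber θ hθ, N.he]; exact NeZero.pos e)
  obtain ⟨k₂, hk₂, hk₂'⟩ := Finset.exists_mem_notMem_of_card_lt_card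
    (show (fib B.κ θ).card < (Finset.univ.erase (0 : ZMod p)).card by
      rw [B.fiber θ hθ, N.he, Finset.card_erase_of_mem (Finset.mem_univ _), Finset.card_univ,
        ZMod.card]
      have := N.hpe
      have := NeZero.pos e
      omega)
  have hk₂0 := Finset.ne_of_mem_erase hk₂
  obtain ⟨hk₁0, -⟩ := mem_fib.1 hk₁
  have hb : B.b θ = 1 := by rw [B.bK θ hθ, N.m0_K hθ, Nat.cast_one]
  have hv : ∀ k ≠ 0, (B.m (H26.conjIrr θ) k : ℤ) = 1 - if k ∈ fib B.κ θ then 1 else 0 := by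
    intro k hk
    rw [mspec_conj, B.mult θ (-k) (neg_ne_zero.2 hk), hb, N.eps]
    by_cases hkm : k ∈ fib B.κ θ
    · rw [if_pos hkm, if_pos (mem_fib.1 (hcl k hkm)).2]; ring
    · rw [if_neg hkm, if_neg]
      · ring
      · intro h
        have := hcl (-k) (mem_fib.2 ⟨neg_ne_zero.2 hk, h⟩)
        rw [neg_neg] at this
        exact hkm this
  have e1 := B.mult (H26.conjIrr θ) k₁ hk₁0
  have e2 := B.mult (H26.conjIrr θ) k₂ hk₂0
  rw [hv k₁ hk₁0, if_pos hk₁, N.eps] at e1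
  rw [hv k₂ hk₂0, if_neg hk₂', N.eps] at e2
  by_contra hne
  rw [if_neg] at e1
  · split_ifs at e2 <;> omega
  · rw [(mem_fib.1 hk₁).2]
    exact Ne.symm hne

theorem Neg.real (S : Parts p z ⊥ H) {θ : Cfsg.IrrCharacter G} (hθ : θ ∈ B.K) (g : G) :
    conj (θ.1 g) = θ.1 g := by
  conv_rhs => rw [← N.conj_eq S hθ]
  exact (H26.conjIrr_val θ g).symm

/-- The second moment of an exceptional character. -/
theorem Neg.moment (S : Parts p z ⊥ H) {θ : Cfsg.IrrCharacter G} (hθ : θ ∈ B.K) :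
    ∑ i ∈ Finset.univ.erase (0 : ZMod p), θ.1 (z ^ i.val) ^ 2 = (e : ℂ) * (e + 1) := by
  have hs := period_normSq_sum (fib B.κ θ)
  rw [B.fiber θ hθ, N.he, ← Finset.add_sum_erase _ _ (Finset.mem_univ (0 : ZMod p))] at hs
  simp only [mul_zero, AddChar.map_zero_eq_one, Finset.sum_const, B.fiber θ hθ, N.he,
    nsmul_eq_mul, mul_one, Complex.conj_natCast] at hs
  have h2 : ∀ i ∈ Finset.univ.erase (0 : ZMod p), θ.1 (z ^ i.val) ^ 2 =
      (∑ x ∈ fib B.κ θ, (ZMod.stdAddChar (x * i) : ℂ)) *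
        conj (∑ y ∈ fib B.κ θ, (ZMod.stdAddChar (y * i) : ℂ)) := fun i hi => by
    rw [sq]
    conv_lhs => enter [2]; rw [← N.real S hθ]
    rw [value_K B hθ (Finset.ne_of_mem_erase hi), N.eps, map_mul, map_intCast]
    push_cast
    ring
  rw [Finset.sum_congr rfl h2]
  have hpC : (p : ℂ) = 2 * e + 1 := by exact_mod_cast N.hpe
  linear_combination hs + (e : ℂ) * hpC

end Cfsg.Agent.H85.BT
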