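import Cfsg.Agent.H63.HalfNorm.Exterior

/-!
The character of the symmetric square.
-/

set_option autoImplicit false

namespace Cfsg.Agent.H85.BT

open Module Representation
open scoped ComplexConjugate

variable {G : Type*} [Group G]

/-- The symmetric square of a class function. -/
noncomputable def symmSquare (χ : G → ℂ) (g : G) : ℂ := (χ g ^ 2 + χ (g * g)) / 2

theorem isCharacter_symmSquare {χ : G → ℂ} (hχ : Cfsg.IsCharacter G χ) :
    Cfsg.IsCharacter G (symmSquare χ) := by
  obtain ⟨n, ρ, rfl⟩ := hχ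
  let A : G →* Matrix (Fin n) (Fin n) ℂ :=
    { toFun := fun x => LinearMap.toMatrix' (ρ x)
      map_one' := by simp [Module.End.one_eq_id]
      map_mul' := fun x y => by simp [LinearMap.toMatrix'_comp, Module.End.mul_eq_comp] }
  have hA : ∀ g, Matrix.trace (A g) = ρ.character g := fun g =>
    (LinearMap.trace_eq_matrix_trace ℂ (Pi.basisFun ℂ (Fin n)) (ρ g)).symm
  let τ : Matrix (Fin n) (Fin n) ℂ →ₗ[ℂ] Matrix (Fin n) (Fin n) ℂ :=
    (Matrix.transposeLinearEquiv (Fin n) (Fin n) ℂ ℂ).toLinearMap
  let e : Matrix (Fin n) (Fin n) ℂ →ₗ[ℂ] Matrix (Fin n) (Fin n) ℂ :=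
    (1 / 2 : ℂ) • (LinearMap.id + τ)
  have hτ2 : ∀ M, τ (τ M) = M := fun M => Matrix.transpose_transpose M
  have hτc : ∀ g, H26.formRep A g ∘ₗ τ = τ ∘ₗ H26.formRep A g := fun g => by
    refine LinearMap.ext fun M => ?_
    simp [τ, H26.formRep_apply, Matrix.transposeLinearEquiv, Matrix.transpose_mul,
      Matrix.mul_assoc]
  have he : e ∘ₗ e = e := by
    refine LinearMap.ext fun M => ?_
    simp only [e, LinearMap.comp_apply, LinearMap.smul_apply, LinearMap.add_apply,
      LinearMap.id_apply, map_smul, map_add, hτ2]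
    module
  have hc : ∀ g, H26.formRep A g ∘ₗ e = e ∘ₗ H26.formRep A g := fun g => by
    refine LinearMap.ext fun M => ?_
    have := LinearMap.congr_fun (hτc g) M
    simp only [LinearMap.comp_apply] at this
    simp only [e, LinearMap.comp_apply, LinearMap.smul_apply, LinearMap.add_apply,
      LinearMap.id_apply, map_smul, map_add, this]
  convert H63.HalfNorm.isCharacter_trace_idem (H26.formRep A) e he hc using 1
  funext g
  have h1 : LinearMap.trace ℂ _ (H26.formRep A g) = Matrix.trace (A g) ^ 2 :=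
    H26.char_formRep A g
  have h2 := H26.trace_formRep_transpose A g
  simp only [e, LinearMap.comp_smul, LinearMap.comp_add, LinearMap.comp_id, map_smul, map_add]
  rw [h1, show LinearMap.trace ℂ _ (H26.formRep A g ∘ₗ τ) = Matrix.trace (A (g * g)) from h2, hA,
    hA, smul_eq_mul, symmSquare]
  ring

end Cfsg.Agent.H85.BT
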