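import Mathlib
import Cfsg.Agent.H85.BT.Exceptional
import Cfsg.Agent.H85.BT.SymSq

/-!
The square of an exceptional character.
-/

set_option autoImplicit false
set_option linter.unusedSectionVars false

namespace Cfsg.Agent.H85.BT

open Cfsg.Agent.H31.Defect Cfsg.Agent.H31.FewSylow Cfsg.Agent.H69.PRQ
open scoped ComplexConjugate

theorem exists_unique_unit {ι : Type*} [DecidableEq ι] {s : Finset ι} {g : ι → ℤ} {p : ℤ}
    (hp : 0 < p) (h0 : ∀ i ∈ s, 0 ≤ g i) (hd : ∀ i ∈ s, p ∣ g i) (hs : ∑ i ∈ s, g i = p) :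
    ∃ i ∈ s, g i = p ∧ ∀ j ∈ s, j ≠ i → g j = 0 := by
  obtain ⟨i, hi, hne⟩ : ∃ i ∈ s, g i ≠ 0 := by
    by_contra h
    simp only [not_exists, not_and, not_not] at h
    rw [Finset.sum_eq_zero h] at hs
    omega
  have hge := Int.le_of_dvd (lt_of_le_of_ne (h0 i hi) (Ne.symm hne)) (hd i hi)
  rw [← Finset.add_sum_erase _ _ hi] at hs
  have hnn : ∀ j ∈ s.erase i, 0 ≤ g j := fun j hj => h0 j (Finset.mem_of_mem_erase hj)
  have := Finset.sum_nonneg hnn
  exact ⟨i, hi, by omega, fun j hj hji => (Finset.sum_eq_zero_iff_of_nonneg hnn).1 (by omega) j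
    (Finset.mem_erase.2 ⟨hji, hj⟩)⟩

theorem std_mul_conj_sum {e : ℕ} [NeZero e] (a k : ZMod e) :
    ∑ l ∈ Finset.univ.erase (0 : ZMod e),
      (ZMod.stdAddChar (a * l) : ℂ) * conj (ZMod.stdAddChar (k * l)) =
        (if k = a then (e : ℂ) else 0) - 1 := by
  have h : ∀ l : ZMod e, (ZMod.stdAddChar (a * l) : ℂ) * conj (ZMod.stdAddChar (k * l)) =
      ZMod.stdAddChar (l * (a - k)) := fun l => by
    rw [H31.FewSylow.conj_std, ← AddChar.map_add_eq_mul]
    congr 1
    ring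
  rw [eq_sub_iff_add_eq, Finset.sum_congr rfl fun l _ => h l]
  conv_lhs => arg 2; rw [show (1 : ℂ) = (ZMod.stdAddChar ((0 : ZMod e) * (a - k)) : ℂ) by
    rw [zero_mul, AddChar.map_zero_eq_one]]
  rw [add_comm, Finset.add_sum_erase _ (fun l : ZMod e => (ZMod.stdAddChar (l * (a - k)) : ℂ))
      (Finset.mem_univ 0), H31.FewSylow.sum_std]
  simp only [sub_eq_zero, eq_comm (a := a)]

variable {G : Type*} [Group G] [Fintype G] {p : ℕ} [hp : Fact p.Prime] {z : G}
  {H : Subgroup G} {e : ℕ} [NeZero e] {u : G} {B : BlockData p z (⊥ : Subgroup G)}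

/-- The decomposition of the square. -/
structure Decomp (B : BlockData p z (⊥ : Subgroup G)) (u : G) (e : ℕ) [NeZero e]
    (θ : Cfsg.IrrCharacter G) : Prop where
  out : ∃ (c : Cfsg.IrrCharacter G → ℕ) (St : Cfsg.IrrCharacter G)
    (A : Finset (Cfsg.IrrCharacter G)),
    (∀ χ, (c χ : ℂ) = Cfsg.classInner (fun g => θ.1 g * θ.1 g) χ.1) ∧
    2 * (∑ χ, c χ * c χ) = e + 4 ∧
    (St ≠ H26.oneIrr G ∧ St ∉ B.K ∧ cc B St = 0 ∧ Cfsg.charDegree St.1 = p) ∧
    (∀ χ ∈ A, χ ≠ H26.oneIrr G ∧ χ ∉ B.K ∧ cc B χ = -1 ∧ Cfsg.charDegree χ.1 = 2 * B.D) ∧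
    2 * (A.card + 1) = e ∧
    (∀ χ ∈ A, χ.1 (u ^ (half e).val) * χ.1 (u ^ (half e).val) = 4) ∧
    (∀ w : G, w * w = 1 → ∑ χ ∈ A, χ.1 w * χ.1 (u ^ (half e).val) =
      2 * ((B.D : ℂ) - 1 - θ.1 w - St.1 w))

variable (N : Neg p e z u B)
include N

set_option maxHeartbeats 4000000 in
theorem Neg.decomp (S : Parts p z ⊥ H) {θ : Cfsg.IrrCharacter G} (hθ : θ ∈ B.K) :
    Decomp B u e θ := by
  classical
  obtain ⟨k₀, hk₀, hmK⟩ := N.exists_k0
  have F := N.F
  have heven := N.heven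
  have he0 : (e : ℂ) ≠ 0 := Nat.cast_ne_zero.2 (NeZero.ne e)
  have hp0 : (p : ℂ) ≠ 0 := Nat.cast_ne_zero.2 hp.out.ne_zero
  have hpC : (p : ℂ) = 2 * e + 1 := by exact_mod_cast N.hpe
  have hDC : (B.D : ℂ) = e + 1 := by exact_mod_cast N.hD
  obtain ⟨c, hc0, hc⟩ := exists_coeff (ψ := fun g => θ.1 g * θ.1 g)
    (H26.isCharacter_mul (H26.irr_isCharacter θ) (H26.irr_isCharacter θ))
  have hone : c (H26.oneIrr G) = 1 := by
    refine Nat.cast_injective (R := ℂ) ?_
    rw [hc0, Nat.cast_one, ← (H26.classInner_irr θ θ).trans (if_pos rfl)]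
    simp only [Cfsg.classInner, H26.oneIrr_val, map_one, mul_one, N.real S hθ]
  have hdeg : ∑ χ, c χ * Cfsg.charDegree χ.1 = (e + 1) * (e + 1) := by
    refine Nat.cast_injective (R := ℂ) ?_
    push_cast
    have h := hc 1
    simp only [(irr_degree _).1, B.degK θ hθ, hDC] at h
    rw [h]
  -- averages over `⟨z⟩`
  set T : Cfsg.IrrCharacter G → ℤ := fun χ => if χ ∈ B.K then 1 else -2 * cc B χ with hTdef
  have hTval : ∀ χ : Cfsg.IrrCharacter G,
      ∑ i ∈ Finset.univ.erase (0 : ZMod p), χ.1 (z ^ i.val) = (e : ℂ) * (T χ : ℂ) := by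
    intro χ
    simp only [T]
    split_ifs with hχ
    · rw [sum_erase_K B hχ, N.he, N.eps]; push_cast; ring
    · rw [sum_erase_value B hχ, hpC]; push_cast; ring
  have hT : ∑ χ, (c χ : ℤ) * T χ = (e : ℤ) + 1 := by
    refine Int.cast_injective (α := ℂ) (mul_left_cancel₀ he0 ?_)
    push_cast
    rw [← N.moment S hθ, Finset.mul_sum]
    simp only [sq, hc]
    rw [Finset.sum_comm]
    refine Finset.sum_congr rfl fun χ _ => ?_
    rw [← Finset.mul_sum, hTval]
    ring
  have hMpre : ∀ k : ZMod e, ∑ χ, c χ * F.mult χ k = 1 + if k = k₀ + k₀ then 1 else 0 := by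
    intro k
    have h := coeff_mult F hc k
    have h1 : ∑ i : ZMod p, θ.1 (z ^ i.val) * θ.1 (z ^ i.val) = ((e : ℂ) + 1) * p := by
      rw [← Finset.add_sum_erase _ _ (Finset.mem_univ (0 : ZMod p)), ZMod.val_zero, pow_zero,
        (irr_degree θ).1, B.degK θ hθ, hDC]
      simp only [← sq]
      rw [N.moment S hθ]
      linear_combination -((e : ℂ) + 1) * hpC
    have h2 : ∀ l ∈ Finset.univ.erase (0 : ZMod e),
        θ.1 (u ^ l.val) * θ.1 (u ^ l.val) = ZMod.stdAddChar ((k₀ + k₀) * l) := by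
      intro l hl
      have hv : θ.1 (u ^ l.val) = ZMod.stdAddChar (k₀ * l) := by
        rw [F.value_eq θ (Finset.ne_of_mem_erase hl)]
        simp only [hmK θ hθ, Nat.cast_ite, Nat.cast_one, Nat.cast_zero, ite_mul, one_mul, zero_mul]
        rw [Finset.sum_ite_eq', if_pos (Finset.mem_univ _)]
      rw [hv, add_mul, AddChar.map_add_eq_mul]
    rw [h1, Finset.sum_congr rfl (s₁ := Finset.univ.erase (0 : ZMod e)) fun l hl => by rw [h2 l hl], std_mul_conj_sum,
      mul_comm ((e : ℂ) + 1) (p : ℂ), inv_mul_cancel_left₀ hp0] at h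
    refine Nat.cast_injective (R := ℂ) (mul_right_cancel₀ he0 (h.trans ?_))
    split_ifs <;> push_cast <;> ring
  -- one exceptional constituent
  set X := Finset.univ.erase (H26.oneIrr G) with hX
  set Y := X \ B.K with hY
  have hKX : B.K ⊆ X := fun x hx =>
    Finset.mem_erase.2 ⟨fun h => B.one_not (h ▸ hx), Finset.mem_univ _⟩
  have hsplit : ∀ {M : Type} [AddCommMonoid M] (f : Cfsg.IrrCharacter G → M),
      ∑ χ, f χ = f (H26.oneIrr G) + (∑ χ ∈ Y, f χ + ∑ χ ∈ B.K, f χ) := fun {M} _ f => by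
    rw [Finset.sum_sdiff hKX, hX, Finset.add_sum_erase _ _ (Finset.mem_univ _)]
  have hYmem : ∀ χ ∈ Y, χ ≠ H26.oneIrr G ∧ χ ∉ B.K := fun χ hχ =>
    ⟨Finset.ne_of_mem_erase (Finset.mem_sdiff.1 hχ).1, (Finset.mem_sdiff.1 hχ).2⟩
  have hKsum : ∑ χ ∈ B.K, c χ = 1 := by
    have hle : ∑ χ ∈ B.K, c χ ≤ 2 := by
      calc ∑ χ ∈ B.K, c χ = ∑ χ ∈ B.K, c χ * F.mult χ k₀ :=
            Finset.sum_congr rfl fun χ hχ => by rw [hmK χ hχ, if_pos rfl, mul_one]
        _ ≤ ∑ χ, c χ * F.mult χ k₀ := Finset.sum_le_sum_of_subset (Finset.subset_univ _)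
        _ ≤ 2 := by rw [hMpre]; split_ifs <;> omega
    rw [hsplit, hone] at hT
    simp only [T, if_neg B.one_not, cc_one] at hT
    rw [Finset.sum_congr rfl (s₁ := Y) fun χ hχ => by rw [if_neg (hYmem χ hχ).2],
      Finset.sum_congr rfl (s₁ := B.K) fun χ hχ => by rw [if_pos hχ, mul_one]] at hT
    simp only [mul_left_comm _ (-2 : ℤ), ← Finset.mul_sum] at hT
    push_cast at hT
    rw [← Nat.cast_sum] at hT
    obtain ⟨r, hr⟩ := N.four
    omega
  obtain ⟨θs, hθs, hcθs⟩ : ∃ x ∈ B.K, c x ≠ 0 := by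
    by_contra h
    simp only [not_exists, not_and, not_not] at h
    rw [Finset.sum_eq_zero h] at hKsum
    exact zero_ne_one hKsum
  have hK0 : c θs = 1 ∧ ∀ x ∈ B.K, x ≠ θs → c x = 0 := by
    rw [← Finset.add_sum_erase _ _ hθs] at hKsum
    refine ⟨by omega, fun x hx hne => ?_⟩
    have := Finset.single_le_sum (f := c) (fun _ _ => Nat.zero_le _)
      (Finset.mem_erase.2 ⟨hne, hx⟩ : x ∈ B.K.erase θs)
    omega
  have hYcc : 2 * ∑ χ ∈ Y, (c χ : ℤ) * cc B χ = 2 - (e : ℤ) := by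
    rw [hsplit, hone] at hT
    simp only [T, if_neg B.one_not, cc_one] at hT
    rw [Finset.sum_congr rfl (s₁ := Y) fun χ hχ => by rw [if_neg (hYmem χ hχ).2],
      Finset.sum_congr rfl (s₁ := B.K) fun χ hχ => by rw [if_pos hχ, mul_one]] at hT
    simp only [mul_left_comm _ (-2 : ℤ), ← Finset.mul_sum] at hT
    rw [← Nat.cast_sum, hKsum] at hT
    push_cast at hT
    linarith
  have hYdeg : ∑ χ ∈ Y, (c χ : ℤ) * Cfsg.charDegree χ.1 = (e : ℤ) * e + e - 1 := by
    have h : ((∑ χ, c χ * Cfsg.charDegree χ.1 : ℕ) : ℤ) = (((e + 1) * (e + 1) : ℕ) : ℤ) := by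
      rw [hdeg]
    push_cast at h
    rw [hsplit, hone, deg_oneIrr, Finset.sum_eq_single_of_mem θs hθs (fun x hx hne => by
      rw [hK0.2 x hx hne, Nat.cast_zero, zero_mul]), hK0.1, B.degK θs hθs, N.hD] at h
    push_cast at h
    linarith
  -- the slack
  set W : Cfsg.IrrCharacter G → ℤ := fun χ =>
    (Cfsg.charDegree χ.1 : ℤ) + cc B χ * ((p : ℤ) + 1) with hW
  have hWY : ∀ χ ∈ Y, 0 ≤ W χ ∧ (p : ℤ) ∣ W χ ∧ (cc B χ ≠ -1 → 0 < W χ) ∧
      (cc B χ = 1 → 2 * (p : ℤ) ≤ W χ) := by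
    intro χ hχ
    obtain ⟨hne, hK⟩ := hYmem χ hχ
    have hd2 := two_le_deg N.perf hne
    simp only [W]
    rcases cc_abs B χ with h | h | h
    · rw [h]
      refine ⟨by omega, ?_, by omega, by omega⟩
      have := m_zero_mul B hK
      rw [h, mul_zero, sub_zero] at this
      exact ⟨(B.m χ 0 : ℤ), by linear_combination -this⟩
    · have h1 := cong_cc B (χ := χ) (by omega)
      rw [h] at h1 ⊢
      have := Int.le_of_dvd (by omega) h1
      refine ⟨by omega, ?_, by omega, by omega⟩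
      have h2 := dvd_add h1 (dvd_refl (p : ℤ))
      rw [one_mul]
      obtain ⟨r, hr⟩ := h2
      exact ⟨r, by linarith⟩
    · have h1 := cong_cc B (χ := χ) (by omega)
      rw [h] at h1 ⊢
      have := Int.le_of_dvd (by omega) h1
      refine ⟨by omega, ?_, by omega, by omega⟩
      have h2 := dvd_sub h1 (dvd_refl (p : ℤ))
      obtain ⟨r, hr⟩ := h2
      exact ⟨r, by linarith⟩
  have hWsum : ∑ χ ∈ Y, (c χ : ℤ) * W χ = (p : ℤ) := by
    simp only [W, mul_add, Finset.sum_add_distrib, ← mul_assoc, mul_one]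
    rw [← Finset.sum_mul, hYdeg]
    have hpZ : (p : ℤ) = 2 * e + 1 := by exact_mod_cast N.hpe
    rw [hpZ]
    linear_combination ((e : ℤ) + 1) * hYcc
  obtain ⟨St, hSt, hStW, hrest⟩ := exists_unique_unit (g := fun χ => (c χ : ℤ) * W χ)
    (Int.natCast_pos.2 hp.out.pos) (fun χ hχ => mul_nonneg (Nat.cast_nonneg _) (hWY χ hχ).1)
    (fun χ hχ => Dvd.dvd.mul_left (hWY χ hχ).2.1 _) hWsum
  obtain ⟨hStne, hStK⟩ := hYmem St hSt
  obtain ⟨hWnn, ⟨q, hq⟩, hWpos, hW2⟩ := hWY St hSt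
  have hcSt : c St = 1 ∧ W St = (p : ℤ) := by
    rw [hq] at hStW
    have h1 : (c St : ℤ) * q = 1 := mul_left_cancel₀ (Int.natCast_ne_zero.2 hp.out.ne_zero)
      (by linarith : (p : ℤ) * ((c St : ℤ) * q) = (p : ℤ) * 1)
    rcases Int.mul_eq_one_iff_eq_one_or_neg_one.1 h1 with ⟨ha, hb⟩ | ⟨ha, hb⟩
    · exact ⟨by exact_mod_cast ha, by rw [hq, hb, mul_one]⟩
    · omega
  have hStd : cc B St = 0 ∧ Cfsg.charDegree St.1 = p := by
    have hWe := hcSt.2
    simp only [W] at hWe hW2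
    rcases cc_abs B St with h | h | h
    · exact ⟨h, by rw [h] at hWe; omega⟩
    · have := hW2 h
      have := hp.out.pos
      omega
    · exfalso
      have h2 := N.ev St hStne (by omega)
      rw [h] at hWe
      obtain ⟨r, hr⟩ := h2
      have := N.hpe
      omega
  set A := (Y.erase St).filter (fun χ => c χ ≠ 0) with hAdef
  have hAmem : ∀ χ ∈ A, χ ∈ Y ∧ χ ≠ St ∧ c χ ≠ 0 := fun χ hχ =>
    ⟨Finset.mem_of_mem_erase (Finset.mem_filter.1 hχ).1,
      Finset.ne_of_mem_erase (Finset.mem_filter.1 hχ).1, (Finset.mem_filter.1 hχ).2⟩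
  have hA : ∀ χ ∈ A, χ ≠ H26.oneIrr G ∧ χ ∉ B.K ∧ cc B χ = -1 ∧
      Cfsg.charDegree χ.1 = 2 * B.D := by
    intro χ hχ
    obtain ⟨hY', hne, hcne⟩ := hAmem χ hχ
    obtain ⟨hne1, hK⟩ := hYmem χ hY'
    have hW0 : W χ = 0 :=
      (mul_eq_zero.1 (hrest χ hY' hne)).resolve_left (Int.natCast_ne_zero.2 hcne)
    have hcc : cc B χ = -1 := by
      by_contra h
      have := (hWY χ hY').2.2.1 h
      omega
    refine ⟨hne1, hK, hcc, ?_⟩
    simp only [W] at hW0
    rw [hcc] at hW0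
    have := N.hpe
    have := N.hD
    omega
  have hA2 : ∀ χ ∈ A, ∑ k : ZMod e, F.mult χ k = 2 := by
    intro χ hχ
    obtain ⟨-, hK, hcc, hd⟩ := hA χ hχ
    rw [sum_mult_nat F B]
    have h := m_zero_mul B hK
    rw [hcc, hd, N.hD] at h
    push_cast at h
    have hpZ : (p : ℤ) = 2 * e + 1 := by exact_mod_cast N.hpe
    have h2 : (B.m χ 0 : ℤ) * p = 2 * p := by rw [h]; linear_combination -hpZ
    exact_mod_cast mul_right_cancel₀ (Int.natCast_ne_zero.2 hp.out.ne_zero) h2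
  have hc1 : ∀ χ ∈ A, c χ = 1 := by
    intro χ hχ
    have hb : ∀ k, c χ * F.mult χ k ≤ 1 + if k = k₀ + k₀ then 1 else 0 := fun k => by
      rw [← hMpre k]
      exact Finset.single_le_sum (f := fun χ => c χ * F.mult χ k) (fun _ _ => Nat.zero_le _)
        (Finset.mem_univ χ)
    by_contra hne
    have hc2 : 2 ≤ c χ := by have := (hAmem χ hχ).2.2; omega
    have h1 : ∀ k, k ≠ k₀ + k₀ → F.mult χ k = 0 := fun k hk => by
      have h := hb k
      rw [if_neg hk, add_zero] at h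
      have := Nat.mul_le_mul_right (F.mult χ k) hc2
      omega
    have h2 := hA2 χ hχ
    rw [Finset.sum_eq_single (k₀ + k₀) (fun k _ hk => h1 k hk)
      (fun h => absurd (Finset.mem_univ _) h)] at h2
    have h := hb (k₀ + k₀)
    rw [if_pos rfl, h2] at h
    omega
  -- the shape of the square
  have hform : ∀ f : Cfsg.IrrCharacter G → ℂ, ∑ χ, (c χ : ℂ) * f χ =
      f (H26.oneIrr G) + ((f St + ∑ χ ∈ A, f χ) + f θs) := by
    intro f
    rw [hsplit, hone, Nat.cast_one, one_mul, Finset.sum_eq_single_of_mem θs hθs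
      (fun x hx hne => by rw [hK0.2 x hx hne, Nat.cast_zero, zero_mul]), hK0.1, Nat.cast_one,
      one_mul, ← Finset.add_sum_erase _ _ hSt, hcSt.1, Nat.cast_one, one_mul,
      ← Finset.sum_filter_of_ne (p := fun χ => c χ ≠ 0)
        (fun χ _ hne h => hne (by rw [h, Nat.cast_zero, zero_mul])),
      ← hAdef, Finset.sum_congr rfl fun χ hχ => by rw [hc1 χ hχ, Nat.cast_one, one_mul]]
  have hAcard : 2 * (A.card + 1) = e := by
    have h := hYcc
    rw [← Finset.add_sum_erase _ _ hSt, hStd.1, mul_zero, zero_add,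
      ← Finset.sum_filter_of_ne (p := fun χ => c χ ≠ 0)
        (fun χ _ hne h => hne (by rw [h, Nat.cast_zero, zero_mul])),
      ← hAdef, Finset.sum_congr rfl fun χ hχ => by
        rw [hc1 χ hχ, (hA χ hχ).2.2.1, Nat.cast_one, one_mul], Finset.sum_const, smul_neg,
      nsmul_one] at h
    omega
  have hnorm : 2 * (∑ χ, c χ * c χ) = e + 4 := by
    have h := hform fun χ => (c χ : ℂ)
    rw [hone, hcSt.1, hK0.1, Finset.sum_congr rfl (s₁ := A) fun χ hχ => by rw [hc1 χ hχ],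
      Finset.sum_const, nsmul_eq_mul] at h
    push_cast at h
    have h2 : ((∑ χ, c χ * c χ : ℕ) : ℂ) = ((A.card + 3 : ℕ) : ℂ) := by
      push_cast
      linear_combination h
    have h3 : ∑ χ, c χ * c χ = A.card + 3 := by exact_mod_cast h2
    omega
  -- the exterior square
  obtain ⟨cL, hcL0, hcL⟩ := exists_coeff (H63.HalfNorm.isCharacter_extSq (H26.irr_isCharacter θ))
  obtain ⟨cS, hcS0, -⟩ := exists_coeff (isCharacter_symmSquare (H26.irr_isCharacter θ))
  have hLle : ∀ χ, cL χ ≤ c χ := fun χ => by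
    have h : (c χ : ℂ) = (cL χ : ℂ) + (cS χ : ℂ) := by
      rw [hc0, hcL0, hcS0, Cfsg.classInner, Cfsg.classInner, Cfsg.classInner, ← mul_add,
        ← Finset.sum_add_distrib]
      refine congrArg _ (Finset.sum_congr rfl fun g _ => ?_)
      rw [H63.HalfNorm.extSq, symmSquare]
      ring
    have : c χ = cL χ + cS χ := by exact_mod_cast h
    omega
  have hdbl : ∀ i : ZMod p, z ^ i.val * z ^ i.val = z ^ (2 * i).val := fun i => by
    rw [two_mul, ← pow_add, ZMod.val_add]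
    conv_lhs => rw [← pow_mod_orderOf, F.ordz]
  have h2ne : (2 : ZMod p) ≠ 0 := by
    intro h
    have h' : ((2 : ℕ) : ZMod p) = 0 := by exact_mod_cast h
    exact N.two_ne ((Nat.prime_dvd_prime_iff_eq hp.out Nat.prime_two).1
      ((ZMod.natCast_eq_zero_iff _ _).1 h'))
  have hM0L : ∑ i : ZMod p, H63.HalfNorm.extSq θ.1 (z ^ i.val) = ((e : ℂ) / 2) * p := by
    have h1 : ∑ i : ZMod p, θ.1 (z ^ i.val * z ^ i.val) = (p : ℂ) := by
      have h := mspec_zero B θ
      rw [N.m0_K hθ, Nat.cast_one, one_mul] at h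
      conv_rhs => rw [h]
      exact Fintype.sum_equiv (Equiv.mulLeft₀ 2 h2ne) _ _ fun i => by
        rw [hdbl i, Equiv.mulLeft₀_apply]
    have h2 : ∑ i : ZMod p, θ.1 (z ^ i.val) ^ 2 = ((e : ℂ) + 1) * p := by
      rw [← Finset.add_sum_erase _ _ (Finset.mem_univ (0 : ZMod p)), ZMod.val_zero, pow_zero,
        (irr_degree θ).1, B.degK θ hθ, hDC, N.moment S hθ]
      linear_combination -((e : ℂ) + 1) * hpC
    simp only [H63.HalfNorm.extSq, ← Finset.sum_div, Finset.sum_sub_distrib, h1, h2]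
    ring
  set j := u ^ (half e).val with hj
  have hθv : ∀ l : ZMod e, θ.1 (u ^ l.val) = if l = 0 then ((e : ℂ) + 1)
      else ZMod.stdAddChar (k₀ * l) := by
    intro l
    split_ifs with hl
    · rw [hl, ZMod.val_zero, pow_zero, (irr_degree θ).1, B.degK θ hθ, hDC]
    · rw [F.value_eq θ hl]
      simp only [hmK θ hθ, Nat.cast_ite, Nat.cast_one, Nat.cast_zero, ite_mul, one_mul, zero_mul]
      rw [Finset.sum_ite_eq', if_pos (Finset.mem_univ _)]
  have hML : ∀ k : ZMod e, ∑ χ, cL χ * F.mult χ k = if Even k.val then 0 else 1 := by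
    intro k
    have h := coeff_mult F hcL k
    rw [hM0L, mul_comm ((e : ℂ) / 2) (p : ℂ), inv_mul_cancel_left₀ hp0,
      Finset.sum_eq_single_of_mem (half e)
        (Finset.mem_erase.2 ⟨half_ne_zero F.two_le, Finset.mem_univ _⟩) fun l hl hlh => ?_] at h
    · rw [H63.HalfNorm.extSq, ← hj, N.half_K hθ, N.half_sq, (irr_degree θ).1, B.degK θ hθ, hDC,
        mul_comm k, std_half_mul F.two_le heven, map_pow, map_neg, map_one] at h
      refine Nat.cast_injective (R := ℂ) (mul_right_cancel₀ he0 (h.trans ?_))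
      rcases Nat.even_or_odd k.val with hk | hk
      · rw [if_pos hk, hk.neg_one_pow, Nat.cast_zero]; ring
      · rw [if_neg (Nat.not_even_iff_odd.2 hk), hk.neg_one_pow, Nat.cast_one]; ring
    · have hl0 := Finset.ne_of_mem_erase hl
      have hll : l + l ≠ 0 := fun h' => hlh (eq_half_of_add_self h' hl0).1
      rw [H63.HalfNorm.extSq, ← F.upow_add, hθv, hθv, if_neg hl0, if_neg hll, mul_add,
        AddChar.map_add_eq_mul]
      ring
  have hL1 : cL (H26.oneIrr G) = 0 := by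
    have h := hML 0
    rw [if_pos (by rw [ZMod.val_zero]; exact Even.zero)] at h
    have h2 := (Finset.sum_eq_zero_iff.1 h) (H26.oneIrr G) (Finset.mem_univ _)
    rwa [F.mult_one, if_pos rfl, mul_one] at h2
  have hLθs : cL θs = 0 := by
    have h := hML k₀
    rw [if_pos hk₀] at h
    have h2 := (Finset.sum_eq_zero_iff.1 h) θs (Finset.mem_univ _)
    rwa [hmK θs hθs, if_pos rfl, mul_one] at h2
  set A' := A.filter (fun χ => cL χ ≠ 0) with hA'
  have hLform0 : ∀ f : Cfsg.IrrCharacter G → ℂ, ∑ χ, (cL χ : ℂ) * f χ =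
      (cL St : ℂ) * f St + ∑ χ ∈ A', f χ := by
    intro f
    rw [hsplit, hL1, Nat.cast_zero, zero_mul, zero_add, Finset.sum_eq_single_of_mem θs hθs
      (fun x hx hne => by
        have : cL x = 0 := by have := hLle x; have := hK0.2 x hx hne; omega
        rw [this, Nat.cast_zero, zero_mul]), hLθs, Nat.cast_zero, zero_mul, add_zero,
      ← Finset.add_sum_erase _ _ hSt]
    congr 1
    rw [← Finset.sum_filter_of_ne (p := fun χ => c χ ≠ 0) (fun χ _ hne h => hne (by
        have : cL χ = 0 := by have := hLle χ; omega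
        rw [this, Nat.cast_zero, zero_mul])),
      ← hAdef, ← Finset.sum_filter_of_ne (p := fun χ => cL χ ≠ 0)
        (fun χ _ hne h => hne (by rw [h, Nat.cast_zero, zero_mul])), ← hA']
    refine Finset.sum_congr rfl fun χ hχ => ?_
    obtain ⟨h1, h2⟩ := Finset.mem_filter.1 hχ
    have h3 : cL χ = 1 := by have := hLle χ; have := hc1 χ h1; omega
    rw [h3, Nat.cast_one, one_mul]
  have hLSt : cL St = 0 := by
    have h := hLform0 fun χ => ((B.m χ 0 : ℕ) : ℂ)
    have h1 : ∑ χ, (cL χ : ℂ) * (B.m χ 0 : ℂ) = (e : ℂ) / 2 := by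
      refine mul_right_cancel₀ hp0 ?_
      rw [← hM0L, Finset.sum_mul]
      simp only [hcL, mul_assoc, mspec_zero, Finset.mul_sum]
      rw [Finset.sum_comm]
    have hSt0 : B.m St 0 = 1 := by
      have h := m_zero_mul B hStK
      rw [hStd.1, hStd.2, mul_zero, sub_zero] at h
      have h2 : (B.m St 0 : ℤ) * p = 1 * p := by rw [h, one_mul]
      exact_mod_cast mul_right_cancel₀ (Int.natCast_ne_zero.2 hp.out.ne_zero) h2
    rw [h1, hSt0, Nat.cast_one, mul_one, Finset.sum_congr rfl fun χ hχ => by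
      rw [← sum_mult_nat F B, hA2 χ (Finset.mem_filter.1 hχ).1], Finset.sum_const,
      nsmul_eq_mul] at h
    push_cast at h
    have h2 : ((e : ℕ) : ℂ) = ((2 * cL St + 4 * A'.card : ℕ) : ℂ) := by
      push_cast
      linear_combination 2 * h
    have h3 : e = 2 * cL St + 4 * A'.card := by exact_mod_cast h2
    have := hLle St
    obtain ⟨r, hr⟩ := N.four
    have := hcSt.1
    omega
  have hLform : ∀ f : Cfsg.IrrCharacter G → ℂ, ∑ χ, (cL χ : ℂ) * f χ = ∑ χ ∈ A', f χ := by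
    intro f
    rw [hLform0, hLSt, Nat.cast_zero, zero_mul, zero_add]
  -- parity of the constituents
  have hMA' : ∀ k : ZMod e, ∑ χ ∈ A', F.mult χ k = if Even k.val then 0 else 1 := by
    intro k
    refine Nat.cast_injective (R := ℂ) ?_
    rw [← hML k]
    push_cast
    exact (hLform fun χ => (F.mult χ k : ℂ)).symm
  have hMA : ∀ k : ZMod e, (if k = 0 then 1 else 0) + ((F.mult St k + ∑ χ ∈ A, F.mult χ k) +
      if k = k₀ then 1 else 0) = 1 + if k = k₀ + k₀ then 1 else 0 := by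
    intro k
    refine Nat.cast_injective (R := ℂ) ?_
    rw [← hMpre k, ← F.mult_one k, ← hmK θs hθs k]
    push_cast
    exact (hform fun χ => (F.mult χ k : ℂ)).symm
  have hk₂ : Even (k₀ + k₀).val := by
    rw [ZMod.val_add, Nat.even_iff, Nat.mod_mod_of_dvd _ (even_iff_two_dvd.1 heven)]
    omega
  have hAj : ∀ χ ∈ A, χ.1 j = 2 - 4 * if χ ∈ A' then 1 else 0 := by
    intro χ hχ
    have hpar : ∀ k : ZMod e, F.mult χ k ≠ 0 → (χ ∈ A' ↔ ¬ Even k.val) := by
      intro k hk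
      constructor
      · intro h he'
        have := hMA' k
        rw [if_pos he', Finset.sum_eq_zero_iff] at this
        exact hk (this χ h)
      · intro he'
        by_contra h
        have h1 := hMA k
        have h2 := hMA' k
        have hk0' : k ≠ 0 := fun h' => he' (by rw [h', ZMod.val_zero]; exact Even.zero)
        have hk1' : k ≠ k₀ := fun h' => he' (h' ▸ hk₀)
        have hk2' : k ≠ k₀ + k₀ := fun h' => he' (h' ▸ hk₂)
        rw [if_neg hk0', if_neg hk1', if_neg hk2'] at h1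
        rw [if_neg he'] at h2
        have hsub : insert χ A' ⊆ A :=
          Finset.insert_subset hχ (Finset.filter_subset _ _)
        have h3 := Finset.sum_le_sum_of_subset (f := fun χ => F.mult χ k) hsub
        rw [Finset.sum_insert h] at h3
        omega
    rw [hj, value_half F heven, Finset.sum_congr rfl (g := fun k : ZMod e =>
      (F.mult χ k : ℂ) * (1 - 2 * if χ ∈ A' then 1 else 0)) fun k _ => ?_, ← Finset.sum_mul,
      ← Nat.cast_sum, hA2 χ hχ]
    · push_cast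
      ring
    · by_cases hk : F.mult χ k = 0
      · simp [hk]
      · congr 1
        by_cases hm : χ ∈ A'
        · rw [if_pos hm, (Nat.not_even_iff_odd.1 ((hpar k hk).1 hm)).neg_one_pow]; norm_num
        · rw [if_neg hm, (not_not.1 fun h => hm ((hpar k hk).2 h) : Even k.val).neg_one_pow]
          norm_num
  refine ⟨c, St, A, hc0, hnorm, ⟨hStne, hStK, hStd.1, hStd.2⟩, hA, hAcard, fun χ hχ => ?_,
    fun w hw => ?_⟩
  · rw [← hj, hAj χ hχ]
    split_ifs <;> norm_num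
  · have h1 := hc w
    rw [hform fun χ => χ.1 w, H26.oneIrr_val,
      K_regular B N.eps (N.regular_of_sq hw) hθs hθ] at h1
    have h2 := hcL w
    rw [hLform fun χ => χ.1 w, H63.HalfNorm.extSq, hw, (irr_degree θ).1, B.degK θ hθ] at h2
    rw [← hj, Finset.sum_congr rfl (g := fun χ => 2 * χ.1 w - 4 * if χ ∈ A' then χ.1 w else 0)
      fun χ hχ => by rw [hAj χ hχ]; split_ifs <;> ring,
      Finset.sum_sub_distrib, ← Finset.mul_sum, ← Finset.mul_sum, Finset.sum_ite_mem,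
      Finset.inter_eq_right.2 (Finset.filter_subset _ _), ← h2]
    linear_combination -2 * h1

end Cfsg.Agent.H85.BT
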