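import Mathlib
import Cfsg.Agent.H85.BT.Square

/-!
The product of the two exceptional characters, and the conclusion for a long period.
-/

set_option autoImplicit false
set_option linter.unusedSectionVars false

namespace Cfsg.Agent.H85.BT

open Cfsg.Agent.H31.Defect Cfsg.Agent.H31.FewSylow Cfsg.Agent.H69.PRQ
open scoped ComplexConjugate

variable {G : Type*} [Group G] [Fintype G] {p : ℕ} [hp : Fact p.Prime] {z : G}
  {H : Subgroup G} {e : ℕ} [NeZero e] {u : G} {B : BlockData p z (⊥ : Subgroup G)}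

/-- Inner product by coefficients. -/
theorem inner_coeff {ψ φ : G → ℂ} {a b : Cfsg.IrrCharacter G → ℕ}
    (ha : ∀ g, ψ g = ∑ χ, (a χ : ℂ) * χ.1 g) (hb : ∀ χ, (b χ : ℂ) = Cfsg.classInner φ χ.1) :
    ((∑ χ, a χ * b χ : ℕ) : ℂ) = Cfsg.classInner ψ φ := by
  classical
  have hb' : ∀ χ : Cfsg.IrrCharacter G,
      (b χ : ℂ) = (Nat.card G : ℂ)⁻¹ * ∑ g : G, χ.1 g * conj (φ g) := fun χ => by
    rw [← Complex.conj_natCast (b χ), hb, Cfsg.classInner, map_mul, map_inv₀, Complex.conj_natCast,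
      map_sum]
    congr 1
    exact Finset.sum_congr rfl fun g _ => by rw [map_mul, Complex.conj_conj, mul_comm]
  push_cast
  simp only [Cfsg.classInner, ha, Finset.sum_mul]
  rw [Finset.sum_comm, Finset.mul_sum]
  refine Finset.sum_congr rfl fun χ _ => ?_
  rw [hb', Finset.mul_sum, Finset.mul_sum, Finset.mul_sum]
  exact Finset.sum_congr rfl fun g _ => by ring

variable (N : Neg p e z u B)
include N

set_option maxHeartbeats 2000000 in
theorem Neg.cross (S : Parts p z ⊥ H) {θ θ' : Cfsg.IrrCharacter G} (hθ : θ ∈ B.K)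
    (hθ' : θ' ∈ B.K) (hne : θ ≠ θ') :
    ∃ Bs : Finset (Cfsg.IrrCharacter G), 2 * Bs.card = e ∧
      ∀ χ ∈ Bs, χ ≠ H26.oneIrr G ∧ cc B χ = 1 ∧ Cfsg.charDegree χ.1 = 2 * e ∧
        χ.1 (u ^ (half e).val) = 0 := by
  classical
  have F := N.F
  have he0 : (e : ℂ) ≠ 0 := Nat.cast_ne_zero.2 (NeZero.ne e)
  have hpC : (p : ℂ) = 2 * e + 1 := by exact_mod_cast N.hpe
  have hpZ : (p : ℤ) = 2 * e + 1 := by exact_mod_cast N.hpe
  have hDC : (B.D : ℂ) = e + 1 := by exact_mod_cast N.hD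
  obtain ⟨c, hc0, hc⟩ := exists_coeff (ψ := fun g => θ.1 g * θ'.1 g)
    (H26.isCharacter_mul (H26.irr_isCharacter θ) (H26.irr_isCharacter θ'))
  have hone : c (H26.oneIrr G) = 0 := by
    refine Nat.cast_injective (R := ℂ) ?_
    rw [hc0, Nat.cast_zero, ← (H26.classInner_irr θ θ').trans (if_neg hne)]
    simp only [Cfsg.classInner, H26.oneIrr_val, map_one, mul_one, N.real S hθ']
  have hdeg : ∑ χ, c χ * Cfsg.charDegree χ.1 = (e + 1) * (e + 1) := by
    refine Nat.cast_injective (R := ℂ) ?_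
    push_cast
    have h := hc 1
    simp only [(irr_degree _).1, B.degK θ hθ, B.degK θ' hθ', hDC] at h
    rw [h]
  set T : Cfsg.IrrCharacter G → ℤ := fun χ => if χ ∈ B.K then 1 else -2 * cc B χ with hTdef
  have hTval : ∀ χ : Cfsg.IrrCharacter G,
      ∑ i ∈ Finset.univ.erase (0 : ZMod p), χ.1 (z ^ i.val) = (e : ℂ) * (T χ : ℂ) := by
    intro χ
    simp only [T]
    split_ifs with hχ
    · rw [sum_erase_K B hχ, N.he, N.eps]; push_cast; ring
    · rw [sum_erase_value B hχ, hpC]; push_cast; ring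
  have hK2 : B.K = {θ, θ'} := by
    refine (Finset.eq_of_subset_of_card_le ?_ ?_).symm
    · intro x hx
      rcases Finset.mem_insert.1 hx with rfl | hx
      · exact hθ
      · rw [Finset.mem_singleton.1 hx]; exact hθ'
    · rw [B.cardK, N.card_K S, Finset.card_pair hne]
  have hT : ∑ χ, (c χ : ℤ) * T χ = -(e : ℤ) := by
    refine Int.cast_injective (α := ℂ) (mul_left_cancel₀ he0 ?_)
    push_cast
    have h1 : ∀ i ∈ Finset.univ.erase (0 : ZMod p), θ.1 (z ^ i.val) * θ'.1 (z ^ i.val) =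
        θ.1 (z ^ i.val) - θ.1 (z ^ i.val) ^ 2 := fun i hi => by
      have h := sum_K_value B N.eps (Finset.ne_of_mem_erase hi)
      rw [hK2, Finset.sum_pair hne] at h
      linear_combination (θ.1 (z ^ i.val)) * h
    have h2 : ∑ i ∈ Finset.univ.erase (0 : ZMod p), θ.1 (z ^ i.val) * θ'.1 (z ^ i.val) =
        (e : ℂ) * -(e : ℂ) := by
      rw [Finset.sum_congr rfl h1, Finset.sum_sub_distrib, N.moment S hθ, sum_erase_K B hθ, N.he,
        N.eps]
      push_cast
      ring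
    rw [← h2, Finset.mul_sum]
    simp only [hc]
    rw [Finset.sum_comm]
    refine Finset.sum_congr rfl fun χ _ => ?_
    rw [← Finset.mul_sum, hTval]
    ring
  set X := Finset.univ.erase (H26.oneIrr G) with hX
  set Y := X \ B.K with hY
  have hKX : B.K ⊆ X := fun x hx =>
    Finset.mem_erase.2 ⟨fun h => B.one_not (h ▸ hx), Finset.mem_univ _⟩
  have hsplit : ∀ f : Cfsg.IrrCharacter G → ℤ,
      ∑ χ, f χ = f (H26.oneIrr G) + (∑ χ ∈ Y, f χ + ∑ χ ∈ B.K, f χ) := fun f => by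
    rw [Finset.sum_sdiff hKX, hX, Finset.add_sum_erase _ _ (Finset.mem_univ _)]
  have hYmem : ∀ χ ∈ Y, χ ≠ H26.oneIrr G ∧ χ ∉ B.K := fun χ hχ =>
    ⟨Finset.ne_of_mem_erase (Finset.mem_sdiff.1 hχ).1, (Finset.mem_sdiff.1 hχ).2⟩
  set a := ∑ χ ∈ B.K, (c χ : ℤ) with ha
  have ha0 : 0 ≤ a := Finset.sum_nonneg fun _ _ => Nat.cast_nonneg _
  have hYcc : 2 * ∑ χ ∈ Y, (c χ : ℤ) * cc B χ = (e : ℤ) + a := by
    rw [hsplit, hone, Nat.cast_zero, zero_mul, zero_add] at hT
    simp only [T] at hT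
    rw [Finset.sum_congr rfl (s₁ := Y) fun χ hχ => by rw [if_neg (hYmem χ hχ).2],
      Finset.sum_congr rfl (s₁ := B.K) fun χ hχ => by rw [if_pos hχ, mul_one]] at hT
    simp only [mul_left_comm _ (-2 : ℤ), ← Finset.mul_sum] at hT
    linarith
  have hYdeg : ∑ χ ∈ Y, (c χ : ℤ) * Cfsg.charDegree χ.1 =
      ((e : ℤ) + 1) * ((e : ℤ) + 1) - a * ((e : ℤ) + 1) := by
    have h : ((∑ χ, c χ * Cfsg.charDegree χ.1 : ℕ) : ℤ) = (((e + 1) * (e + 1) : ℕ) : ℤ) := by
      rw [hdeg]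
    push_cast at h
    rw [hsplit, hone, Nat.cast_zero, zero_mul, zero_add,
      Finset.sum_congr rfl (s₁ := B.K) fun χ hχ => by rw [B.degK χ hχ, N.hD],
      ← Finset.sum_mul, ← ha] at h
    push_cast at h
    linarith
  set W : Cfsg.IrrCharacter G → ℤ := fun χ =>
    (Cfsg.charDegree χ.1 : ℤ) - cc B χ * ((p : ℤ) - 1) with hW
  have hWY : ∀ χ ∈ Y, 0 ≤ W χ ∧ (p : ℤ) ∣ W χ ∧ (cc B χ ≠ 1 → 0 < W χ) ∧
      (cc B χ = -1 → 2 * (p : ℤ) ≤ W χ) := by
    intro χ hχ
    obtain ⟨hne1, hK⟩ := hYmem χ hχ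
    have hd2 := two_le_deg N.perf hne1
    have hpp := hp.out.two_le
    simp only [W]
    rcases cc_abs B χ with h | h | h
    · rw [h]
      refine ⟨by omega, ?_, by omega, by omega⟩
      have := m_zero_mul B hK
      rw [h, mul_zero, sub_zero] at this
      exact ⟨(B.m χ 0 : ℤ), by linear_combination -this⟩
    · have h1 := cong_cc B (χ := χ) (by omega)
      rw [h] at h1 ⊢
      have := Int.le_of_dvd (by omega) h1
      refine ⟨by omega, ?_, by omega, by omega⟩
      obtain ⟨r, hr⟩ := h1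
      exact ⟨r - 1, by linarith⟩
    · have h1 := cong_cc B (χ := χ) (by omega)
      rw [h] at h1 ⊢
      have := Int.le_of_dvd (by omega) h1
      refine ⟨by omega, ?_, by omega, by omega⟩
      obtain ⟨r, hr⟩ := h1
      exact ⟨r + 1, by linarith⟩
  have hWsum' : ∑ χ ∈ Y, (c χ : ℤ) * W χ = (p : ℤ) * (1 - a) := by
    simp only [W, mul_sub, Finset.sum_sub_distrib, ← mul_assoc]
    rw [hYdeg]
    simp only [mul_one, ← Finset.sum_mul]
    rw [hpZ]
    linear_combination -(e : ℤ) * hYcc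
  have hale : a ≤ 1 := by
    have h := Finset.sum_nonneg (s := Y) (f := fun χ => (c χ : ℤ) * W χ)
      fun χ hχ => mul_nonneg (Nat.cast_nonneg _) (hWY χ hχ).1
    rw [hWsum'] at h
    by_contra hlt
    have h2 : (p : ℤ) * (1 - a) < 0 :=
      mul_neg_of_pos_of_neg (Int.natCast_pos.2 hp.out.pos) (by omega)
    omega
  have haz : a = 0 := by
    obtain ⟨r, hr⟩ := N.four
    omega
  rw [haz, sub_zero, mul_one] at hWsum'
  obtain ⟨St, hSt, hStW, hrest⟩ := exists_unique_unit (g := fun χ => (c χ : ℤ) * W χ)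
    (Int.natCast_pos.2 hp.out.pos) (fun χ hχ => mul_nonneg (Nat.cast_nonneg _) (hWY χ hχ).1)
    (fun χ hχ => Dvd.dvd.mul_left (hWY χ hχ).2.1 _) hWsum'
  obtain ⟨hStne, hStK⟩ := hYmem St hSt
  obtain ⟨hWnn, ⟨q, hq⟩, hWpos, hW2⟩ := hWY St hSt
  have hcSt : c St = 1 ∧ W St = (p : ℤ) := by
    rw [hq] at hStW
    have h1 : (c St : ℤ) * q = 1 := mul_left_cancel₀ (Int.natCast_ne_zero.2 hp.out.ne_zero)
      (by linarith : (p : ℤ) * ((c St : ℤ) * q) = (p : ℤ) * 1)
    rcases Int.mul_eq_one_iff_eq_one_or_neg_one.1 h1 with ⟨ha1, hb1⟩ | ⟨ha1, hb1⟩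
    · exact ⟨by exact_mod_cast ha1, by rw [hq, hb1, mul_one]⟩
    · omega
  have hStd : cc B St = 0 := by
    have hWe := hcSt.2
    simp only [W] at hWe hW2
    rcases cc_abs B St with h | h | h
    · exact h
    · exfalso
      obtain ⟨r, hr⟩ := N.ev St hStne (by omega)
      rw [h] at hWe
      have := N.hpe
      omega
    · have := hW2 h
      have := hp.out.pos
      omega
  set Bs := (Y.erase St).filter (fun χ => c χ ≠ 0) with hBdef
  have hBfact : ∀ χ ∈ Bs, χ ≠ H26.oneIrr G ∧ χ ∉ B.K ∧ cc B χ = 1 ∧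
      Cfsg.charDegree χ.1 = 2 * e := by
    intro χ hχ
    have hY' := Finset.mem_of_mem_erase (Finset.mem_filter.1 hχ).1
    obtain ⟨hne1, hK⟩ := hYmem χ hY'
    have hW0 : W χ = 0 :=
      (mul_eq_zero.1 (hrest χ hY' (Finset.ne_of_mem_erase (Finset.mem_filter.1 hχ).1))).resolve_left
        (Int.natCast_ne_zero.2 (Finset.mem_filter.1 hχ).2)
    have hcc : cc B χ = 1 := by
      by_contra h
      have := (hWY χ hY').2.2.1 h
      omega
    refine ⟨hne1, hK, hcc, ?_⟩
    simp only [W] at hW0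
    rw [hcc] at hW0
    have := N.hpe
    omega
  have hBsum : 2 * ∑ χ ∈ Bs, c χ = e := by
    have h := hYcc
    rw [haz, add_zero, ← Finset.add_sum_erase _ _ hSt, hStd, mul_zero, zero_add,
      ← Finset.sum_filter_of_ne (p := fun χ => c χ ≠ 0)
        (fun χ _ hne h => hne (by rw [h, Nat.cast_zero, zero_mul])),
      ← hBdef, Finset.sum_congr rfl fun χ hχ => by rw [(hBfact χ hχ).2.2.1, mul_one],
      ← Nat.cast_sum] at h
    exact_mod_cast h
  -- the constituents are distinct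
  have hc1 : ∀ χ ∈ Bs, c χ = 1 := by
    obtain ⟨c₁, -, -, h10, hn1, -⟩ := (N.decomp S hθ).out
    obtain ⟨c₂, -, -, h20, hn2, -⟩ := (N.decomp S hθ').out
    obtain ⟨c₁', h10', h1'⟩ := exists_coeff (ψ := fun g => θ.1 g * θ.1 g)
      (H26.isCharacter_mul (H26.irr_isCharacter θ) (H26.irr_isCharacter θ))
    obtain rfl : c₁' = c₁ :=
      funext fun χ => Nat.cast_injective (R := ℂ) ((h10' χ).trans (h10 χ).symm)
    have heq : ∑ χ, c χ * c χ = ∑ χ, c₁' χ * c₂ χ := by
      refine Nat.cast_injective (R := ℂ) ?_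
      rw [inner_coeff hc hc0, inner_coeff h1' h20, Cfsg.classInner, Cfsg.classInner]
      refine congrArg _ (Finset.sum_congr rfl fun g _ => ?_)
      simp only [map_mul, N.real S hθ, N.real S hθ']
      ring
    have hcs : 2 * ∑ χ, c₁' χ * c₂ χ ≤ ∑ χ, c₁' χ * c₁' χ + ∑ χ, c₂ χ * c₂ χ := by
      rw [Finset.mul_sum, ← Finset.sum_add_distrib]
      refine Finset.sum_le_sum fun χ _ => ?_
      rw [← mul_assoc, ← sq, ← sq]
      exact two_mul_le_add_sq _ _
    have hsub : 1 + ∑ χ ∈ Bs, c χ * c χ ≤ ∑ χ, c χ * c χ := by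
      rw [← Finset.add_sum_erase _ _ (Finset.mem_univ St), hcSt.1, mul_one]
      exact add_le_add le_rfl (Finset.sum_le_sum_of_subset fun χ hχ =>
        Finset.mem_erase.2 ⟨Finset.ne_of_mem_erase (Finset.mem_filter.1 hχ).1, Finset.mem_univ _⟩)
    have hge : ∀ χ ∈ Bs, c χ ≤ c χ * c χ := fun χ _ => Nat.le_mul_self _
    intro χ hχ
    have hpos : c χ ≠ 0 := (Finset.mem_filter.1 hχ).2
    by_contra hne'
    have h2 : c χ + 2 ≤ c χ * c χ := by
      have : 2 * c χ ≤ c χ * c χ := Nat.mul_le_mul_right _ (by omega)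
      omega
    have h3 : ∑ y ∈ Bs.erase χ, c y ≤ ∑ y ∈ Bs.erase χ, c y * c y :=
      Finset.sum_le_sum fun y hy => hge y (Finset.mem_of_mem_erase hy)
    rw [← Finset.add_sum_erase _ _ hχ] at hsub hBsum
    omega
  refine ⟨Bs, ?_, fun χ hχ => ?_⟩
  · rw [← hBsum, Finset.card_eq_sum_ones]
    congr 1
    exact Finset.sum_congr rfl fun χ hχ => (hc1 χ hχ).symm
  · obtain ⟨hne1, hK, hcc, hd⟩ := hBfact χ hχ
    refine ⟨hne1, hcc, hd, ?_⟩
    have hm0 : B.m χ 0 = 0 := by
      have h := m_zero_mul B hK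
      rw [hcc, hd, hpZ] at h
      push_cast at h
      have h2 : (B.m χ 0 : ℤ) * (2 * e + 1) = 0 := by rw [h]; ring
      exact_mod_cast (mul_eq_zero.1 h2).resolve_right (by omega)
    have hj2 : orderOf (u ^ (half e).val) = 2 := orderOf_half F N.heven
    obtain ⟨r, ρ, -, hρ⟩ := χ.2
    obtain ⟨a', ha', -⟩ := four_dvd_deg_sub N.perf χ N.half_sq
    obtain ⟨⟨L, hL⟩, ⟨L', hL'⟩⟩ := half_bounds F B F.two_le N.heven χ
    rw [ha', hm0, Nat.cast_zero] at hL hL'
    have e1 : (L : ℤ) = a' := by exact_mod_cast (hL.trans (zero_add _))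
    have e2 : (L' : ℤ) = -a' := by exact_mod_cast (hL'.trans (zero_sub _))
    rw [ha', show a' = 0 by omega, Int.cast_zero]

set_option maxHeartbeats 2000000 in
/-- Negative sign and a period divisible by four. -/
theorem Neg.main [IsSimpleGroup G] (hG : ¬ IsCyclic G) (S : Parts p z ⊥ H) {v b : ℕ}
    (hv : e = 2 ^ v) (hb : b ≠ 0) (hcard : Nat.card G = p * B.D * 2 ^ b) : b ≤ v + 1 := by
  classical
  have F := N.F
  have heven := N.heven
  set θ := B.κ 1 with hθd
  have hθ : θ ∈ B.K := B.κ_mem 1 one_ne_zero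
  obtain ⟨θ', hθ', hne⟩ : ∃ x ∈ B.K, x ≠ θ :=
    Finset.exists_mem_ne (by rw [B.cardK, N.card_K S]; norm_num) θ
  obtain ⟨c, St, A, -, -, ⟨hStne, hStK, hStcc, hStd⟩, hA, hAcard, hAj, hAsum⟩ :=
    (N.decomp S hθ).out
  obtain ⟨Bs, hBcard, hB⟩ := N.cross S hθ hθ' hne.symm
  have hAB : Disjoint A Bs := Finset.disjoint_left.2 fun χ h1 h2 => by
    have := (hA χ h1).2.2.1
    have := (hB χ h2).2.1
    omega
  have hcc0 : ∀ χ, χ ≠ H26.oneIrr G → χ ∉ A → χ ∉ Bs → cc B χ = 0 := by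
    intro χ h1 h2 h3
    have hsq : ∑ x, cc B x ^ 2 = (e : ℤ) := by
      simp only [cc]
      rw [B.sq_sum, N.he]
    rw [← Finset.add_sum_erase _ _ (Finset.mem_univ (H26.oneIrr G)), cc_one] at hsq
    have hsub : A ∪ Bs ⊆ Finset.univ.erase (H26.oneIrr G) := fun x hx => by
      refine Finset.mem_erase.2 ⟨?_, Finset.mem_univ _⟩
      rcases Finset.mem_union.1 hx with h | h
      · exact (hA x h).1
      · exact (hB x h).1
    rw [← Finset.sum_sdiff hsub, Finset.sum_union hAB,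
      Finset.sum_congr rfl (s₁ := A) fun x hx => by rw [(hA x hx).2.2.1],
      Finset.sum_congr rfl (s₁ := Bs) fun x hx => by rw [(hB x hx).2.1],
      Finset.sum_const, Finset.sum_const] at hsq
    simp only [nsmul_eq_mul] at hsq
    norm_num at hsq
    have hnn := Finset.sum_nonneg (s := Finset.univ.erase (H26.oneIrr G) \ (A ∪ Bs))
      (f := fun x => cc B x ^ 2) fun x _ => sq_nonneg _
    refine (pow_eq_zero_iff two_ne_zero).1 ((Finset.sum_eq_zero_iff_of_nonneg
      fun x _ => sq_nonneg _).1 (by omega :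
        ∑ x ∈ Finset.univ.erase (H26.oneIrr G) \ (A ∪ Bs), cc B x ^ 2 = 0) χ
      (Finset.mem_sdiff.2 ⟨Finset.mem_erase.2 ⟨h1, Finset.mem_univ _⟩,
        fun h => (Finset.mem_union.1 h).elim h2 h3⟩))
  set j := u ^ (half e).val with hj
  have hjo : orderOf j = 2 := orderOf_half F heven
  have hz1 : z = z ^ (1 : ZMod p).val := by rw [ZMod.val_one, pow_one]
  have hval : ∀ x : Cfsg.IrrCharacter G, x ∉ B.K → x.1 z = -(cc B x : ℂ) := fun x hx => by
    rw [← value_const B hx (one_ne_zero : (1 : ZMod p) ≠ 0), ← hz1]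
  have hD0 : (B.D : ℂ) ≠ 0 := Nat.cast_ne_zero.2 B.D_pos.ne'
  have hDC : (B.D : ℂ) = e + 1 := by exact_mod_cast N.hD
  have hS : ∀ w : G, w * w = 1 →
      ∑ χ : Cfsg.IrrCharacter G, χ.1 w * χ.1 j * conj (χ.1 z) / χ.1 1 =
        1 + (∑ χ ∈ A, χ.1 w * χ.1 j) / (2 * (B.D : ℂ)) + θ.1 w / (B.D : ℂ) := by
    intro w hw
    have hdis : Disjoint A B.K := Finset.disjoint_left.2 fun χ h1 h2 => (hA χ h1).2.1 h2
    have hsub : A ∪ B.K ⊆ Finset.univ.erase (H26.oneIrr G) := fun x hx => by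
      refine Finset.mem_erase.2 ⟨?_, Finset.mem_univ _⟩
      rcases Finset.mem_union.1 hx with h | h
      · exact (hA x h).1
      · exact fun h' => B.one_not (h' ▸ h)
    rw [← Finset.add_sum_erase _ _ (Finset.mem_univ (H26.oneIrr G)),
      ← Finset.sum_subset hsub (fun x hx hxn => ?_), Finset.sum_union hdis]
    · rw [Finset.sum_congr rfl (s₁ := A) (g := fun x => x.1 w * x.1 j / (2 * (B.D : ℂ)))
          (fun x hx => by
            obtain ⟨-, hK, hcc, hd⟩ := hA x hx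
            rw [hval x hK, hcc, (irr_degree x).1, hd]
            push_cast
            simp),
        Finset.sum_congr rfl (s₁ := B.K) (g := fun x => θ.1 w / (B.D : ℂ) * conj (x.1 z))
          (fun x hx => by
            rw [K_regular B N.eps (N.regular_of_sq hw) hx hθ, hj, N.half_K hx, (irr_degree x).1,
              B.degK x hx]
            ring),
        ← Finset.sum_div, ← Finset.mul_sum, ← map_sum,
        show ∑ x ∈ B.K, x.1 z = 1 by
          conv_lhs => enter [2, x]; rw [hz1]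
          exact sum_K_value B N.eps one_ne_zero]
      simp only [H26.oneIrr_val, map_one, mul_one, div_one, add_assoc]
    · obtain ⟨hxA, hxK⟩ : x ∉ A ∧ x ∉ B.K :=
        ⟨fun h => hxn (Finset.mem_union_left _ h), fun h => hxn (Finset.mem_union_right _ h)⟩
      by_cases hxB : x ∈ Bs
      · rw [hj, (hB x hxB).2.2.2]
        simp
      · rw [hval x hxK, hcc0 x (Finset.ne_of_mem_erase hx) hxA hxB]
        simp
  obtain ⟨i, hi, hib⟩ := exists_central_involution (G := G) 2 b rfl hb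
    (by rw [hcard]; exact dvd_mul_left _ _)
  have hi2 : i * i = 1 := by rw [← sq, ← hi, pow_orderOf_eq_one]
  have hij : IsConj i j := by
    by_contra hn
    have h0 := class_sum_eq_zero i j z (no_factor F heven N.two_ne hi hn)
    rw [hS i hi2, hj, hAsum i hi2] at h0
    have hSt : St.1 i = St.1 1 := by
      rw [(irr_degree St).1, hStd]
      field_simp at h0
      have hpC : (p : ℂ) = 2 * e + 1 := by exact_mod_cast N.hpe
      linear_combination -h0 + 2 * hDC - hpC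
    rw [faithful hStne hSt, orderOf_one] at hi
    norm_num at hi
  rw [H26.card_centralizer_eq_of_isConj hij] at hib
  obtain ⟨C', hC'⟩ := hib
  obtain ⟨n, hn⟩ := class_count j j z
  rw [hS j (by rw [← sq, ← hjo, pow_orderOf_eq_one]),
    Finset.sum_congr rfl fun χ hχ => hAj χ hχ, Finset.sum_const, nsmul_eq_mul, hj, N.half_K hθ,
    ← hj, hC', hcard] at hn
  have hAC : (2 : ℂ) * ((A.card : ℂ) + 1) = e := by exact_mod_cast hAcard
  have hnat : n * C' * C' * 2 ^ (b + b) = p * 2 ^ (b + (v + 1)) := by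
    refine Nat.cast_injective (R := ℂ) ?_
    push_cast
    rw [pow_add, pow_add, pow_add, show (2 : ℂ) ^ v = (e : ℂ) by rw [hv]; push_cast; rfl]
    push_cast at hn
    field_simp at hn
    linear_combination ((2 : ℂ) ^ b / 2) * hn + (p : ℂ) * (2 : ℂ) ^ b * (hDC + hAC)
  have hdv : 2 ^ (b + b) ∣ p * 2 ^ (b + (v + 1)) := Dvd.intro_left _ hnat
  have hle := (Nat.pow_dvd_pow_iff_le_right (by norm_num : 1 < 2)).1
    ((Nat.Coprime.pow_left _ (Nat.prime_two.coprime_iff_not_dvd.2 fun h => N.two_ne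
      ((Nat.prime_dvd_prime_iff_eq Nat.prime_two hp.out).1 h).symm)).dvd_of_dvd_mul_left hdv)
  omega

end Cfsg.Agent.H85.BT
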