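import Mathlib
import Cfsg.Agent.H85.BT.Cross
import Cfsg.Agent.H25.Burnside
import Cfsg.Agent.S4503

/-!
Simple groups of order `p q ^ b g` with small cofactor: the theorem.
-/

set_option autoImplicit false
set_option linter.unusedSectionVars false

namespace Cfsg.Agent.H85.BT

open Cfsg.Agent.H31.Defect Cfsg.Agent.H31.FewSylow Cfsg.Agent.H69.PRQ
open scoped ComplexConjugate

variable {G : Type*} [Group G] [Fintype G] [IsSimpleGroup G] {p : ℕ} [hp : Fact p.Prime] {z : G}

theorem dvd_deg (hperf : commutator G = ⊤) {V : Subgroup G} (B : BlockData p z V)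
    {q b g : ℕ} (hq : q.Prime) (hg : g < p - 1) (hg0 : 0 < g)
    (hcard : Nat.card G = p * q ^ b * g) {χ : Cfsg.IrrCharacter G} (hne : χ ≠ H26.oneIrr G)
    (hc : B.b χ - B.m χ 0 ≠ 0) : q ∣ Cfsg.charDegree χ.1 := by
  by_contra hqd
  set d := Cfsg.charDegree χ.1
  have h := B.dvd χ hc
  rw [hcard, mul_left_comm d, mul_assoc p] at h
  have h1 : d ∣ q ^ b * g := (dvd_mul_right _ _).trans (Nat.dvd_of_mul_dvd_mul_left hp.out.pos h)
  have h2 : d ∣ g :=
    ((hq.coprime_iff_not_dvd.2 hqd).symm.pow_right b).dvd_of_dvd_mul_left h1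
  have h3 := Nat.le_of_dvd hg0 h2
  have hd2 := two_le_deg hperf hne
  obtain ⟨k, hk⟩ := B.cong χ hc
  have habs := abs_le.1 (B.abs_le χ)
  rcases le_or_gt k 0 with hk0 | hk0
  · have : (p : ℤ) * k ≤ 0 := mul_nonpos_of_nonneg_of_nonpos (by positivity) hk0
    omega
  · have : (p : ℤ) * 1 ≤ (p : ℤ) * k := mul_le_mul_of_nonneg_left hk0 (by positivity)
    omega

set_option maxHeartbeats 1000000 in
/-- The shape of the group. -/
theorem shape_main (hG : ¬ IsCyclic G) {q b g : ℕ} (hq : q.Prime) (hqg : ¬ q ∣ g)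
    (hg : g < p - 1) (hg2 : 2 ≤ g) (hpq : p ≠ q) (hb : b ≠ 0)
    (hcard : Nat.card G = p * q ^ b * g) (hz : orderOf z = p) :
    ∃ m, (p = 2 ^ m + 1 ∨ p = 2 ^ m - 1) ∧
      Subgroup.centralizer ({z} : Set G) = Subgroup.zpowers z ∧
      2 * Nat.card (Sylow p G) < (p + 1) * (p + 2) := by
  classical
  have hperf := perfect_of_simple hG
  have hg0 : 0 < g := by omega
  have hp2 := hp.out.two_le
  have hpg : ¬ p ∣ g := fun h => by
    have := Nat.le_of_dvd hg0 h
    omega
  have hpqb : ¬ p ∣ q ^ b := fun h =>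
    hpq ((Nat.prime_dvd_prime_iff_eq hp.out hq).1 (hp.out.dvd_of_dvd_pow h))
  have hsq : ¬ p ^ 2 ∣ Nat.card G := by
    rw [hcard, sq, mul_assoc]
    intro h
    rcases hp.out.dvd_mul.1 (Nat.dvd_of_mul_dvd_mul_left hp.out.pos h) with h' | h'
    · exact hpqb h'
    · exact hpg h'
  obtain ⟨V, H, S⟩ := exists_parts hz hsq
  obtain ⟨B⟩ := S.nonempty_blockData
  set e := (H30.conjExps p z).card with hedef
  have het : e * B.t = p - 1 := B.et
  have hepos : 0 < e := S.card_exp_pos
  have htpos : 0 < B.t := Nat.pos_of_ne_zero fun h => by rw [h, mul_zero] at het; omega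
  have helt : e < p := by
    have := Nat.le_mul_of_pos_right e htpos
    omega
  have hθ : B.κ 1 ∈ B.K := B.κ_mem 1 one_ne_zero
  -- the exceptional degree
  have hds : -1 + (∑ χ ∈ Finset.univ.erase (H26.oneIrr G),
      (Cfsg.charDegree χ.1 : ℤ) * (B.b χ - B.m χ 0)) + B.ε * B.D = 0 := by
    have h := B.deg_sum
    rw [← Finset.add_sum_erase _ _ (Finset.mem_univ (H26.oneIrr G)), deg_oneIrr, B.b_one, B.m_one,
      if_pos rfl] at h
    push_cast at h
    linarith
  have hqsum : (q : ℤ) ∣ ∑ χ ∈ Finset.univ.erase (H26.oneIrr G),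
      (Cfsg.charDegree χ.1 : ℤ) * (B.b χ - B.m χ 0) := by
    refine Finset.dvd_sum fun χ hχ => ?_
    by_cases hc : B.b χ - B.m χ 0 = 0
    · rw [hc, mul_zero]; exact dvd_zero _
    · exact Dvd.dvd.mul_right (by
        exact_mod_cast dvd_deg hperf B hq hg hg0 hcard (Finset.ne_of_mem_erase hχ) hc) _
  have hqD : ¬ q ∣ B.D := fun hd => by
    have h1 : (q : ℤ) ∣ B.ε * (B.D : ℤ) := Dvd.dvd.mul_left (by exact_mod_cast hd) _
    have h2 : (q : ℤ) ∣ ((1 : ℕ) : ℤ) := by
      obtain ⟨r, hr⟩ := dvd_add hqsum h1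
      exact ⟨r, by push_cast; linarith⟩
    exact hq.ne_one (Nat.dvd_one.1 (Int.natCast_dvd_natCast.1 h2))
  have hDdvd : B.D ∣ g := by
    have h := B.dvdK
    rw [hcard, mul_left_comm B.D, mul_assoc p] at h
    exact ((hq.coprime_iff_not_dvd.2 hqD).symm.pow_right b).dvd_of_dvd_mul_left
      ((dvd_mul_right _ _).trans (Nat.dvd_of_mul_dvd_mul_left hp.out.pos h))
  have hDle := Nat.le_of_dvd hg0 hDdvd
  have hDpos := B.D_pos
  have hD1 : B.D ≠ 1 := fun h =>
    B.one_not (eq_one_of_linear hperf ((B.degK _ hθ).trans h) ▸ hθ)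
  obtain ⟨k, hk⟩ := B.congK
  rw [← hedef] at hk
  have hDe : (B.ε = 1 ∧ B.D = e) ∨ (B.ε = -1 ∧ B.D + e = p) := by
    rcases B.eps with hε | hε <;> rw [hε] at hk
    · refine Or.inl ⟨hε, ?_⟩
      have : (B.D : ℤ) - e = 0 := Int.eq_zero_of_abs_lt_dvd (show (p : ℤ) ∣ (B.D : ℤ) - e from ⟨k, by linarith⟩)
        (abs_lt.2 ⟨by omega, by omega⟩)
      omega
    · refine Or.inr ⟨hε, ?_⟩
      rcases le_or_gt k 0 with h | h
      · have : (p : ℤ) * k ≤ 0 := mul_nonpos_of_nonneg_of_nonpos (by positivity) h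
        omega
      · rcases le_or_gt k 1 with h' | h'
        · have hk1 : k = 1 := by omega
          rw [hk1] at hk
          omega
        · have : (p : ℤ) * 2 ≤ (p : ℤ) * k := mul_le_mul_of_nonneg_left h' (by positivity)
          omega
  -- the centraliser of `z` has order `p`
  obtain rfl : V = ⊥ := by
    rw [eq_bot_iff]
    intro v hv
    rw [Subgroup.mem_bot]
    set θ := B.κ 1 with hθd
    have hval : ∀ i : ZMod p, i ≠ 0 →
        θ.1 (z ^ i.val) = B.ε * ∑ x ∈ fib B.κ θ, ZMod.stdAddChar (x * i) := fun i hi => by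
      have h := B.valK θ hθ i hi 1
      rwa [Subgroup.coe_one, mul_one] at h
    have hsum : ∀ k : ZMod p, ∑ i : ZMod p, θ.1 (z ^ i.val) * conj (ZMod.stdAddChar (k * i)) =
        ((B.D : ℂ) - B.ε * e) + B.ε * (if k ∈ fib B.κ θ then (p : ℂ) else 0) := by
      intro k
      have h1 : ∑ i : ZMod p, (∑ x ∈ fib B.κ θ, (ZMod.stdAddChar (x * i) : ℂ)) *
          conj (ZMod.stdAddChar (k * i)) = if k ∈ fib B.κ θ then (p : ℂ) else 0 := by
        simp only [Finset.sum_mul]
        rw [Finset.sum_comm, Finset.sum_congr rfl fun x _ => H31.Defect.sum_std_conj x k,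
          Finset.sum_ite_eq']
      rw [← Finset.add_sum_erase _ _ (Finset.mem_univ (0 : ZMod p))] at h1 ⊢
      simp only [mul_zero, AddChar.map_zero_eq_one, map_one, mul_one, Finset.sum_const,
        B.fiber θ hθ, ← hedef, nsmul_eq_mul] at h1
      simp only [mul_zero, AddChar.map_zero_eq_one, map_one, mul_one, ZMod.val_zero, pow_zero,
        (irr_degree θ).1, B.degK θ hθ]
      rw [Finset.sum_congr rfl fun i hi => by rw [hval i (Finset.ne_of_mem_erase hi), mul_assoc],
        ← Finset.mul_sum]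
      linear_combination (B.ε : ℂ) * h1
    obtain ⟨k, hk0⟩ : ∃ k : ZMod p,
        ∑ i : ZMod p, θ.1 (z ^ i.val) * conj (ZMod.stdAddChar (k * i)) = 0 := by
      rcases hDe with ⟨hε, hD⟩ | ⟨hε, hD⟩
      · refine ⟨0, ?_⟩
        rw [hsum, if_neg fun h => (mem_fib.1 h).1 rfl, hε, hD]
        push_cast
        ring
      · refine ⟨1, ?_⟩
        rw [hsum, if_pos (mem_fib.2 ⟨one_ne_zero, rfl⟩), hε]
        have hpC : (B.D : ℂ) + e = p := by exact_mod_cast hD
        push_cast
        linear_combination hpC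
    exact faithful (fun h => B.one_not (h ▸ hθ)) (char_eq_of_eigen_zero θ hz k hk0 fun i hi => by
      rw [hval i hi]
      exact B.valK θ hθ i hi ⟨v, hv⟩)
  have hC : Subgroup.centralizer ({z} : Set G) = Subgroup.zpowers z := by
    refine le_antisymm (fun x hx => ?_) (Subgroup.zpowers_le.2
      (Subgroup.mem_centralizer_singleton_iff.2 rfl))
    obtain ⟨i, v, hv, rfl⟩ := S.cover x hx
    rw [Subgroup.mem_bot.1 hv, mul_one]
    exact Subgroup.pow_mem _ (Subgroup.mem_zpowers z) _
  have hN : Nat.card (Subgroup.normalizer ((Subgroup.zpowers z : Subgroup G) : Set G)) = p * e := by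
    rw [card_normalizer S, Subgroup.card_bot, mul_one]
  have he2 : 2 ≤ e := by
    by_contra hlt
    have he1 : e = 1 := by omega
    rcases hDe with ⟨-, hD⟩ | ⟨-, hD⟩ <;> omega
  have : NeZero e := ⟨hepos.ne'⟩
  obtain ⟨u, F⟩ := exists_frame S hC hN he2
  have hsyl : e * Nat.card (Sylow p G) = q ^ b * g := by
    refine Nat.eq_of_mul_eq_mul_left hp.out.pos ?_
    rw [card_sylow_index S, ← mul_assoc, ← hN, Subgroup.card_mul_index, hcard, mul_assoc]
  have ht2 : 2 ≤ B.t := by
    by_contra hlt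
    have ht1 : B.t = 1 := by omega
    rw [ht1, mul_one] at het
    rcases hDe with ⟨-, hD⟩ | ⟨-, hD⟩ <;> omega
  have h2e : 2 * e ≤ p - 1 := by
    rw [← het, mul_comm]
    exact Nat.mul_le_mul_left e ht2
  rcases hDe with ⟨hε, hD⟩ | ⟨hε, hD⟩
  · -- positive sign
    have hbound : p ≤ 2 * e + 1 := by
      have h := S4503.result p hp.out (by rw [hcard, mul_assoc]; exact dvd_mul_right _ _) hsq ?_
        (B.κ 1).1 (H26.irr_isCharacter _) ?_
      · rwa [B.degK _ hθ, hD] at h
      · intro M hM hc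
        rcases hM.eq_bot_or_eq_top with h | h <;> subst h
        · rw [Subgroup.card_bot] at hc; omega
        · rw [Subgroup.card_top, hcard, mul_assoc] at hc
          have h1 := Nat.eq_of_mul_eq_mul_left hp.out.pos (hc.trans (mul_one p).symm)
          have := Nat.eq_one_of_mul_eq_one_left h1
          omega
      · intro g' hg'
        exact faithful (fun h => B.one_not (h ▸ hθ)) hg'
    have hpe : p = 2 * e + 1 := by omega
    have hge : g = e := by
      obtain ⟨r, hr⟩ := hD ▸ hDdvd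
      rcases Nat.lt_or_ge r 2 with hr2 | hr2
      · interval_cases r <;> omega
      · have := Nat.mul_le_mul_left e hr2
        omega
    subst hge
    obtain ⟨m, hm, hqb⟩ := plus_main hG F B hsq rfl hε hD hpe hq
      (by rw [hcard]; ring : Nat.card G = p * e * q ^ b)
    refine ⟨m, Or.inr (by omega), hC, ?_⟩
    have : Nat.card (Sylow p G) = p + 1 := by
      refine Nat.eq_of_mul_eq_mul_left hepos ?_
      rw [hsyl, hqb]
      ring
    rw [this]
    nlinarith
  · -- negative sign
    have hgD : g = B.D := by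
      obtain ⟨r, hr⟩ := hDdvd
      rcases Nat.lt_or_ge r 2 with hr2 | hr2
      · interval_cases r <;> omega
      · have := Nat.mul_le_mul_left B.D hr2
        omega
    have hcop : Nat.Coprime e B.D := by
      refine Nat.coprime_of_dvd fun l hl h1 h2 => ?_
      have hlp := (Nat.prime_dvd_prime_iff_eq hl hp.out).1 (hD ▸ dvd_add h2 h1)
      have := Nat.le_of_dvd hepos h1
      omega
    have hedvd : e ∣ q ^ b := by
      refine hcop.dvd_of_dvd_mul_right ?_
      rw [← hgD, ← hsyl]
      exact dvd_mul_right _ _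
    obtain ⟨v, -, hv⟩ := (Nat.dvd_prime_pow hq).1 hedvd
    have hv0 : v ≠ 0 := by
      rintro rfl
      rw [pow_zero] at hv
      omega
    have hqe : q ∣ e := hv ▸ dvd_pow_self q hv0
    have hq2 : q = 2 := by
      have h1 : (q : ℤ) ∣ (B.D : ℤ) + 1 := by
        rw [hε] at hds
        rw [show (B.D : ℤ) + 1 = ∑ χ ∈ Finset.univ.erase (H26.oneIrr G),
          (Cfsg.charDegree χ.1 : ℤ) * (B.b χ - B.m χ 0) by linarith]
        exact hqsum
      have h2 : (q : ℤ) ∣ (B.D : ℤ) - 1 := by
        have h3 : (B.D : ℤ) - 1 = (e : ℤ) * ((B.t : ℤ) - 1) := by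
          have e1 : ((e * B.t : ℕ) : ℤ) = ((p - 1 : ℕ) : ℤ) := by rw [het]
          have e2 : ((B.D + e : ℕ) : ℤ) = (p : ℤ) := by rw [hD]
          rw [Nat.cast_sub hp.out.one_le] at e1
          push_cast at e1 e2
          linarith
        rw [h3]
        exact Dvd.dvd.mul_right (by exact_mod_cast hqe) _
      have h3 : (q : ℤ) ∣ ((2 : ℕ) : ℤ) := by
        have h4 := dvd_sub h1 h2
        rwa [show ((B.D : ℤ) + 1) - ((B.D : ℤ) - 1) = ((2 : ℕ) : ℤ) by push_cast; ring] at h4
      exact (Nat.prime_dvd_prime_iff_eq hq Nat.prime_two).1 (Int.natCast_dvd_natCast.1 h3)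
    subst hq2
    have hcard' : Nat.card G = p * B.D * 2 ^ b := by rw [hcard, hgD]; ring
    rw [hgD] at hsyl
    rcases Nat.lt_or_ge v 2 with hv2 | hv2
    · have hv1 : v = 1 := by omega
      have he' : e = 2 := by rw [hv, hv1, pow_one]
      obtain ⟨m, hm, hbm⟩ := minus_two hG F B rfl hε hD he' (by omega) hb hcard'
      refine ⟨m, Or.inl hm, hC, ?_⟩
      have h1 : 2 ^ b ≤ 2 ^ m := Nat.pow_le_pow_right two_pos hbm
      have h2 : 2 ^ b * B.D ≤ 2 ^ m * B.D := Nat.mul_le_mul_right _ h1
      have h3 : 2 * Nat.card (Sylow p G) ≤ 2 ^ m * B.D := by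
        rw [he'] at hsyl; omega
      calc 2 * Nat.card (Sylow p G) ≤ 2 ^ m * B.D := h3
        _ ≤ p * p := Nat.mul_le_mul (by omega) (by omega)
        _ < (p + 1) * (p + 2) := by nlinarith
    · have ht := t_le_two hperf S F B rfl hv hv2 hε hD
      have ht' : B.t = 2 := by omega
      rw [ht'] at het
      have hpe : p = 2 * e + 1 := by omega
      have h4 : 4 ∣ e := by
        rw [hv, show (4 : ℕ) = 2 ^ 2 by norm_num]
        exact pow_dvd_pow 2 hv2
      have N : Neg p e z u B :=
        { F := F, he := rfl, eps := hε, hD := by omega, hpe := hpe, four := h4, perf := hperf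
          ev := fun χ hne hc => dvd_deg hperf B hq hg hg0 hcard hne hc }
      have hbv := N.main hG S hv hb hcard'
      refine ⟨v + 1, Or.inl (by rw [pow_succ, ← hv]; omega), hC, ?_⟩
      have h1 : 2 ^ b ≤ 2 ^ (v + 1) := Nat.pow_le_pow_right two_pos hbv
      have h2 : e * Nat.card (Sylow p G) ≤ e * (2 * B.D) := by
        rw [hsyl]
        calc 2 ^ b * B.D ≤ 2 ^ (v + 1) * B.D := Nat.mul_le_mul_right _ h1
          _ = e * (2 * B.D) := by rw [pow_succ, ← hv]; ring
      have h3 := Nat.le_of_mul_le_mul_left h2 hepos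
      have hD' : B.D = e + 1 := by omega
      calc 2 * Nat.card (Sylow p G) ≤ 2 * (p + 1) := Nat.mul_le_mul_left 2 (by omega)
        _ < (p + 1) * (p + 2) := by nlinarith

/-- The theorem of Brauer and Tuan. -/
theorem brauer_tuan {G : Type*} [Group G] [Finite G] [IsSimpleGroup G] (hG : ¬ IsCyclic G)
    (p q b g : ℕ) (hp : p.Prime) (hq : q.Prime) (hpq : p ≠ q)
    (hcard : Nat.card G = p * q ^ b * g) (hg : g < p - 1) :
    ∃ m, (p = 2 ^ m + 1 ∨ p = 2 ^ m - 1) ∧ ∃ z : G, orderOf z = p ∧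
      Subgroup.centralizer ({z} : Set G) = Subgroup.zpowers z ∧
      2 * Nat.card (Sylow p G) < (p + 1) * (p + 2) := by
  classical
  let _ : Fintype G := Fintype.ofFinite G
  have : Fact p.Prime := ⟨hp⟩
  have hg0 : g ≠ 0 := fun h => Nat.card_pos.ne' (by rw [hcard, h, mul_zero])
  set a := g.factorization q
  set g' := g / q ^ a with hg'def
  have hgg : q ^ a * g' = g := Nat.ordProj_mul_ordCompl_eq_self g q
  have hqg : ¬ q ∣ g' := Nat.not_dvd_ordCompl hq hg0
  have hcard' : Nat.card G = p * q ^ (b + a) * g' := by rw [hcard, pow_add, ← hgg]; ring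
  have hg' : g' < p - 1 := lt_of_le_of_lt
    (Nat.le_of_dvd (Nat.pos_of_ne_zero hg0) (Dvd.intro_left _ hgg)) hg
  have hperf := perfect_of_simple hG
  have hg2 : 2 ≤ g' := by
    by_contra hlt
    have h1 : g' = 1 := by
      rcases Nat.eq_zero_or_pos g' with h | h
      · rw [h, mul_zero] at hgg; exact absurd hgg.symm hg0
      · omega
    have hsol : Group.IsSolvable G := H25.isSolvable_of_card_eq_mul_pow (a := 1) hp hq
      (by rw [hcard', h1, pow_one, mul_one])
    have : Nontrivial G := IsSimpleGroup.toNontrivial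
    exact (Group.IsSolvable.commutator_lt_top_of_nontrivial G).ne hperf
  have hb : b + a ≠ 0 := by
    intro h
    obtain ⟨z, hz⟩ := exists_prime_orderOf_dvd_card' (G := G) p
      (by rw [hcard', mul_assoc]; exact dvd_mul_right _ _)
    rw [h, pow_zero, mul_one] at hcard'
    -- a normal subgroup of order `p`
    have hn : Nat.card (Sylow p G) ∣ g' := by
      obtain ⟨P⟩ : Nonempty (Sylow p G) := inferInstance
      have hP : Nat.card P = p := by
        rw [P.card_eq_multiplicity, hcard', Nat.factorization_mul hp.ne_zero (by omega),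
          Finsupp.add_apply, hp.factorization_self,
          Nat.factorization_eq_zero_of_not_dvd fun hd => by
            have := Nat.le_of_dvd (by omega) hd
            omega, pow_one]
      have h1 := P.card_dvd_index
      have h2 := (P : Subgroup G).card_mul_index
      rw [show Nat.card (P : Subgroup G) = p from hP, hcard'] at h2
      rwa [Nat.eq_of_mul_eq_mul_left hp.pos h2] at h1
    have h1 := card_sylow_modEq_one p G
    have h2 := Nat.le_of_dvd (by omega) hn
    have h3 : Nat.card (Sylow p G) = 1 := by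
      have := Nat.ModEq.eq_of_lt_of_lt h1 (by omega) hp.one_lt
      exact this
    obtain ⟨P⟩ : Nonempty (Sylow p G) := inferInstance
    have : Subsingleton (Sylow p G) := (Nat.card_eq_one_iff_unique.1 h3).1
    have hnorm := P.normal_of_subsingleton
    rcases hnorm.eq_bot_or_eq_top with h' | h'
    · have h4 := P.card_eq_multiplicity
      rw [h', Subgroup.card_bot, hcard', Nat.factorization_mul hp.ne_zero (by omega),
        Finsupp.add_apply, hp.factorization_self, pow_add, pow_one] at h4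
      have := Nat.eq_one_of_mul_eq_one_right h4.symm
      exact hp.ne_one this
    · have h4 : IsPGroup p G := fun x => by
        obtain ⟨k, hk⟩ := P.isPGroup' ⟨x, by rw [h']; exact Subgroup.mem_top x⟩
        exact ⟨k, congrArg Subtype.val hk⟩
      obtain ⟨k, hk⟩ := h4.exists_card_eq
      have h5 : g' ∣ p ^ k := hk ▸ hcard' ▸ dvd_mul_left _ _
      obtain ⟨i, -, hi⟩ := (Nat.dvd_prime_pow hp).1 h5
      rcases Nat.eq_zero_or_pos i with rfl | hi0
      · rw [pow_zero] at hi; omega
      · have := Nat.le_of_dvd (by omega) (hi ▸ dvd_pow_self p hi0.ne' : p ∣ g')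
        omega
  obtain ⟨z, hz⟩ := exists_prime_orderOf_dvd_card' (G := G) p
    (by rw [hcard', mul_assoc]; exact dvd_mul_right _ _)
  obtain ⟨m, hm, hC, hn⟩ := shape_main hG hq hqg hg' hg2 hpq hb hcard' hz
  exact ⟨m, hm, z, hz, hC, hn⟩

end Cfsg.Agent.H85.BT
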